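import Cfsg.Agent.Uni36.PM10

set_option autoImplicit false
set_option maxRecDepth 100000
set_option linter.unusedSectionVars false

/-!
The data for the alternating group of degree six.
-/

namespace Cfsg.Agent.Uni36.PM.A6

open Equiv Equiv.Perm

abbrev K6 := alternatingGroup (Fin 6)

def U0 : Subgroup K6 where
  carrier := {g | (g : P6) ∈ U8}
  one_mem' := mems.2.2.2.1
  mul_mem' h h' := U8_mul _ h _ h'
  inv_mem' h := U8_inv _ h

def W1 : Subgroup K6 where
  carrier := {g | (g : P6) ∈ V1}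
  one_mem' := mems.2.2.2.2.1
  mul_mem' h h' := V1_mul _ h _ h'
  inv_mem' h := V1_inv _ h

def W2 : Subgroup K6 where
  carrier := {g | (g : P6) ∈ V2}
  one_mem' := mems.2.2.2.2.2.1
  mul_mem' h h' := V2_mul _ h _ h'
  inv_mem' h := V2_inv _ h

lemma mem_U0 {g : K6} : g ∈ U0 ↔ (g : P6) ∈ U8 := Iff.rfl
lemma mem_W1 {g : K6} : g ∈ W1 ↔ (g : P6) ∈ V1 := Iff.rfl
lemma mem_W2 {g : K6} : g ∈ W2 ↔ (g : P6) ∈ V2 := Iff.rfl

def z' : K6 := ⟨pz, Equiv.Perm.mem_alternatingGroup.2 (U8_sign _ mems.1)⟩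
def c1 : K6 := ⟨pc1, Equiv.Perm.mem_alternatingGroup.2 c1_norm.1⟩
def c2 : K6 := ⟨pc2, Equiv.Perm.mem_alternatingGroup.2 c2_norm.1⟩

lemma cent_z {g : K6} (h : g * z' = z' * g) : g ∈ U0 :=
  centz g (Equiv.Perm.mem_alternatingGroup.1 g.2) (congrArg Subtype.val h)

lemma card_U0 : Nat.card U0 = 2 ^ 3 := by
  have e : U0 ≃ {x : P6 // x ∈ U8} :=
    { toFun := fun g => ⟨g.1.1, g.2⟩
      invFun := fun x => ⟨⟨x.1, Equiv.Perm.mem_alternatingGroup.2 (U8_sign _ x.2)⟩, x.2⟩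
      left_inv := fun g => rfl
      right_inv := fun x => rfl }
  rw [Nat.card_congr e]
  have h1 : Nat.card {x : P6 // x ∈ U8} = Nat.card {x : P6 // x ∈ U8.toFinset} :=
    Nat.card_congr (Equiv.subtypeEquivRight fun x => by rw [List.mem_toFinset])
  rw [h1, Nat.card_eq_fintype_card, Fintype.card_coe, List.toFinset_card_of_nodup U8_nodup]
  rfl

instance : Fact (Nat.Prime 2) := ⟨Nat.prime_two⟩

lemma not_dvd : ¬ 2 ∣ U0.index := by
  have h1 := U0.card_mul_index
  rw [card_U0, card_A6] at h1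
  have h2 : U0.index = 45 := by omega
  rw [h2]; norm_num

/-- the Sylow subgroup -/
noncomputable def S0 : Sylow 2 K6 := (IsPGroup.of_card card_U0).toSylow not_dvd

lemma S0_coe : (S0 : Subgroup K6) = U0 := rfl

/-- normalizing `U` means centralizing `z` -/
lemma norm_U0 {g : K6} (h : ∀ x ∈ U0, g * x * g⁻¹ ∈ U0) : g ∈ U0 := by
  apply cent_z
  have hx : (⟨pab, Equiv.Perm.mem_alternatingGroup.2 (U8_sign _ x4.1)⟩ : K6) ∈ U0 := x4.1
  have h1 := h _ hx
  set x : K6 := ⟨pab, Equiv.Perm.mem_alternatingGroup.2 (U8_sign _ x4.1)⟩ with hxd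
  have hxx : x * x = z' := Subtype.ext x4.2
  have h2 : (g * x * g⁻¹) * (g * x * g⁻¹) = g * z' * g⁻¹ := by rw [← hxx]; group
  have hz1 : z' ≠ 1 := fun h => mems.2.2.2.2.2.2.1 (congrArg Subtype.val h)
  have h3 : (g * x * g⁻¹) * (g * x * g⁻¹) = z' := by
    apply Subtype.ext
    refine U8_ord4 _ h1 (fun h4 => ?_)
    have h5 : (g * x * g⁻¹) * (g * x * g⁻¹) = 1 := Subtype.ext h4
    rw [h2] at h5
    exact hz1 (conj_eq_one_iff.1 h5)
  rw [h2] at h3
  exact mul_inv_eq_iff_eq_mul.1 h3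

lemma mem_norm {A : Subgroup K6} {g : K6} : g ∈ Subgroup.normalizer (A : Set K6) ↔ ∀ x ∈ A, g * x * g⁻¹ ∈ A := by
  rw [Subgroup.mem_normalizer_iff_map_conj_eq]
  constructor
  · intro h x hx
    have h : A.map (MulAut.conj g).toMonoidHom = A := h
    rw [← h]; exact ⟨x, hx, rfl⟩
  · intro h
    show A.map (MulAut.conj g).toMonoidHom = A
    refine Subgroup.eq_of_le_of_card_ge ?_ ?_
    · rintro _ ⟨x, hx, rfl⟩; exact h x hx
    · rw [Subgroup.card_map_of_injective (MulAut.conj g).injective]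

lemma norm_U0_eq : Subgroup.normalizer (U0 : Set K6) = U0 :=
  le_antisymm (fun _ hg => norm_U0 (mem_norm.1 hg)) Subgroup.le_normalizer

lemma U0_le_P1 : U0 ≤ Subgroup.normalizer (W1 : Set K6) := fun g hg => mem_norm.2 fun x hx => V1_norm g hg x hx
lemma U0_le_P2 : U0 ≤ Subgroup.normalizer (W2 : Set K6) := fun g hg => mem_norm.2 fun x hx => V2_norm g hg x hx

lemma rel_le {A : Subgroup K6} (hU : U0 ≤ Subgroup.normalizer (A : Set K6)) (hz : z' ∈ A) {x1 x2 x3 : P6}
    (h3 : ∀ x ∈ A, x ≠ 1 → (x : P6) = x1 ∨ (x : P6) = x2 ∨ (x : P6) = x3) {M : Subgroup K6}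
    (hUM : U0 ≤ M) (hne : ¬ M ≤ U0) (hM : M ≤ Subgroup.normalizer (A : Set K6)) : Subgroup.normalizer (A : Set K6) ≤ M := by
  classical
  have hz1 : z' ≠ 1 := fun h => mems.2.2.2.2.2.2.1 (congrArg Subtype.val h)
  -- the index is at most three
  have hidx : U0.relIndex (Subgroup.normalizer (A : Set K6)) ≤ 3 := by
    have hval : ∀ g : Subgroup.normalizer (A : Set K6), ∃ i : Fin 3, (((g : K6) * z' * (g : K6)⁻¹ : K6) : P6) = ![x1, x2, x3] i := by
      intro g
      rcases h3 _ (mem_norm.1 g.2 z' hz) (fun h => hz1 (conj_eq_one_iff.1 h)) with h | h | h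
      · exact ⟨0, h⟩
      · exact ⟨1, h⟩
      · exact ⟨2, h⟩
    choose f hf using hval
    have hinj : Function.Injective (fun q : Subgroup.normalizer (A : Set K6) ⧸ U0.subgroupOf (Subgroup.normalizer (A : Set K6)) =>
        f q.out) := by
      intro q q' hqq
      have h1 : f q.out = f q'.out := hqq
      have h2 : (((q.out : K6) * z' * (q.out : K6)⁻¹ : K6) : P6) = (((q'.out : K6) * z' * (q'.out : K6)⁻¹ : K6) : P6) := by
        rw [hf, hf, h1]
      have h4 : (q.out : K6) * z' * (q.out : K6)⁻¹ = (q'.out : K6) * z' * (q'.out : K6)⁻¹ := Subtype.ext h2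
      have h5 : (q.out : K6)⁻¹ * q'.out ∈ U0 := by
        apply cent_z
        have : (q'.out : K6) * z' = (q.out : K6) * z' * (q.out : K6)⁻¹ * q'.out := by rw [h4]; group
        rw [mul_assoc, this]; group
      rw [← q.out_eq', ← q'.out_eq']
      exact QuotientGroup.eq.2 h5
    have h6 := Nat.card_le_card_of_injective _ hinj
    rwa [Nat.card_eq_fintype_card (α := Fin 3), Fintype.card_fin] at h6
  have hodd : ¬ 2 ∣ U0.relIndex (Subgroup.normalizer (A : Set K6)) := by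
    intro hd
    have := Subgroup.relIndex_mul_index hU
    exact not_dvd (hd.trans ⟨_, this.symm⟩)
  have h1 := Subgroup.relIndex_mul_relIndex U0 M _ hUM hM
  have h2 : U0.relIndex M ≠ 1 := fun h => hne (Subgroup.relIndex_eq_one.1 h)
  have h4 : U0.relIndex (Subgroup.normalizer (A : Set K6)) ≠ 0 := Subgroup.index_ne_zero_of_finite
  have h5 : U0.relIndex M ≠ 0 := Subgroup.index_ne_zero_of_finite
  have h7 : U0.relIndex (Subgroup.normalizer (A : Set K6)) ≠ 2 := fun h => hodd (by rw [h])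
  rw [← Subgroup.relIndex_eq_one]
  rw [← h1] at hidx h4 h7
  rcases Nat.lt_or_ge (M.relIndex (Subgroup.normalizer (A : Set K6))) 2 with h | h
  · have h0 : M.relIndex (Subgroup.normalizer (A : Set K6)) ≠ 0 := fun h' => h4 (by rw [h', mul_zero])
    omega
  · exfalso
    have h8 : 2 ≤ U0.relIndex M := by omega
    have := Nat.mul_le_mul h8 h
    omega

lemma z_mem {M W : Subgroup K6} (hUM : U0 ≤ M) (hWU : W ≤ U0) (hW1 : W ≠ ⊥) (hW : ∀ m ∈ M, ∀ w ∈ W, m * w * m⁻¹ ∈ W) : z' ∈ W := by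
  obtain ⟨w, hw, hw1⟩ : ∃ w ∈ W, w ≠ 1 := by
    by_contra hcon
    push Not at hcon
    exact hW1 ((Subgroup.eq_bot_iff_forall W).2 hcon)
  rcases U8_comm w (hWU hw) (fun h => hw1 (Subtype.ext h)) with h | ⟨u, hu, h⟩
  · have : w = z' := Subtype.ext h
    rwa [← this]
  · obtain ⟨u', hu'⟩ : ∃ u' : K6, (u' : P6) = u := ⟨⟨u, Equiv.Perm.mem_alternatingGroup.2 (U8_sign _ hu)⟩, rfl⟩
    have h1 : w * (u' * w⁻¹ * u'⁻¹) = z' := by
      apply Subtype.ext
      rw [← hu'] at h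
      exact h
    rw [← h1]
    exact mul_mem hw (hW u' (hUM (by rw [mem_U0, hu']; exact hu)) _ (inv_mem hw))

theorem dich {M : Subgroup K6} (hUM : U0 ≤ M) (hne : ¬ M ≤ U0) (hM : M ≠ ⊤) :
    Subgroup.normalizer (W1 : Set K6) = M ∨ Subgroup.normalizer (W2 : Set K6) = M := by
  obtain ⟨W, hWU, hW1, hW⟩ := exists_W top_A6 S0 (M := M) hUM hM
  have hWU : W ≤ U0 := hWU
  have hz := z_mem hUM hWU hW1 hW
  have hz1 : z' ≠ 1 := fun h => mems.2.2.2.2.2.2.1 (congrArg Subtype.val h)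
  obtain ⟨m, hm, hmz⟩ : ∃ m ∈ M, m * z' * m⁻¹ ≠ z' := by
    by_contra hcon
    push Not at hcon
    exact hne fun m hm => cent_z (mul_inv_eq_iff_eq_mul.1 (hcon m hm))
  have ht := hW m hm z' hz
  have htt : (m * z' * m⁻¹) * (m * z' * m⁻¹) = 1 := by
    have hzz : z' * z' = 1 := Subtype.ext mems.2.2.2.2.2.2.2.1
    have : (m * z' * m⁻¹) * (m * z' * m⁻¹) = m * (z' * z') * m⁻¹ := by group
    rw [this, hzz]; group
  have ht1 : m * z' * m⁻¹ ≠ 1 := fun h => hz1 (conj_eq_one_iff.1 h)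
  set t := m * z' * m⁻¹ with htd
  have hWne : ¬ U0 ≤ W := by
    intro h
    have hm' := norm_U0 (g := m) fun x hx => hWU (hW m hm x (h hx))
    -- then `m` centralizes `z`
    have h1 : (⟨pab, Equiv.Perm.mem_alternatingGroup.2 (U8_sign _ x4.1)⟩ : K6) ∈ U0 := x4.1
    set x : K6 := ⟨pab, Equiv.Perm.mem_alternatingGroup.2 (U8_sign _ x4.1)⟩ with hxd
    have hxx : x * x = z' := Subtype.ext x4.2
    have h2 : (m * x * m⁻¹) * (m * x * m⁻¹) = t := by rw [htd, ← hxx]; group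
    have h3 : (m * x * m⁻¹) * (m * x * m⁻¹) = z' := by
      apply Subtype.ext
      refine U8_ord4 _ (mul_mem (mul_mem hm' h1) (inv_mem hm')) (fun h4 => ?_)
      have h5 : (m * x * m⁻¹) * (m * x * m⁻¹) = 1 := Subtype.ext h4
      rw [h2] at h5
      exact ht1 h5
    rw [h2] at h3
    exact hmz h3
  have hspan : ∀ x : K6, ((x : P6) = 1 ∨ (x : P6) = pz ∨ (x : P6) = (t : P6) ∨ (x : P6) = pz * (t : P6)) → x ∈ W := by
    rintro x (h | h | h | h)
    · have : x = 1 := Subtype.ext h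
      rw [this]; exact one_mem _
    · have : x = z' := Subtype.ext h
      rw [this]; exact hz
    · have : x = t := Subtype.ext h
      rw [this]; exact ht
    · have : x = z' * t := Subtype.ext h
      rw [this]; exact mul_mem hz ht
  rcases V_sub1 t (hWU ht) (congrArg Subtype.val htt) (fun h => ht1 (Subtype.ext h)) (fun h => hmz (Subtype.ext h)) with
    ⟨-, h⟩ | ⟨-, h⟩
  · left
    have h1 : W1 ≤ W := fun x hx => hspan x (h x hx)
    have h2 : W ≤ W1 := by
      intro x hx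
      by_contra hx1
      apply hWne
      intro y hy
      rcases gen1 x (hWU hx) hx1 y hy with h3 | h3
      · exact h1 h3
      · have h4 : y * x⁻¹ ∈ W := h1 (show y * x⁻¹ ∈ W1 from h3)
        have := mul_mem h4 hx
        rwa [inv_mul_cancel_right] at this
    have h3 : W = W1 := le_antisymm h2 h1
    have hMW : M ≤ Subgroup.normalizer (W1 : Set K6) := fun g hg => mem_norm.2 fun x hx => by
      rw [← h3] at hx ⊢; exact hW g hg x hx
    exact le_antisymm (rel_le U0_le_P1 mems.2.1 (fun x hx hx1 => V1_three x hx (fun h => hx1 (Subtype.ext h))) hUM hne hMW) hMW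
  · right
    have h1 : W2 ≤ W := fun x hx => hspan x (h x hx)
    have h2 : W ≤ W2 := by
      intro x hx
      by_contra hx1
      apply hWne
      intro y hy
      rcases gen2 x (hWU hx) hx1 y hy with h3 | h3
      · exact h1 h3
      · have h4 : y * x⁻¹ ∈ W := h1 (show y * x⁻¹ ∈ W2 from h3)
        have := mul_mem h4 hx
        rwa [inv_mul_cancel_right] at this
    have h3 : W = W2 := le_antisymm h2 h1
    have hMW : M ≤ Subgroup.normalizer (W2 : Set K6) := fun g hg => mem_norm.2 fun x hx => by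
      rw [← h3] at hx ⊢; exact hW g hg x hx
    exact le_antisymm (rel_le U0_le_P2 mems.2.2.1 (fun x hx hx1 => V2_three x hx (fun h => hx1 (Subtype.ext h))) hUM hne hMW) hMW

theorem c1_P1 : c1 ∈ Subgroup.normalizer (W1 : Set K6) := by
  rw [mem_norm]
  have h1 : c1 * z' * c1⁻¹ ∈ W1 := c1_norm.2.1
  have h2 : c1 * (⟨pa, Equiv.Perm.mem_alternatingGroup.2 (U8_sign _ mem_pa)⟩ : K6) * c1⁻¹ ∈ W1 := c1_norm.2.2.1
  intro x hx
  rcases V1_gen' x hx with h | h | h | h
  · have : x = 1 := Subtype.ext h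
    rw [this, mul_one, mul_inv_cancel]; exact one_mem _
  · have : x = z' := Subtype.ext h
    rw [this]; exact h1
  · have : x = (⟨pa, Equiv.Perm.mem_alternatingGroup.2 (U8_sign _ mem_pa)⟩ : K6) := Subtype.ext h
    rw [this]; exact h2
  · have : x = z' * (⟨pa, Equiv.Perm.mem_alternatingGroup.2 (U8_sign _ mem_pa)⟩ : K6) := Subtype.ext h
    rw [this]
    have e : c1 * (z' * (⟨pa, Equiv.Perm.mem_alternatingGroup.2 (U8_sign _ mem_pa)⟩ : K6)) * c1⁻¹ =
      (c1 * z' * c1⁻¹) * (c1 * (⟨pa, Equiv.Perm.mem_alternatingGroup.2 (U8_sign _ mem_pa)⟩ : K6) * c1⁻¹) := by group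
    rw [e]; exact mul_mem h1 h2

theorem c2_P2 : c2 ∈ Subgroup.normalizer (W2 : Set K6) := by
  rw [mem_norm]
  have h1 : c2 * z' * c2⁻¹ ∈ W2 := c2_norm.2.1
  have h2 : c2 * (⟨pb, Equiv.Perm.mem_alternatingGroup.2 (U8_sign _ mem_pb)⟩ : K6) * c2⁻¹ ∈ W2 := c2_norm.2.2.1
  intro x hx
  rcases V2_gen' x hx with h | h | h | h
  · have : x = 1 := Subtype.ext h
    rw [this, mul_one, mul_inv_cancel]; exact one_mem _
  · have : x = z' := Subtype.ext h
    rw [this]; exact h1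
  · have : x = (⟨pb, Equiv.Perm.mem_alternatingGroup.2 (U8_sign _ mem_pb)⟩ : K6) := Subtype.ext h
    rw [this]; exact h2
  · have : x = z' * (⟨pb, Equiv.Perm.mem_alternatingGroup.2 (U8_sign _ mem_pb)⟩ : K6) := Subtype.ext h
    rw [this]
    have e : c2 * (z' * (⟨pb, Equiv.Perm.mem_alternatingGroup.2 (U8_sign _ mem_pb)⟩ : K6)) * c2⁻¹ =
      (c2 * z' * c2⁻¹) * (c2 * (⟨pb, Equiv.Perm.mem_alternatingGroup.2 (U8_sign _ mem_pb)⟩ : K6) * c2⁻¹) := by group
    rw [e]; exact mul_mem h1 h2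

theorem row_A6 : Row 2 (alternatingGroup (Fin 6)) := by
  have hz1 : z' ≠ 1 := fun h => mems.2.2.2.2.2.2.1 (congrArg Subtype.val h)
  have c1U : c1 ∉ U0 := mems.2.2.2.2.2.2.2.2.1
  have c2U : c2 ∉ U0 := mems.2.2.2.2.2.2.2.2.2
  have h12 : c1 ∉ Subgroup.normalizer (W2 : Set K6) := fun h =>
    c1_norm.2.2.2 (mem_norm.1 h z' mems.2.2.1)
  have h21 : c2 ∉ Subgroup.normalizer (W1 : Set K6) := fun h =>
    c2_norm.2.2.2 (mem_norm.1 h z' mems.2.1)
  have hP1 : Subgroup.normalizer (W1 : Set K6) ≠ ⊤ := fun h => h21 (by rw [h]; trivial)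
  have hP2 : Subgroup.normalizer (W2 : Set K6) ≠ ⊤ := fun h => h12 (by rw [h]; trivial)
  have hn1 : ¬ Subgroup.normalizer (W1 : Set K6) ≤ U0 := fun h => c1U (h c1_P1)
  have hn2 : ¬ Subgroup.normalizer (W2 : Set K6) ≤ U0 := fun h => c2U (h c2_P2)
  refine ⟨S0, 2, ![Subgroup.normalizer (W1 : Set K6), Subgroup.normalizer (W2 : Set K6)], ?_,
    fun _ => Or.inr ⟨rfl, Or.inr (Or.inr (Or.inr ⟨MulEquiv.refl _⟩))⟩⟩
  rw [S0_coe, norm_U0_eq]
  refine ⟨by norm_num, ?_, ?_, ?_, ?_, ?_, ?_⟩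
  · intro j
    fin_cases j
    · exact U0_le_P1
    · exact U0_le_P2
  · intro j
    fin_cases j
    · exact hn1
    · exact hn2
  · intro M hM hne
    by_cases hM1 : M = ⊤
    · exact ⟨0, by rw [hM1]; exact le_top⟩
    · rcases dich hM hne hM1 with h | h
      · exact ⟨0, h.le⟩
      · exact ⟨1, h.le⟩
  · intro i j h
    fin_cases i <;> fin_cases j
    · rfl
    · exact absurd (h c1_P1) h12
    · exact absurd (h c2_P2) h21
    · rfl
  · intro M hM
    by_contra hM1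
    have h0 : Subgroup.normalizer (W1 : Set K6) ≤ M := hM 0
    have h1 : Subgroup.normalizer (W2 : Set K6) ≤ M := hM 1
    rcases dich (U0_le_P1.trans h0) (fun h => hn1 (h0.trans h)) hM1 with h | h
    · exact h21 (h ▸ h1 c2_P2)
    · exact h12 (h ▸ h0 c1_P1)
  · intro J hJ
    obtain ⟨i, hi⟩ : ∃ i, i ∉ J := by
      by_contra hcon
      push Not at hcon
      exact hJ (Set.eq_univ_of_forall hcon)
    fin_cases i
    · refine ⟨Subgroup.normalizer (W2 : Set K6), hP2, U0_le_P2, fun k hk => ?_⟩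
      fin_cases k
      · exact absurd hk hi
      · exact le_rfl
    · refine ⟨Subgroup.normalizer (W1 : Set K6), hP1, U0_le_P1, fun k hk => ?_⟩
      fin_cases k
      · exact le_rfl
      · exact absurd hk hi

end Cfsg.Agent.Uni36.PM.A6
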