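import Cfsg.Agent.Uni36.PM12

set_option autoImplicit false
set_option maxRecDepth 100000
set_option linter.unusedSectionVars false
set_option linter.unusedSimpArgs false

/-!
The unitary group of degree three over the field with nine elements.
-/

namespace Cfsg.Agent.Uni36.PM.U3

open Matrix Cfsg.Agent.Uni Cfsg.Agent.AutPSU Cfsg
open scoped commutatorElement

variable {F : Type*} [Field F] [Fintype F]

def E (x : SU 3 F 3) (i j : Fin 3) : F := ((x : SpecialLinearGroup (Fin 3) F) : Matrix (Fin 3) (Fin 3) F) i j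

lemma E_mul (x y : SU 3 F 3) (i j : Fin 3) : E (x * y) i j = E x i 0 * E y 0 j + E x i 1 * E y 1 j + E x i 2 * E y 2 j := by
  rw [E, SU_coe_mul, Matrix.mul_apply, Fin.sum_univ_three]; rfl

lemma E_one (i j : Fin 3) : E (1 : SU 3 F 3) i j = if i = j then 1 else 0 := by
  show (1 : Matrix (Fin 3) (Fin 3) F) i j = _
  rw [Matrix.one_apply]

lemma E_ext {x y : SU 3 F 3} (h : ∀ i j, E x i j = E y i j) : x = y := by
  apply SU_ext
  ext i j
  exact h i j

lemma E_mk (M : Matrix (Fin 3) (Fin 3) F) (hM : Pres 3 M) (hdet : M.det = 1) (i j : Fin 3) : E (mkSU M hM hdet) i j = M i j := rfl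

def Bk (x : SU 3 F 3) : Prop := E x 0 2 = 0 ∧ E x 1 2 = 0 ∧ E x 2 0 = 0 ∧ E x 2 1 = 0
def Dg (x : SU 3 F 3) : Prop := Bk x ∧ E x 0 1 = 0 ∧ E x 1 0 = 0
def An (x : SU 3 F 3) : Prop := Bk x ∧ E x 0 0 = 0 ∧ E x 1 1 = 0

lemma Bk.mul {x y : SU 3 F 3} (hx : Bk x) (hy : Bk y) : Bk (x * y) := by
  obtain ⟨a, b, c, d⟩ := hx
  obtain ⟨a', b', c', d'⟩ := hy
  refine ⟨?_, ?_, ?_, ?_⟩ <;> simp [E_mul, a, b, c, d, a', b', c', d']

lemma Dg.mul {x y : SU 3 F 3} (hx : Dg x) (hy : Dg y) : Dg (x * y) := by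
  obtain ⟨h, a, b⟩ := hx
  obtain ⟨h', a', b'⟩ := hy
  refine ⟨h.mul h', ?_, ?_⟩ <;> simp [E_mul, a, b, a', b', h.1, h.2.1, h.2.2.1, h.2.2.2]

lemma Dg.mul_An {x y : SU 3 F 3} (hx : Dg x) (hy : An y) : An (x * y) := by
  obtain ⟨h, a, b⟩ := hx
  obtain ⟨h', a', b'⟩ := hy
  refine ⟨h.mul h', ?_, ?_⟩ <;> simp [E_mul, a, b, a', b', h.1, h.2.1, h.2.2.1, h.2.2.2]

lemma An.mul_Dg {x y : SU 3 F 3} (hx : An x) (hy : Dg y) : An (x * y) := by
  obtain ⟨h, a, b⟩ := hx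
  obtain ⟨h', a', b'⟩ := hy
  refine ⟨h.mul h', ?_, ?_⟩ <;> simp [E_mul, a, b, a', b', h.1, h.2.1, h.2.2.1, h.2.2.2]

lemma An.mul {x y : SU 3 F 3} (hx : An x) (hy : An y) : Dg (x * y) := by
  obtain ⟨h, a, b⟩ := hx
  obtain ⟨h', a', b'⟩ := hy
  refine ⟨h.mul h', ?_, ?_⟩ <;> simp [E_mul, a, b, a', b', h.1, h.2.1, h.2.2.1, h.2.2.2]

lemma Dg.one : Dg (1 : SU 3 F 3) := by
  refine ⟨⟨?_, ?_, ?_, ?_⟩, ?_, ?_⟩ <;> simp [E_one]

lemma not_An_one : ¬ An (1 : SU 3 F 3) := by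
  rintro ⟨-, h, -⟩
  rw [E_one, if_pos rfl] at h
  exact one_ne_zero h

lemma DA_mul {x y : SU 3 F 3} (hx : Dg x ∨ An x) (hy : Dg y ∨ An y) : Dg (x * y) ∨ An (x * y) := by
  rcases hx with hx | hx <;> rcases hy with hy | hy
  · exact Or.inl (hx.mul hy)
  · exact Or.inr (hx.mul_An hy)
  · exact Or.inr (hx.mul_Dg hy)
  · exact Or.inl (hx.mul hy)

lemma DA_pow {x : SU 3 F 3} (hx : Dg x ∨ An x) (n : ℕ) : Dg (x ^ n) ∨ An (x ^ n) := by
  induction n with
  | zero => rw [pow_zero]; exact Or.inl Dg.one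
  | succ n ih => rw [pow_succ]; exact DA_mul ih hx

lemma DA_inv {x : SU 3 F 3} (hx : Dg x ∨ An x) : Dg x⁻¹ ∨ An x⁻¹ := by
  have h1 : 0 < orderOf x := orderOf_pos x
  have h2 : x⁻¹ = x ^ (orderOf x - 1) := by
    rw [inv_eq_iff_mul_eq_one, ← pow_succ', Nat.sub_add_cancel h1, pow_orderOf_eq_one]
  rw [h2]
  exact DA_pow hx _

lemma Dg.inv {x : SU 3 F 3} (hx : Dg x) : Dg x⁻¹ := by
  rcases DA_inv (Or.inl hx) with h | h
  · exact h
  · have := hx.mul_An h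
    rw [mul_inv_cancel] at this
    exact absurd this not_An_one

lemma An.inv {x : SU 3 F 3} (hx : An x) : An x⁻¹ := by
  rcases DA_inv (Or.inr hx) with h | h
  · have := hx.mul_Dg h
    rw [mul_inv_cancel] at this
    exact absurd this not_An_one
  · exact h

variable (F) in
/-- the Sylow subgroup -/
def U0 : Subgroup (SU 3 F 3) where
  carrier := {x | Dg x ∨ An x}
  one_mem' := Or.inl Dg.one
  mul_mem' := DA_mul
  inv_mem' := DA_inv

lemma mem_U0 {x : SU 3 F 3} : x ∈ U0 F ↔ Dg x ∨ An x := Iff.rfl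

lemma Dg.pow {x : SU 3 F 3} (hx : Dg x) (n : ℕ) :
    Dg (x ^ n) ∧ E (x ^ n) 0 0 = E x 0 0 ^ n ∧ E (x ^ n) 1 1 = E x 1 1 ^ n ∧ E (x ^ n) 2 2 = E x 2 2 ^ n := by
  induction n with
  | zero => simp [pow_zero, Dg.one, E_one]
  | succ n ih =>
    obtain ⟨i0, i1, i2, i3⟩ := ih
    rw [pow_succ]
    refine ⟨i0.mul hx, ?_, ?_, ?_⟩
    · rw [E_mul, i1, hx.1.2.2.1, hx.2.2, pow_succ]; ring
    · rw [E_mul, i2, hx.1.2.2.2, hx.2.1, pow_succ]; ring
    · rw [E_mul, i3, hx.1.1, hx.1.2.1, pow_succ]; ring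

lemma Dg.ext {x y : SU 3 F 3} (hx : Dg x) (hy : Dg y) (h0 : E x 0 0 = E y 0 0) (h1 : E x 1 1 = E y 1 1) (h2 : E x 2 2 = E y 2 2) : x = y := by
  apply E_ext
  intro i j
  fin_cases i <;> fin_cases j
  · exact h0
  · exact hx.2.1.trans hy.2.1.symm
  · exact hx.1.1.trans hy.1.1.symm
  · exact hx.2.2.trans hy.2.2.symm
  · exact h1
  · exact hx.1.2.1.trans hy.1.2.1.symm
  · exact hx.1.2.2.1.trans hy.1.2.2.1.symm
  · exact hx.1.2.2.2.trans hy.1.2.2.2.symm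
  · exact h2

lemma Dg.prod {x : SU 3 F 3} (hx : Dg x) : E x 0 0 * E x 1 1 * E x 2 2 = 1 := by
  have h := x.1.2
  rw [Matrix.det_fin_three] at h
  have e1 : x.1.1 0 1 = 0 := hx.2.1
  have e2 : x.1.1 1 0 = 0 := hx.2.2
  have e3 : x.1.1 0 2 = 0 := hx.1.1
  have e4 : x.1.1 1 2 = 0 := hx.1.2.1
  have e5 : x.1.1 2 0 = 0 := hx.1.2.2.1
  rw [e1, e2, e3, e4] at h
  have h' : x.1.1 0 0 * x.1.1 1 1 * x.1.1 2 2 = 1 := by linear_combination h
  exact h'

variable (hF : Fintype.card F = 3 ^ 2)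

include hF

lemma pow8 {a : F} (ha : a ≠ 0) : a ^ 8 = 1 := by
  have := FiniteField.pow_card_sub_one_eq_one a ha
  rwa [hF] at this

lemma Dg.pow8 {x : SU 3 F 3} (hx : Dg x) : x ^ 8 = 1 := by
  obtain ⟨h, h0, h1, h2⟩ := hx.pow 8
  have hp := hx.prod
  refine h.ext Dg.one ?_ ?_ ?_
  · rw [h0, E_one, if_pos rfl]
    refine U3.pow8 hF ?_
    intro h; rw [h] at hp; simp at hp
  · rw [h1, E_one, if_pos rfl]
    refine U3.pow8 hF ?_
    intro h; rw [h] at hp; simp at hp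
  · rw [h2, E_one, if_pos rfl]
    refine U3.pow8 hF ?_
    intro h; rw [h] at hp; simp at hp

lemma U0_pgroup : IsPGroup 2 ↥(U0 F) := by
  rintro ⟨x, hx⟩
  refine ⟨4, Subtype.ext ?_⟩
  show x ^ 2 ^ 4 = 1
  rcases mem_U0.1 hx with h | h
  · have e : (2 : ℕ) ^ 4 = 8 * 2 := by norm_num
    rw [e, pow_mul, h.pow8 hF, one_pow]
  · have e : (2 : ℕ) ^ 4 = 2 * 8 := by norm_num
    rw [e, pow_mul, pow_two, (h.mul h).pow8 hF]

lemma neg4 : (-1 : F) ^ 4 = 1 := by norm_num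

/-- the diagonal elements -/
lemma exists_D {i : F} (hi : i ^ 2 = -1) (a b : ℕ) : ∃ x : SU 3 F 3, Dg x ∧ E x 0 0 = i ^ a ∧ E x 1 1 = i ^ b ∧ E x 2 2 = i ^ (3 * (a + b)) := by
  have h4 : i ^ 4 = 1 := by
    have : i ^ 4 = (i ^ 2) ^ 2 := by ring
    rw [this, hi]; ring
  refine ⟨mkSU (Matrix.diagonal ![i ^ a, i ^ b, i ^ (3 * (a + b))]) (pres_diagonal _ ?_) ?_, ?_, ?_, ?_, ?_⟩
  · intro k
    fin_cases k
    · show (i ^ a) ^ 4 = 1
      rw [← pow_mul, mul_comm, pow_mul, h4, one_pow]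
    · show (i ^ b) ^ 4 = 1
      rw [← pow_mul, mul_comm, pow_mul, h4, one_pow]
    · show (i ^ (3 * (a + b))) ^ 4 = 1
      rw [← pow_mul, mul_comm, pow_mul, h4, one_pow]
  · rw [Matrix.det_diagonal, Fin.prod_univ_three]
    show i ^ a * i ^ b * i ^ (3 * (a + b)) = 1
    rw [← pow_add, ← pow_add]
    have : a + b + 3 * (a + b) = 4 * (a + b) := by ring
    rw [this, pow_mul, h4, one_pow]
  · refine ⟨⟨?_, ?_, ?_, ?_⟩, ?_, ?_⟩ <;> rw [E_mk, Matrix.diagonal_apply_ne _ (by decide)]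
  · rw [E_mk, Matrix.diagonal_apply_eq]; rfl
  · rw [E_mk, Matrix.diagonal_apply_eq]; rfl
  · rw [E_mk, Matrix.diagonal_apply_eq]; rfl

lemma exists_t : ∃ t : SU 3 F 3, An t ∧ E t 0 1 = 1 ∧ E t 1 0 = 1 ∧ E t 2 2 = -1 := by
  have hpres : Pres 3 (!![0, 1, 0; 1, 0, 0; 0, 0, -1] : Matrix (Fin 3) (Fin 3) F) := by
    rw [pres_iff_transpose_mul hF]
    ext i j
    rw [Matrix.mul_apply, Fin.sum_univ_three]
    fin_cases i <;> fin_cases j <;> simp
    norm_num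
  have hdet : (!![0, 1, 0; 1, 0, 0; 0, 0, -1] : Matrix (Fin 3) (Fin 3) F).det = 1 := by
    rw [Matrix.det_fin_three]
    simp
  refine ⟨mkSU _ hpres hdet, ?_, ?_, ?_, ?_⟩
  · refine ⟨⟨?_, ?_, ?_, ?_⟩, ?_, ?_⟩ <;> rw [E_mk] <;> rfl
  · rw [E_mk]; rfl
  · rw [E_mk]; rfl
  · rw [E_mk]; rfl

lemma exists_c : ∃ c : SU 3 F 3, ∀ x y : SU 3 F 3, c * x = y * c → ∀ i j, E y i j = E x (i + 1) (j + 1) := by
  have hpres : Pres 3 (!![0, 1, 0; 0, 0, 1; 1, 0, 0] : Matrix (Fin 3) (Fin 3) F) := by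
    rw [pres_iff_transpose_mul hF]
    ext i j
    rw [Matrix.mul_apply, Fin.sum_univ_three]
    fin_cases i <;> fin_cases j <;> simp
  have hdet : (!![0, 1, 0; 0, 0, 1; 1, 0, 0] : Matrix (Fin 3) (Fin 3) F).det = 1 := by
    rw [Matrix.det_fin_three]
    simp
  refine ⟨mkSU _ hpres hdet, fun x y h i j => ?_⟩
  have h1 : ∀ i j, E (mkSU _ hpres hdet * x) i j = E (y * mkSU _ hpres hdet) i j := fun i j => by rw [h]
  have h2 := h1 i (j + 1)
  rw [E_mul, E_mul] at h2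
  simp only [E_mk] at h2
  fin_cases i <;> fin_cases j <;> simp at h2 ⊢ <;> exact h2.symm

lemma exists_g : ∃ g : SU 3 F 3, (∀ x : SU 3 F 3, Dg x → E x 0 0 = E x 1 1 → g * x = x * g) ∧
    (∀ x y : SU 3 F 3, Dg x → Dg y → g * x = y * g → E x 0 0 = E x 1 1) := by
  obtain ⟨a, ha⟩ := U33.exists_a hF
  have h3 := U33.three hF
  have ha0 : a ≠ 0 := by
    rintro rfl
    have : (1 : F) = 0 := by linear_combination ha
    exact one_ne_zero this
  have hpres : Pres 3 (!![a, a, 0; -a ^ 3, a ^ 3, 0; 0, 0, 1] : Matrix (Fin 3) (Fin 3) F) := by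
    rw [pres_iff_transpose_mul hF]
    ext i j
    rw [Matrix.mul_apply, Fin.sum_univ_three]
    have hc : ∀ z : F, Cfsg.Agent.Uni.conjHom hF z = z ^ 3 := fun z => Cfsg.Agent.Uni.conjHom_apply hF z
    fin_cases i <;> fin_cases j <;> simp [hc]
    · linear_combination (a ^ 8 - a ^ 4 + 2) * ha - h3
    · linear_combination (-a ^ 8 + a ^ 4) * ha
    · linear_combination (-a ^ 8 + a ^ 4) * ha
    · linear_combination (a ^ 8 - a ^ 4 + 2) * ha - h3
  have hdet : (!![a, a, 0; -a ^ 3, a ^ 3, 0; 0, 0, 1] : Matrix (Fin 3) (Fin 3) F).det = 1 := by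
    rw [Matrix.det_fin_three]
    simp
    linear_combination 2 * ha - h3
  refine ⟨mkSU _ hpres hdet, ?_, ?_⟩
  · intro x hx h01
    apply E_ext
    intro i j
    rw [E_mul, E_mul]
    simp only [E_mk]
    fin_cases i <;> fin_cases j <;>
      simp [hx.1.1, hx.1.2.1, hx.1.2.2.1, hx.1.2.2.2, hx.2.1, hx.2.2, h01, mul_comm]
  · intro x y hx hy h
    have h1 : ∀ i j, E (mkSU _ hpres hdet * x) i j = E (y * mkSU _ hpres hdet) i j := fun i j => by rw [h]
    have e0 := h1 0 0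
    have e1 := h1 0 1
    rw [E_mul, E_mul] at e0 e1
    simp only [E_mk] at e0 e1
    simp [hx.1.1, hx.1.2.1, hx.1.2.2.1, hx.1.2.2.2, hx.2.1, hx.2.2, hy.1.1, hy.1.2.1, hy.1.2.2.1, hy.1.2.2.2, hy.2.1, hy.2.2] at e0 e1
    apply mul_left_cancel₀ ha0
    rw [e0, e1]

/-- the Sylow subgroup -/
lemma exists_sylow : ∃ P : Sylow 2 (SU 3 F 3), (P : Subgroup (SU 3 F 3)) = U0 F := by
  classical
  obtain ⟨a, ha⟩ := U33.exists_a hF
  have hi : (a ^ 2) ^ 2 = -1 := by rw [← ha]; ring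
  set i := a ^ 2 with hidef
  have hne := U33.one_ne_neg hF
  have hord : orderOf i = 4 := by
    have h1 : ¬ i ^ 2 ^ 1 = 1 := by
      rw [pow_one, hi]; exact hne.symm
    have h2 : i ^ 2 ^ 2 = 1 := by
      have : i ^ 2 ^ 2 = (i ^ 2) ^ 2 := by ring
      rw [this, hi]; ring
    have : Fact (Nat.Prime 2) := ⟨Nat.prime_two⟩
    have := orderOf_eq_prime_pow h1 h2
    rw [this]; norm_num
  have hinj : ∀ m n : ℕ, m < 4 → n < 4 → i ^ m = i ^ n → m = n := by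
    intro m n hm hn h
    exact pow_injOn_Iio_orderOf (by rw [hord]; exact hm) (by rw [hord]; exact hn) h
  have : Fact (Nat.Prime 2) := ⟨Nat.prime_two⟩
  choose D hD0 hD1 hD2 hD3 using fun a b => exists_D hF hi a b
  obtain ⟨t, ht, t1, t2, t3⟩ := exists_t hF
  have hcard : Nat.card (SU 3 F 3) = 2 ^ 5 * 189 := by
    rw [← card_U33 hF]
    exact Nat.card_congr (Equiv.ofBijective (toPSU 3 F 3) ⟨fun x y h => U33.toPSU_inj hF h, toPSU_surjective⟩)
  obtain ⟨P, hP⟩ := (U0_pgroup hF).exists_le_sylow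
  refine ⟨P, (Subgroup.eq_of_le_of_card_ge hP ?_).symm⟩
  have hPc : Nat.card P = 32 := by
    rw [Sylow.card_eq_multiplicity, hcard]
    have : (2 ^ 5 * 189 : ℕ).factorization 2 = 5 := by
      rw [Nat.factorization_mul (by norm_num) (by norm_num), Finsupp.add_apply, Nat.Prime.factorization_pow Nat.prime_two,
        Finsupp.single_eq_same, Nat.factorization_eq_zero_of_not_dvd (by norm_num)]
    rw [this]; norm_num
  have hPc' : Nat.card ↥(P : Subgroup (SU 3 F 3)) = 32 := hPc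
  rw [hPc']
  let f : Fin 4 × Fin 4 × Bool → ↥(U0 F) := fun z => if z.2.2 then ⟨D z.1 z.2.1, Or.inl (hD0 _ _)⟩ else ⟨D z.1 z.2.1 * t, Or.inr ((hD0 _ _).mul_An ht)⟩
  have hf : Function.Injective f := by
    have key : ∀ (a b a' b' : Fin 4), D a b = D a' b' → a = a' ∧ b = b' := by
      intro a b a' b' h
      refine ⟨Fin.ext (hinj _ _ a.2 a'.2 ?_), Fin.ext (hinj _ _ b.2 b'.2 ?_)⟩
      · rw [← hD1 a b, ← hD1 a' b', h]
      · rw [← hD2 a b, ← hD2 a' b', h]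
    have key2 : ∀ (a b a' b' : Fin 4), D a b ≠ D a' b' * t := by
      intro a b a' b' h
      have h1 := hD1 a b
      have h2 := (hD0 a' b').mul_An ht
      rw [h, h2.2.1] at h1
      have h3 : i ^ 4 = 1 := by rw [← hord]; exact pow_orderOf_eq_one i
      have h4 : i ≠ 0 := by
        rintro h5
        rw [h5] at h3
        norm_num at h3
      exact pow_ne_zero _ h4 h1.symm
    rintro ⟨a, b, e⟩ ⟨a', b', e'⟩ h
    cases e <;> cases e'
    · have h1 : D a b * t = D a' b' * t := congrArg Subtype.val h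
      obtain ⟨rfl, rfl⟩ := key _ _ _ _ (mul_right_cancel h1)
      rfl
    · have h1 : D a b * t = D a' b' := congrArg Subtype.val h
      exact absurd h1.symm (key2 _ _ _ _)
    · have h1 : D a b = D a' b' * t := congrArg Subtype.val h
      exact absurd h1 (key2 _ _ _ _)
    · have h1 : D a b = D a' b' := congrArg Subtype.val h
      obtain ⟨rfl, rfl⟩ := key _ _ _ _ h1
      rfl
  have h1 := Nat.card_le_card_of_injective f hf
  have h2 : Nat.card (Fin 4 × Fin 4 × Bool) = 32 := by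
    rw [Nat.card_eq_fintype_card]; rfl
  rw [h2] at h1
  exact h1

lemma exists_h : ∃ h : SU 3 F 3, h ∈ (⁅U0 F, U0 F⁆ : Subgroup (SU 3 F 3)) ∧ ∀ x : SU 3 F 3, x ∈ U0 F → h * x = x * h → Dg x := by
  obtain ⟨a, ha⟩ := U33.exists_a hF
  have hi : (a ^ 2) ^ 2 = -1 := by rw [← ha]; ring
  set i := a ^ 2 with hidef
  have h4 : i ^ 4 = 1 := by
    have : i ^ 4 = (i ^ 2) ^ 2 := by ring
    rw [this, hi]; ring
  have hi0 : i ≠ 0 := by
    rintro h; rw [h] at h4; norm_num at h4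
  obtain ⟨d, hd, d0, d1, d2⟩ := exists_D hF hi 1 0
  obtain ⟨d', hd', d0', d1', d2'⟩ := exists_D hF hi 0 1
  obtain ⟨t, ht, t1, t2, t3⟩ := exists_t hF
  -- `t d = d' t`
  have e1 : t * d = d' * t := by
    apply E_ext
    intro i j
    rw [E_mul, E_mul]
    fin_cases i <;> fin_cases j <;>
      simp [hd.1.1, hd.1.2.1, hd.1.2.2.1, hd.1.2.2.2, hd.2.1, hd.2.2, hd'.1.1, hd'.1.2.1, hd'.1.2.2.1, hd'.1.2.2.2, hd'.2.1, hd'.2.2,
        ht.1.1, ht.1.2.1, ht.1.2.2.1, ht.1.2.2.2, ht.2.1, ht.2.2, d0, d1, d2, d0', d1', d2', t1, t2, t3]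
  have e2 : ⁅d, t⁆ = d * d'⁻¹ := by
    have e3 : t * d⁻¹ = d'⁻¹ * t := by
      rw [mul_inv_eq_iff_eq_mul, mul_assoc, e1, ← mul_assoc, inv_mul_cancel, one_mul]
    rw [commutatorElement_def, mul_assoc d, e3]
    group
  refine ⟨⁅d, t⁆, Subgroup.commutator_mem_commutator (Or.inl hd) (Or.inr ht), ?_⟩
  intro x hx hcomm
  rw [e2] at hcomm
  rcases hx with hx | hx
  · exact hx
  · exfalso
    have hdd : Dg (d * d'⁻¹) := hd.mul hd'.inv
    have e4 : d * d'⁻¹ * d' = d := by group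
    have g0 : E (d * d'⁻¹) 0 0 = i := by
      have := congrArg (fun y => E y 0 0) e4
      simp only [E_mul (d * d'⁻¹) d', d0, d0', hdd.2.1, hdd.1.1, pow_one, pow_zero] at this
      simpa using this
    have g1 : E (d * d'⁻¹) 1 1 * i = 1 := by
      have := congrArg (fun y => E y 1 1) e4
      simp only [E_mul (d * d'⁻¹) d', d1, d1', hdd.2.2, hdd.1.2.1, pow_one, pow_zero] at this
      simpa using this
    have h5 := congrArg (fun y => E y 0 1) hcomm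
    simp only [E_mul _ x, E_mul x _, hdd.2.1, hdd.1.1, hdd.1.2.2.2, hx.2.1, hx.1.1, g0] at h5
    have h6 : i * E x 0 1 = E x 0 1 * E (d * d'⁻¹) 1 1 := by linear_combination h5
    have h7 : E x 0 1 ≠ 0 := by
      intro h0
      have hy := hx.inv
      have hz := congrArg (fun y => E y 0 0) (mul_inv_cancel x)
      simp only [E_mul, E_one, hx.2.1, h0, hx.1.1] at hz
      simp at hz
    have h8 : i = E (d * d'⁻¹) 1 1 := by
      apply mul_left_cancel₀ h7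
      rw [← h6, mul_comm]
    rw [← h8, ← pow_two, hi] at g1
    exact U33.one_ne_neg hF g1.symm

lemma cA_eq {x : SU 3 F 3} : x ∈ cA (U0 F) ↔ Dg x := by
  constructor
  · intro hx
    obtain ⟨h, h1, h2⟩ := exists_h hF
    exact h2 x hx.2 (Subgroup.mem_centralizer_iff.1 hx.1 h h1)
  · intro hx
    refine ⟨?_, Or.inl hx⟩
    show x ∈ Subgroup.centralizer _
    rw [Subgroup.mem_centralizer_iff]
    have h1 : (⁅U0 F, U0 F⁆ : Subgroup (SU 3 F 3)) ≤ U0 F ⊓ ⁅U0 F, U0 F⁆ := by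
      refine le_inf ?_ le_rfl
      rw [Subgroup.commutator_le]
      intro x hx y hy
      rw [commutatorElement_def]
      exact mul_mem (mul_mem (mul_mem hx hy) (inv_mem hx)) (inv_mem hy)
    have h2 : ∀ z ∈ (⁅U0 F, U0 F⁆ : Subgroup (SU 3 F 3)), Dg z := by
      intro z hz
      refine Subgroup.closure_induction (p := fun z _ => Dg z) ?_ Dg.one (fun a b _ _ ha hb => ha.mul hb)
        (fun a _ ha => ha.inv) hz
      rintro _ ⟨a, ha, b, hb, rfl⟩
      rw [commutatorElement_def]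
      rcases ha with ha | ha <;> rcases hb with hb | hb
      · exact ((ha.mul hb).mul ha.inv).mul hb.inv
      · exact (((ha.mul_An hb).mul_Dg ha.inv)).mul hb.inv
      · exact (((ha.mul_Dg hb).mul ha.inv)).mul hb.inv
      · exact (((ha.mul hb).mul_An ha.inv)).mul hb.inv
    intro z hz
    have hzD := h2 z hz
    refine (hzD.mul hx).ext (hx.mul hzD) ?_ ?_ ?_
    · rw [E_mul, E_mul, hzD.2.1, hx.2.1, hzD.1.1, hx.1.1]; ring
    · rw [E_mul, E_mul, hzD.2.2, hx.2.2, hzD.1.2.1, hx.1.2.1]; ring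
    · rw [E_mul, E_mul, hzD.1.2.2.1, hx.1.2.2.1, hzD.1.2.2.2, hx.1.2.2.2]; ring

lemma cB_le {x : SU 3 F 3} (hx : x ∈ cB (U0 F)) : Dg x ∧ E x 0 0 = E x 1 1 := by
  have h1 : Dg x := (cA_eq hF).1 (cB_le_cA _ hx)
  refine ⟨h1, ?_⟩
  obtain ⟨t, ht, t1, t2, t3⟩ := exists_t hF
  have h2 := Subgroup.mem_centralizer_iff.1 hx.1 t (Or.inr ht)
  have h3 := congrArg (fun y => E y 1 0) h2
  simp only [E_mul, h1.2.1, h1.2.2, h1.1.1, h1.1.2.1, h1.1.2.2.1, h1.1.2.2.2, ht.2.1, ht.2.2, ht.1.1, ht.1.2.1, ht.1.2.2.1, t2] at h3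
  linear_combination h3

lemma exists_cB : ∃ x ∈ cB (U0 F), x ≠ 1 := by
  obtain ⟨a, ha⟩ := U33.exists_a hF
  have hi : (a ^ 2) ^ 2 = -1 := by rw [← ha]; ring
  obtain ⟨d, hd, d0, d1, d2⟩ := exists_D hF hi 2 2
  rw [hi] at d0 d1
  refine ⟨d, ⟨?_, Or.inl hd⟩, ?_⟩
  · show d ∈ Subgroup.centralizer _
    rw [Subgroup.mem_centralizer_iff]
    intro x hx
    have hxB : Bk x := by
      rcases hx with h | h
      · exact h.1
      · exact h.1
    apply E_ext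
    intro i j
    rw [E_mul, E_mul]
    fin_cases i <;> fin_cases j <;>
      simp [hd.1.1, hd.1.2.1, hd.1.2.2.1, hd.1.2.2.2, hd.2.1, hd.2.2, hxB.1, hxB.2.1, hxB.2.2.1, hxB.2.2.2, d0, d1, mul_comm]
  · rintro rfl
    rw [E_one, if_pos rfl] at d0
    exact U33.one_ne_neg hF d0

theorem noPM_SU : NoPM 2 (SU 3 F 3) := by
  have : Fact (Nat.Prime 2) := ⟨Nat.prime_two⟩
  obtain ⟨P, hP⟩ := exists_sylow hF
  have hT : HasTop 2 (SU 3 F 3) := (top_U33 hF).of_equiv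
    (MulEquiv.ofBijective (toPSU 3 F 3) ⟨fun x y h => U33.toPSU_inj hF h, toPSU_surjective⟩).symm
  obtain ⟨c, hc⟩ := exists_c hF
  obtain ⟨g, hg, hg'⟩ := exists_g hF
  refine ⟨P, ?_, ?_, ?_⟩
  · rw [hP]
    intro h
    obtain ⟨x, hx, hx1⟩ := exists_cB hF
    rw [h] at hx
    exact hx1 hx
  · rw [hP]
    intro h
    have h1 : g ∈ U0 F := by rw [h]; trivial
    have h2 : c ∈ U0 F := by rw [h]; trivial
    -- `c` has order three entries outside
    obtain ⟨t, ht, t1, t2, t3⟩ := exists_t hF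
    have h3 : c * t = (c * t * c⁻¹) * c := by group
    have h4 := hc _ _ h3 2 0
    have h5 : c * t * c⁻¹ ∈ U0 F := mul_mem (mul_mem h2 (Or.inr ht)) (inv_mem h2)
    have h6 : Bk (c * t * c⁻¹) := by
      rcases h5 with h | h
      · exact h.1
      · exact h.1
    rw [h6.2.2.1] at h4
    have h7 : E t (2 + 1) (0 + 1) = E t 0 1 := rfl
    rw [h7, t1] at h4
    exact zero_ne_one h4
  · intro M hM1 hM2 hM3
    have hcM : c ∈ M := by
      apply hM2
      rw [hP]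
      apply Subgroup.mem_normalizer_fintype
      intro x hx
      have hx' : Dg x := (cA_eq hF).1 hx
      refine (cA_eq hF).2 ?_
      have h3 : c * x = (c * x * c⁻¹) * c := by group
      have h4 := hc _ _ h3
      refine ⟨⟨?_, ?_, ?_, ?_⟩, ?_, ?_⟩
      · exact (h4 0 2).trans hx'.2.2
      · exact (h4 1 2).trans hx'.1.2.2.1
      · exact (h4 2 0).trans hx'.2.1
      · exact (h4 2 1).trans hx'.1.1
      · exact (h4 0 1).trans hx'.1.2.1
      · exact (h4 1 0).trans hx'.1.2.2.2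
    have hgM : g ∈ M := by
      apply hM3
      rw [hP]
      apply Subgroup.mem_normalizer_fintype
      intro x hx
      obtain ⟨h1, h2⟩ := cB_le hF hx
      rw [hg x h1 h2, mul_inv_cancel_right]
      exact hx
    by_contra hM
    obtain ⟨W, hW1, hW2, hW3⟩ := exists_W hT P hM1 hM
    rw [hP] at hW1
    have key : ∀ w ∈ W, Dg w := by
      intro w hw
      have h3 : c * w = (c * w * c⁻¹) * c := by group
      have h4 := hc _ _ h3
      have h6 : Bk (c * w * c⁻¹) := by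
        rcases hW1 (hW3 c hcM w hw) with h | h
        · exact h.1
        · exact h.1
      have h7 : Bk w := by
        rcases hW1 hw with h | h
        · exact h.1
        · exact h.1
      exact ⟨h7, (h4 2 0).symm.trans h6.2.2.1, (h4 0 2).symm.trans h6.1⟩
    have key2 : ∀ w ∈ W, E w 0 0 = E w 1 1 := by
      intro w hw
      have h3 : g * w = (g * w * g⁻¹) * g := by group
      exact hg' _ _ (key w hw) (key _ (hW3 g hgM w hw)) h3
    apply hW2
    rw [Subgroup.eq_bot_iff_forall]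
    intro w hw
    have h0 := key w hw
    have h1 := key2 w hw
    have h2 := key2 _ (hW3 c hcM w hw)
    have h3 : c * w = (c * w * c⁻¹) * c := by group
    have h4 := hc _ _ h3
    rw [h4 0 0, h4 1 1] at h2
    have h5 : E w 1 1 = E w 2 2 := h2
    have h6 := h0.prod
    rw [h1, ← h5] at h6
    have h7 : (E w 1 1 - 1) ^ 3 = 0 := by
      linear_combination h6 + (-(E w 1 1) ^ 2 + E w 1 1) * U33.three hF
    have h8 : E w 1 1 = 1 := sub_eq_zero.1 (pow_eq_zero_iff (by norm_num) |>.1 h7)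
    refine h0.ext Dg.one ?_ ?_ ?_
    · rw [h1, h8, E_one, if_pos rfl]
    · rw [h8, E_one, if_pos rfl]
    · rw [← h5, h8, E_one, if_pos rfl]

theorem noPM_PSU : NoPM 2 (Cfsg.PSU 3 F 3) := by
  have : Fact (Nat.Prime 2) := ⟨Nat.prime_two⟩
  exact (noPM_SU hF).of_equiv (MulEquiv.ofBijective (toPSU 3 F 3) ⟨fun x y h => U33.toPSU_inj hF h, toPSU_surjective⟩)

end Cfsg.Agent.Uni36.PM.U3
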