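import Cfsg.Agent.Uni36.PM6
import Cfsg.Agent.Uni36.All
import Cfsg.Agent.Uni36.Simp

set_option autoImplicit false
set_option linter.unusedSectionVars false

/-!
The data for all groups of Lie type.
-/

namespace Cfsg.Agent.Uni36.PM

open Cfsg.Agent.ChevGrp Cfsg.Agent.ChevGrp.RGrp Cfsg.Agent.AutChev Cfsg.Agent.ChevWeyl
open Matrix Cfsg.Agent.ClBN Cfsg.Agent.ClBN.PolD Cfsg.Agent.ClBN.Good

section

variable {m : ℕ} {κ : Type} [Fintype κ] [DecidableEq κ] {F : Type*} [Field F] [Finite F] (A : AnQ κ F)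
  {p : ℕ} [hp : Fact p.Prime] [CharP F p]

theorem hasRG_AB (hm : 3 ≤ m) (hv : ∃ v : κ → F, v ≠ 0) (h2 : ∀ h ∈ HH m A.pol ⊓ A.G0 m, h ^ p = 1 → h = 1) :
    HasRG p (A.G0 m) PhiLeaf :=
  hasRG_cls (A.good_B hv) (by omega) (A.KK_le_B hv)
    (fun _ hg => (A.good_B hv).gen_B (fun p => Or.inr ⟨p, rfl⟩) (A.G0_le_Γ hg)) h2 (leaf_B hm _)

theorem hasRG_AD [IsEmpty κ] (hm4 : 4 ≤ m) : HasRG p (A.G0 m) PhiLeaf := by
  have hm : 2 ≤ m := by omega
  have hD : ∀ c, A.pol.τ c = 0 → c = 0 := fun c h => h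
  have hG := good_D hm (D := A.pol) hD
  have hKK : KK (rsD m hm) A.pol ≤ A.G0 m := by
    rw [KK_le]
    intro r x hx
    obtain ⟨p, s, h1, h2, h3⟩ := (rsD m hm).vv_R r
    obtain ⟨hx1, hx2⟩ := (mem_XX h3).1 hx
    refine A.long_mem h1 h2 hx1 hx2 ?_
    obtain ⟨a, ha⟩ : ∃ a : Fin m, a ∉ ({ix p, ix s} : Finset (Fin m)) := by
      by_contra hcon
      push Not at hcon
      have h4 : (Finset.univ : Finset (Fin m)) ⊆ {ix p, ix s} := fun a _ => hcon a
      have h5 := Finset.card_le_card h4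
      rw [Finset.card_univ, Fintype.card_fin] at h5
      have h6 := Finset.card_le_two (a := ix p) (b := ix s)
      omega
    rw [Finset.mem_insert, Finset.mem_singleton, not_or] at ha
    have hne : ∀ t : PP m, ix t = ix p ∨ ix t = ix s → (Sum.inl a : PP m) ≠ t ∧ (Sum.inr a : PP m) ≠ t := by
      intro t ht
      constructor
      · rintro rfl
        rcases ht with ht | ht
        · exact ha.1 ht
        · exact ha.2 ht
      · rintro rfl
        rcases ht with ht | ht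
        · exact ha.1 ht
        · exact ha.2 ht
    refine ⟨PolD.E (Sum.inl (Sum.inl a)) + PolD.E (Sum.inl (Sum.inr a)), ?_, ?_, ?_⟩
    · rw [A.pol.B_add_right, A.pol.B_E_E, A.pol.B_E_E, if_neg, if_neg, add_zero]
      · exact (hne (opp p) (Or.inl (ix_opp p))).2
      · exact (hne (opp p) (Or.inl (ix_opp p))).1
    · rw [A.pol.B_add_right, A.pol.B_E_E, A.pol.B_E_E, opp_opp, if_neg, if_neg, add_zero]
      · exact (hne s (Or.inr rfl)).2
      · exact (hne s (Or.inr rfl)).1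
    · rw [A.pol.q_add, PolD.sing_E, PolD.sing_E, A.pol.B_E_E, if_pos (by simp), A.b_one]
      show (0 : F) + 0 + 1 ≠ 0
      rw [zero_add, zero_add]; exact one_ne_zero
  refine hasRG_cls hG (by omega) hKK (fun g hg => ?_) (fun _ hh hp => eq_one_of_pow hh.1.2 hp) (leaf_D hm4 _)
  have hle : A.G0 m ≤ KK (rsD m hm) A.pol ⊔ HH m A.pol := by
    refine Subgroup.commutator_le.2 fun g hg g' hg' => ?_
    exact hG.gen_D hD ⟨0, by omega⟩ g hg g' hg'
  exact Good.exists_of_mem_sup (hle hg)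

end

section

variable {F : Type*} [Field F] [Finite F] {p : ℕ} [hp : Fact p.Prime] [CharP F p]

theorem hasRG_odd (m : ℕ) (hm : 3 ≤ m) (h2 : (2 : F) ≠ 0) : HasRG p (Cfsg.Omega F (Cfsg.quadFormOdd m F)) PhiLeaf :=
  (hasRG_AB (anOdd h2) hm ⟨fun _ => 1, fun h => one_ne_zero (congrFun h ())⟩
    (fun _ hh hp => eq_one_of_pow hh.1.2 hp)).of_equiv (oddEquiv m h2)

theorem hasRG_plus (m : ℕ) (hm : 4 ≤ m) : HasRG p (Cfsg.Omega F (Cfsg.quadFormPlus m F)) PhiLeaf :=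
  (hasRG_AD (anPlus F) hm).of_equiv (plusEquiv m F)

theorem hasRG_minus (m : ℕ) (hm : 3 ≤ m) {a b : F}
    (hab : ∀ z₁ z₂ : F, z₁ ^ 2 + a * z₁ * z₂ + b * z₂ ^ 2 = 0 → z₁ = 0 ∧ z₂ = 0) :
    HasRG p (Cfsg.Omega F (Cfsg.quadFormMinus m F a b)) PhiLeaf := by
  have := Fintype.ofFinite F
  exact (hasRG_AB (anMinus hab) hm ⟨fun _ => 1, fun h => one_ne_zero (congrFun h 0)⟩ AnQ.HH_minus).of_equiv
    (minusEquiv m hab)

end

lemma row_of_quot {p : ℕ} [Fact p.Prime] {G : Type*} [Group G] [Finite G] (h : HasRG p G PhiLeaf) :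
    Row p (G ⧸ Subgroup.center G) :=
  row_of_leaf (h.of_surj (QuotientGroup.mk' _) (QuotientGroup.mk'_surjective _) (by rw [QuotientGroup.ker_mk']))

theorem row_PSL (p : ℕ) [hp : Fact p.Prime] (F : Type) [Field F] [Fintype F] [CharP F p] (n : ℕ) (hn : 2 ≤ n)
    (h4 : n = 2 → 4 ≤ Fintype.card F) : Row p (Matrix.ProjectiveSpecialLinearGroup (Fin n) F) := by
  have hfin : Finite (Matrix.ProjectiveSpecialLinearGroup (Fin n) F) := inferInstance
  obtain ⟨l, rfl⟩ : ∃ l, n = l + 1 := ⟨n - 1, by omega⟩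
  by_cases h1 : l = 1
  · subst h1
    refine row_of_one (hasRG_of_hasBN (hasBN_PSL p F 1 (by norm_num))) ?_
    exact Or.inl ⟨F, inferInstance, inferInstance, inferInstance, h4 rfl, ⟨MulEquiv.refl _⟩⟩
  by_cases h2 : l = 2
  · subst h2
    refine row_of_two (hasRG_PSL p F 2 (by norm_num) (fun c => rfl)) ?_
    by_cases hp2 : p = 2
    · subst hp2
      exact Or.inr (Or.inl ⟨F, inferInstance, inferInstance, inferInstance, ⟨MulEquiv.refl _⟩⟩)
    · exact Or.inl hp2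
  · exact row_of_leaf (hasRG_PSL p F l (by omega) (fun c => leaf_A (by omega) c))

theorem row_of_isLieTypeChar {p : ℕ} [hp : Fact p.Prime] {G : Type*} [Group G] [Finite G] (h : Cfsg.IsLieTypeChar p G) :
    Row p G := by
  rcases h with h | h | h | h | h | h | h | h | ⟨rfl, h⟩ | ⟨rfl, h⟩ | ⟨rfl, h⟩
  · obtain ⟨F, _, _, _, n, hn, h4, ⟨e⟩⟩ := h
    have : Finite (Matrix.ProjectiveSpecialLinearGroup (Fin n) F) := Finite.of_equiv _ e.toEquiv
    exact (row_PSL p F n hn h4).of_equiv e.symm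
  · obtain ⟨F, _, _, _, m, hm, h3, ⟨e⟩⟩ := h
    have : Finite (Cfsg.PSp m F) := Finite.of_equiv _ e.toEquiv
    exact (row_Sp p F m hm h3).of_equiv e.symm
  · obtain ⟨F, _, _, _, n, q, hF, hn, hq, ⟨e⟩⟩ := h
    have : Finite (Cfsg.PSU n F q) := Finite.of_equiv _ e.toEquiv
    exact (row_SU p hF n hn hq).of_equiv e.symm
  · obtain ⟨F, _, _, _, m, hm, hodd, ⟨e⟩⟩ := h
    have h2 : (2 : F) ≠ 0 := by
      intro h2
      have h3 : CharP F 2 := by
        have h4 : ringChar F ∣ 2 := (ringChar.spec F 2).1 (by exact_mod_cast h2)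
        rcases (Nat.dvd_prime Nat.prime_two).1 h4 with h5 | h5
        · exact absurd h5 (CharP.ringChar_ne_one)
        · exact ringChar.of_eq h5
      obtain ⟨n, -, hn⟩ := FiniteField.card F 2
      rw [hn] at hodd
      rw [Nat.odd_pow_iff n.pos.ne'] at hodd
      exact absurd hodd (by decide)
    have : Finite (Cfsg.POmega F (Cfsg.quadFormOdd m F)) := Finite.of_equiv _ e.toEquiv
    exact (row_of_quot (hasRG_odd m hm h2)).of_equiv e.symm
  · obtain ⟨F, _, _, _, m, hm, ⟨e⟩⟩ := h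
    have : Finite (Cfsg.POmega F (Cfsg.quadFormPlus m F)) := Finite.of_equiv _ e.toEquiv
    exact (row_of_quot (hasRG_plus m hm)).of_equiv e.symm
  · obtain ⟨F, _, _, _, m, a, b, hm, hab, ⟨e⟩⟩ := h
    have : Finite (Cfsg.POmega F (Cfsg.quadFormMinus (m - 1) F a b)) := Finite.of_equiv _ e.toEquiv
    exact (row_of_quot (hasRG_minus (m - 1) (by omega) hab)).of_equiv e.symm
  · obtain ⟨F, _, _, _, h⟩ := h
    rcases h with ⟨-, ⟨e⟩⟩ | ⟨⟨e⟩⟩ | ⟨⟨e⟩⟩ | ⟨⟨e⟩⟩ | ⟨⟨e⟩⟩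
    · have := Finite.of_equiv _ e.toEquiv
      exact (row_G2 p F).of_equiv e.symm
    · have := Finite.of_equiv _ e.toEquiv
      exact (row_F4 p F).of_equiv e.symm
    · have := Finite.of_equiv _ e.toEquiv
      exact (row_E6 p F).of_equiv e.symm
    · have := Finite.of_equiv _ e.toEquiv
      exact (row_E7 p F).of_equiv e.symm
    · have := Finite.of_equiv _ e.toEquiv
      exact (row_E8 p F).of_equiv e.symm
  · obtain ⟨K, _, _, _, q, hq, h⟩ := h
    rcases h with ⟨hK, ⟨e⟩⟩ | ⟨hK, ⟨e⟩⟩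
    · have := Finite.of_equiv _ e.toEquiv
      exact (row_twE6 p hq hK).of_equiv e.symm
    · have := Finite.of_equiv _ e.toEquiv
      exact (row_twD4 p hq hK).of_equiv e.symm
  · exact row_of_one (hasRG_of_hasBN (hasBN_IsoSuzuki h)) (Or.inr (Or.inr (Or.inl ⟨rfl, h⟩)))
  · obtain ⟨K, _, _, m, hm, hK, ⟨e⟩⟩ := h
    have := Finite.of_equiv _ e.toEquiv
    exact (row_twF4 hK).of_equiv e.symm
  · exact row_of_one (hasRG_of_hasBN (hasBN_IsoRee h)) (Or.inr (Or.inr (Or.inr ⟨rfl, Or.inl h⟩)))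

end Cfsg.Agent.Uni36.PM
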