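import Cfsg.Agent.Uni36.PM5
import Cfsg.Agent.Uni36.TitsH

set_option autoImplicit false
set_option maxRecDepth 100000
set_option linter.unusedSectionVars false

/-!
The data for the Tits group.
-/

namespace Cfsg.Agent.Uni36.PM

open Cfsg.Lie Cfsg.Agent.Chev Cfsg.Agent.ChevGrp Cfsg.Agent.ChevTw Cfsg.Agent.ChevWeyl Cfsg.Agent.ChevU Cfsg.Agent.AutChev
open Cfsg.Agent.ChevGrp.RGrp Cfsg.Agent.ChevGrp.DData

section

variable {l n : ℕ} {S : WSys l n} {G : Type*} [Group G] {R : RGrp S G}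

/-- the order of a minimal parabolic subgroup -/
lemma card_mpar [Finite G] (j : Fin l) : Nat.card (R.mpar j) = Nat.card R.B * (Nat.card (R.X (S.p j)) + 1) := by
  classical
  have e : (R.X (S.p j) × R.B) ⊕ R.B ≃ R.mpar j := by
    refine Equiv.ofBijective (fun z => match z with
      | Sum.inl xb => (⟨xb.1 * R.nn j * xb.2, mul_mem (mul_mem (B_le_mpar j (R.U_le_B (R.X_le_U (S.pos_p j) xb.1.2)))
          (nn_mem_mpar j)) (B_le_mpar j xb.2.2)⟩ : R.mpar j)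
      | Sum.inr b => (⟨b, B_le_mpar j b.2⟩ : R.mpar j)) ⟨?_, ?_⟩
    · have key : ∀ (x : R.X (S.p j)) (b b' : R.B), (x : G) * R.nn j * b ≠ b' := by
        intro x b b' h
        apply nn_not_mem_B (R := R) j
        have e1 : R.nn j = (x : G)⁻¹ * b' * (b : G)⁻¹ := by rw [← h]; group
        rw [e1]
        exact mul_mem (mul_mem (inv_mem (R.U_le_B (R.X_le_U (S.pos_p j) x.2))) b'.2) (inv_mem b.2)
      rintro (⟨x, b⟩ | b) (⟨x', b'⟩ | b') h
      · have h1 : (x : G) * R.nn j * b = x' * R.nn j * b' := congrArg Subtype.val h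
        have h2 : (R.nn j)⁻¹ * ((x' : G)⁻¹ * x) * R.nn j = b' * (b : G)⁻¹ := by
          have : (R.nn j)⁻¹ * ((x' : G)⁻¹ * x) * R.nn j = (R.nn j)⁻¹ * (x' : G)⁻¹ * (x * R.nn j * b) * (b : G)⁻¹ := by group
          rw [this, h1]; group
        have h3 : (x' : G)⁻¹ * x ∈ R.X (S.p j) := mul_mem (inv_mem x'.2) x.2
        have h4 := (act_nn (R := R) j).conj' h3
        rw [S.w_inv, S.w_p, h2] at h4
        have h5 := R.B_inf_V (mul_mem b'.2 (inv_mem b.2)) (R.X_le_V (by rw [S.pos_neg_iff, not_not]; exact S.pos_p j) h4)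
        have hb : b' = b := Subtype.ext (mul_inv_eq_one.1 h5)
        rw [h5] at h2
        have h6 : (x' : G)⁻¹ * x = 1 := by
          have : (x' : G)⁻¹ * x = R.nn j * ((R.nn j)⁻¹ * ((x' : G)⁻¹ * x) * R.nn j) * (R.nn j)⁻¹ := by group
          rw [this, h2]; group
        have hx : x' = x := Subtype.ext (inv_mul_eq_one.1 h6)
        rw [hb, hx]
      · exact absurd (congrArg Subtype.val h) (key x b b')
      · exact absurd (congrArg Subtype.val h).symm (key x' b' b)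
      · have h1 : (b : G) = b' := congrArg (Subtype.val : R.mpar j → G) h
        rw [Subtype.ext h1]
    · rintro ⟨g, hg⟩
      rcases mem_mpar.1 hg with h | ⟨b, hb, b', hb', e⟩
      · exact ⟨Sum.inr ⟨g, h⟩, rfl⟩
      · obtain ⟨u, hu, h, hh, rfl⟩ := mem_B.1 hb
        obtain ⟨x, hx, v, hv, rfl⟩ := mem_U j hu
        refine ⟨Sum.inl (⟨x, hx⟩, ⟨(R.nn j)⁻¹ * v * R.nn j * ((R.nn j)⁻¹ * h * R.nn j) * b', ?_⟩), ?_⟩
        · exact mul_mem (mul_mem (R.U_le_B (R.Ui_le_U j (nn_Ui' j v hv))) (R.H_le_B (nn_H' j hh))) hb'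
        · apply Subtype.ext
          show x * R.nn j * ((R.nn j)⁻¹ * v * R.nn j * ((R.nn j)⁻¹ * h * R.nn j) * b') = g
          rw [e]; group
  rw [← Nat.card_congr e, Nat.card_sum, Nat.card_prod]
  ring

end

section sub

variable {n : ℕ} {S : WSys 2 n} {G : Type*} [Group G] {R : RGrp S G} {T : Subgroup G} (hT : SubT R T)

include hT

lemma subT_norm : Subgroup.normalizer ((R.U.subgroupOf T : Subgroup T) : Set T) = R.U.subgroupOf T := by
  refine le_antisymm ?_ Subgroup.le_normalizer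
  rintro ⟨t, htT⟩ ht
  rw [Subgroup.mem_normalizer_iff] at ht
  show t ∈ R.U
  obtain ⟨u, hu, m, hm, u', hu', rfl⟩ := hT.nf t
  obtain ⟨w, hw⟩ := exists_act hm
  have hw1 : w = 1 := by
    by_contra hne
    obtain ⟨j, hj⟩ := S.descent w hw.1 hne
    obtain ⟨x, hx, hxT, hx1⟩ := hT.hX j
    have hxU := R.X_le_U (S.pos_p j) hx
    have h1 : u'⁻¹ * x * u' ∈ T := hT.conj_mem' hxT _
    have h2 := (ht ⟨u'⁻¹ * x * u', h1⟩).1 (show u'⁻¹ * x * u' ∈ R.U from mul_mem (mul_mem (inv_mem hu') hxU) hu')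
    have h3 : u * m * u' * (u'⁻¹ * x * u') * (u * m * u')⁻¹ ∈ R.U := h2
    have h4 : m * x * m⁻¹ ∈ R.U := by
      have e : m * x * m⁻¹ = u⁻¹ * (u * m * u' * (u'⁻¹ * x * u') * (u * m * u')⁻¹) * u := by group
      rw [e]
      exact mul_mem (mul_mem (inv_mem hu) h3) hu
    have h5 := R.X_le_V hj (hw.conj hx)
    exact hx1 (conj_eq_one_iff.1 (R.U_inf_V h4 h5))
  rw [hw1] at hw
  have h6 := mem_H_of_act_one hm hw
  rw [hT.H_bot, Subgroup.mem_bot] at h6
  rw [h6, mul_one]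
  exact mul_mem hu hu'

theorem subT_parSys : ParSys (R.U.subgroupOf T) (fun j => (R.mpar j).subgroupOf T) := by
  have hinj : ∀ i j, (R.mpar i).subgroupOf T ≤ (R.mpar j).subgroupOf T → i = j := by
    intro i j h
    obtain ⟨a, ha, b, hb, hab⟩ := hT.exists_rep i
    have h1 : (⟨a * R.nn i * b, hab⟩ : T) ∈ (R.mpar i).subgroupOf T := hT.mem_par.2 (Or.inr ⟨a, ha, b, hb, rfl⟩)
    have h2 : a * R.nn i * b ∈ R.mpar j := h h1
    refine eq_of_nn_mem (R := R) ?_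
    have e : R.nn i = a⁻¹ * (a * R.nn i * b) * b⁻¹ := by group
    rw [e]
    have hU : ∀ x ∈ R.U, x ∈ R.mpar j := fun x hx => B_le_mpar j (R.U_le_B hx)
    exact mul_mem (mul_mem (hU _ (inv_mem ha)) h2) (hU _ (inv_mem hb))
  refine ⟨by norm_num, ?_, ?_, ?_, hinj, ?_, ?_⟩
  · intro j x hx
    exact B_le_mpar j (R.U_le_B hx)
  · intro j h
    obtain ⟨a, ha, b, hb, hab⟩ := hT.exists_rep j
    have h1 : (⟨a * R.nn j * b, hab⟩ : T) ∈ (R.mpar j).subgroupOf T := hT.mem_par.2 (Or.inr ⟨a, ha, b, hb, rfl⟩)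
    have h2 : a * R.nn j * b ∈ R.U := h h1
    apply nn_not_mem_B (R := R) j
    have e : R.nn j = a⁻¹ * (a * R.nn j * b) * b⁻¹ := by group
    rw [e]
    exact R.U_le_B (mul_mem (mul_mem (inv_mem ha) h2) (inv_mem hb))
  · intro M hM hne
    obtain ⟨⟨t, htT⟩, htM, htU⟩ := SetLike.not_le_iff_exists.1 hne
    have hM' : R.U ⊓ T ≤ M.map T.subtype := by
      rintro x ⟨hx, hxT⟩
      exact ⟨⟨x, hxT⟩, hM hx, rfl⟩
    have hMT : M.map T.subtype ≤ T := by
      rintro _ ⟨x, -, rfl⟩; exact x.2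
    obtain ⟨u, hu, m, hm, u', hu', rfl⟩ := hT.nf t
    obtain ⟨w, hw⟩ := exists_act hm
    have hw1 : w⁻¹ ≠ 1 := by
      intro h
      have hw1 : w = 1 := inv_eq_one.1 h
      apply htU
      show u * m * u' ∈ R.U
      rw [hw1] at hw
      have h6 := mem_H_of_act_one hm hw
      rw [hT.H_bot, Subgroup.mem_bot] at h6
      rw [h6, mul_one]
      exact mul_mem hu hu'
    obtain ⟨j, hj⟩ := S.descent w⁻¹ (inv_mem hw.1) hw1
    have h := hT.par_le_of_desc hM' hMT hu hu' (m := m) ⟨⟨_, htT⟩, htM, rfl⟩ hw hj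
    refine ⟨j, ?_⟩
    rintro ⟨x, hxT⟩ hx
    obtain ⟨y, hy, e⟩ := h ⟨hx, hxT⟩
    have e' : y = ⟨x, hxT⟩ := Subtype.ext e
    rwa [← e']
  · intro M hM
    have h : M.map T.subtype = T := by
      refine hT.eq_T ?_ ?_ ?_
      · rintro x ⟨hx, hxT⟩
        exact ⟨⟨x, hxT⟩, hM 0 (B_le_mpar 0 (R.U_le_B hx)), rfl⟩
      · rintro _ ⟨x, -, rfl⟩; exact x.2
      · rintro j x ⟨hx, hxT⟩
        exact ⟨⟨x, hxT⟩, hM j hx, rfl⟩
    rw [eq_top_iff]
    rintro ⟨x, hx⟩ -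
    have h1 : x ∈ M.map T.subtype := by rw [h]; exact hx
    obtain ⟨y, hy, e⟩ := h1
    have e' : y = ⟨x, hx⟩ := Subtype.ext e
    rwa [← e']
  · intro J hJ
    obtain ⟨i, hi⟩ : ∃ i, i ∉ J := by
      by_contra hcon
      push Not at hcon
      exact hJ (Set.eq_univ_of_forall hcon)
    obtain ⟨j, hji⟩ : ∃ j : Fin 2, j ≠ i := by
      have : ∀ i : Fin 2, ∃ j, j ≠ i := by decide
      exact this i
    have hall : ∀ k ∈ J, k = j := by
      intro k hk
      have hki : k ≠ i := by rintro rfl; exact hi hk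
      omega
    refine ⟨(R.mpar j).subgroupOf T, ?_, ?_, ?_⟩
    · intro h
      exact hji (hinj i j (by rw [h]; exact le_top)).symm
    · intro x hx
      exact B_le_mpar j (R.U_le_B hx)
    · intro k hk
      rw [hall k hk]

lemma subT_card [Finite G] (j : Fin 2) : Nat.card ((R.mpar j).subgroupOf T) * T.index = Nat.card (R.mpar j) := by
  have := hT.norm
  have h1 : R.mpar j ⊔ T = ⊤ := by
    rw [eq_top_iff, ← hT.sup_top]
    exact sup_le_sup_right (fun x hx => B_le_mpar j (R.U_le_B hx)) T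
  have h2 : T.relIndex (R.mpar j) = T.index := by
    have := Subgroup.relIndex_sup_right (R.mpar j) T
    rw [h1, Subgroup.relIndex_top_right] at this
    exact this.symm
  have h3 : Nat.card (T.subgroupOf (R.mpar j)) * T.relIndex (R.mpar j) = Nat.card (R.mpar j) :=
    (T.subgroupOf (R.mpar j)).card_mul_index
  have h4 : Nat.card (T.subgroupOf (R.mpar j)) = Nat.card ((R.mpar j).subgroupOf T) := by
    refine Nat.card_congr ⟨fun x => ⟨⟨x.1.1, x.2⟩, x.1.2⟩, fun x => ⟨⟨x.1.1, x.2⟩, x.1.2⟩, fun x => rfl, fun x => rfl⟩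
  rw [← h4, ← h2]; exact h3

theorem subT_noTr [Finite G] (hne : Nat.card (R.X (S.p 0)) ≠ Nat.card (R.X (S.p 1))) :
    ¬ Tr (R.U.subgroupOf T) (fun j => (R.mpar j).subgroupOf T) := by
  intro htr
  obtain ⟨θ, -, h⟩ := htr 0 1
  have h : ((R.mpar 0).subgroupOf T).map θ.toMonoidHom = (R.mpar 1).subgroupOf T := h
  apply hne
  have h1 : Nat.card ((R.mpar 0).subgroupOf T) = Nat.card ((R.mpar 1).subgroupOf T) := by
    rw [← h, Subgroup.card_map_of_injective θ.injective]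
  have h2 := subT_card hT 0
  rw [h1, subT_card hT 1, card_mpar, card_mpar] at h2
  have h3 := Nat.eq_of_mul_eq_mul_left Nat.card_pos h2
  omega

end sub

section tits

open Cfsg.Agent.Tw4

variable {K : Type*} [Field K] (Z : Sg K)

lemma card_ne_F4 [Finite K] : Nat.card ((rtw (twF Z)).X (S16.p 0)) ≠ Nat.card ((rtw (twF Z)).X (S16.p 1)) := by
  have mem0 : ∀ x : ↥(twF Z).G1, x ∈ (rtw (twF Z)).X (S16.p 0) ↔ ∃ t, (x : ↥(chevF4.group K)) = eP Z t := by
    intro x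
    rw [mem_rtw_X]
    refine (mem_X0 Z (x : ↥(chevF4.group K))).trans ?_
    exact ⟨fun ⟨t, h⟩ => ⟨t, h.symm⟩, fun ⟨t, h⟩ => ⟨t, h.symm⟩⟩
  have mem1 : ∀ x : ↥(twF Z).G1, x ∈ (rtw (twF Z)).X (S16.p 1) ↔ ∃ t u, (x : ↥(chevF4.group K)) = fP Z t u := by
    intro x
    rw [mem_rtw_X]
    refine (mem_X1 Z (x : ↥(chevF4.group K))).trans ?_
    exact ⟨fun ⟨t, u, h⟩ => ⟨t, u, h.symm⟩, fun ⟨t, u, h⟩ => ⟨t, u, h.symm⟩⟩
  have hK1 : 1 < Nat.card K := Finite.one_lt_card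
  have hfG : Finite ↥(twF Z).G1 := inferInstance
  have hle0 : Nat.card ((rtw (twF Z)).X (S16.p 0)) ≤ Nat.card K := by
    choose f hf using fun x : (rtw (twF Z)).X (S16.p 0) => (mem0 x).1 x.2
    refine Nat.card_le_card_of_injective f ?_
    intro x y hxy
    apply Subtype.ext
    apply Subtype.ext
    rw [hf x, hf y, hxy]
  have hle1 : Nat.card (K × K) ≤ Nat.card ((rtw (twF Z)).X (S16.p 1)) := by
    refine Nat.card_le_card_of_injective (fun tu : K × K => (⟨⟨fP Z tu.1 tu.2, fP_G1 Z tu.1 tu.2⟩, (mem1 _).2 ⟨_, _, rfl⟩⟩ :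
      (rtw (twF Z)).X (S16.p 1))) ?_
    intro x y hxy
    have h1 : fP Z x.1 x.2 = fP Z y.1 y.2 := congrArg (fun z : (rtw (twF Z)).X (S16.p 1) => ((z : ↥(twF Z).G1) : ↥(chevF4.group K))) hxy
    obtain ⟨h3, h4⟩ := fP_inj Z h1
    exact Prod.ext h3 h4
  rw [Nat.card_prod] at hle1
  intro h
  nlinarith

theorem row_tits {X : Type*} [Group X] (h : Cfsg.Lie.IsoTits X) : Row 2 X := by
  obtain ⟨Z, ⟨e⟩⟩ := exists_equiv_tits
  obtain ⟨f⟩ := h
  have : Fact (Nat.Prime 2) := ⟨Nat.prime_two⟩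
  have hfin := finite_G1 Z (by decide)
  have hS := subT_tits Z (by decide)
  obtain ⟨P, hP⟩ := exists_sylT Z (by decide)
  refine Row.of_equiv ⟨P, 2, fun j => ((rtw (twF Z)).mpar j).subgroupOf _, ?_, fun htr => ?_⟩ (e.trans f.symm)
  · rw [hP, subT_norm hS]
    exact subT_parSys hS
  · rw [hP] at htr
    exact absurd htr (subT_noTr hS (card_ne_F4 Z))

end tits

end Cfsg.Agent.Uni36.PM
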