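import Cfsg.Agent.Uni36.PM3
import Cfsg.Agent.Uni36.SmallTop
import Cfsg.Agent.Uni36.Ev

set_option autoImplicit false
set_option maxRecDepth 100000
set_option linter.unusedSectionVars false

/-!
The data for the alternating group of degree six and `L₂(8)`.
-/

namespace Cfsg.Agent.Uni36.PM

open Equiv Equiv.Perm

/-- proper overgroups of a Sylow subgroup normalize a nontrivial subgroup of it -/
lemma exists_W {K : Type*} [Group K] [Finite K] {p : ℕ} [hp : Fact p.Prime] (hT : HasTop p K) (U : Sylow p K)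
    {M : Subgroup K} (hUM : (U : Subgroup K) ≤ M) (hM : M ≠ ⊤) :
    ∃ W : Subgroup K, W ≤ U ∧ W ≠ ⊥ ∧ ∀ m ∈ M, ∀ w ∈ W, m * w * m⁻¹ ∈ W := by
  have h1 : Cfsg.pCore p ↥M ≠ ⊥ := by
    intro h
    refine hM (hT M h ?_)
    intro hd
    exact U.not_dvd_index' Subgroup.index_ne_zero_of_finite (hd.trans (Subgroup.index_dvd_of_le hUM))
  have hN : (Cfsg.pCore p ↥M).Normal := Solv.pCore_normal p
  have hWn : ∀ m ∈ M, ∀ w ∈ (Cfsg.pCore p ↥M).map M.subtype, m * w * m⁻¹ ∈ (Cfsg.pCore p ↥M).map M.subtype := by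
    rintro m hm _ ⟨w, hw, rfl⟩
    exact ⟨_, hN.conj_mem w hw ⟨m, hm⟩, rfl⟩
  refine ⟨(Cfsg.pCore p ↥M).map M.subtype, ?_, ?_, hWn⟩
  · have h2 : IsPGroup p ↥((Cfsg.pCore p ↥M).map M.subtype) := (Solv.pCore_isPGroup p).map _
    have h3 : (U : Subgroup K) ≤ Subgroup.normalizer ((Cfsg.pCore p ↥M).map M.subtype : Set K) := by
      intro u hu
      rw [Subgroup.mem_normalizer_iff]
      intro x
      refine ⟨hWn u (hUM hu) x, fun h => ?_⟩
      have := hWn u⁻¹ (inv_mem (hUM hu)) _ h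
      have e : u⁻¹ * (u * x * u⁻¹) * u⁻¹⁻¹ = x := by group
      rwa [e] at this
    have h4 : IsPGroup p ↥((U : Subgroup K) ⊔ (Cfsg.pCore p ↥M).map M.subtype : Subgroup K) :=
      U.isPGroup'.to_sup_of_normal_right' h2 h3
    have h5 := U.is_maximal' h4 le_sup_left
    rw [← h5]
    exact le_sup_right
  · intro h
    exact h1 ((Subgroup.map_eq_bot_iff_of_injective _ M.subtype_injective).1 h)

/-! ### L₂(8) -/

lemma comm2 {F : Type*} [Field F] {A B C : Matrix (Fin 2) (Fin 2) F} (hAB : A * B = B * A) (hAC : A * C = C * A)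
    (hA : A 0 1 ≠ 0 ∨ A 1 0 ≠ 0 ∨ A 0 0 - A 1 1 ≠ 0) : B * C = C * B := by
  have e1 := congrFun (congrFun hAB 0) 0
  have e2 := congrFun (congrFun hAB 0) 1
  have e3 := congrFun (congrFun hAB 1) 0
  have f1 := congrFun (congrFun hAC 0) 0
  have f2 := congrFun (congrFun hAC 0) 1
  have f3 := congrFun (congrFun hAC 1) 0
  simp only [Matrix.mul_apply, Fin.sum_univ_two] at e1 e2 e3 f1 f2 f3
  have key : B 0 1 * C 1 0 = C 0 1 * B 1 0 ∧ C 0 1 * (B 0 0 - B 1 1) = B 0 1 * (C 0 0 - C 1 1) ∧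
      C 1 0 * (B 0 0 - B 1 1) = B 1 0 * (C 0 0 - C 1 1) := by
    rcases hA with h | h | h
    · have k1 : B 0 1 * C 1 0 = C 0 1 * B 1 0 := mul_left_cancel₀ h (by linear_combination B 0 1 * f1 - C 0 1 * e1)
      have k2 : C 0 1 * (B 0 0 - B 1 1) = B 0 1 * (C 0 0 - C 1 1) :=
        mul_left_cancel₀ h (by linear_combination (-C 0 1) * e2 + B 0 1 * f2)
      exact ⟨k1, k2, mul_left_cancel₀ h (by
        linear_combination (B 0 0 - B 1 1) * f1 - (C 0 0 - C 1 1) * e1 + A 1 0 * k2)⟩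
    · have k1 : B 0 1 * C 1 0 = C 0 1 * B 1 0 := mul_left_cancel₀ h (by linear_combination B 1 0 * f1 - C 1 0 * e1)
      have k3 : C 1 0 * (B 0 0 - B 1 1) = B 1 0 * (C 0 0 - C 1 1) :=
        mul_left_cancel₀ h (by linear_combination C 1 0 * e3 - B 1 0 * f3)
      exact ⟨k1, mul_left_cancel₀ h (by
        linear_combination A 0 1 * k3 - (B 0 0 - B 1 1) * f1 + (C 0 0 - C 1 1) * e1), k3⟩
    · have k2 : C 0 1 * (B 0 0 - B 1 1) = B 0 1 * (C 0 0 - C 1 1) :=
        mul_left_cancel₀ h (by linear_combination (B 0 0 - B 1 1) * f2 - (C 0 0 - C 1 1) * e2)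
      have k3 : C 1 0 * (B 0 0 - B 1 1) = B 1 0 * (C 0 0 - C 1 1) :=
        mul_left_cancel₀ h (by linear_combination (C 0 0 - C 1 1) * e3 - (B 0 0 - B 1 1) * f3)
      exact ⟨mul_left_cancel₀ h (by linear_combination C 1 0 * e2 - B 1 0 * f2 + A 0 1 * k3), k2, k3⟩
  obtain ⟨k1, k2, k3⟩ := key
  ext i j
  fin_cases i <;> fin_cases j <;> simp only [Matrix.mul_apply, Fin.sum_univ_two, Fin.zero_eta, Fin.mk_one]
  · linear_combination k1
  · linear_combination k2
  · linear_combination (-1 : F) * k3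
  · linear_combination (-1 : F) * k1

section L28

variable {F : Type} [Field F] [Fintype F] (hF : Fintype.card F = 8)

include hF

lemma two_zero8 : (2 : F) = 0 := by
  obtain ⟨p, hp⟩ := CharP.exists F
  obtain ⟨n, hpp, hn⟩ := FiniteField.card F p
  rw [hF] at hn
  have h1 : p ∣ 8 := by rw [hn]; exact dvd_pow_self p n.pos.ne'
  have h2 : p ∣ 2 ^ 3 := by norm_num; exact h1
  have h3 := (Nat.prime_dvd_prime_iff_eq hpp Nat.prime_two).1 (hpp.dvd_of_dvd_pow h2)
  subst h3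
  exact_mod_cast CharP.cast_eq_zero F 2

lemma center_SL8 : Subgroup.center (Matrix.SpecialLinearGroup (Fin 2) F) = ⊥ := by
  rw [Subgroup.eq_bot_iff_forall]
  intro x hx
  obtain ⟨r, hr, e⟩ := Matrix.SpecialLinearGroup.mem_center_iff.1 hx
  rw [Fintype.card_fin] at hr
  have h2 := two_zero8 hF
  have h3 : (r - 1) * (r - 1) = 0 := by linear_combination hr + (1 - r) * h2
  have h4 : r = 1 := sub_eq_zero.1 (mul_self_eq_zero.1 h3)
  apply Subtype.ext
  rw [← e, h4]
  ext i j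
  simp [Matrix.scalar_apply, Matrix.diagonal_apply, Matrix.one_apply]

lemma comm_L28 {x y w : Matrix.ProjectiveSpecialLinearGroup (Fin 2) F} (hx : x ≠ 1) (h1 : x * y = y * x)
    (h2 : x * w = w * x) : y * w = w * y := by
  obtain ⟨X, rfl⟩ := QuotientGroup.mk_surjective x
  obtain ⟨Y, rfl⟩ := QuotientGroup.mk_surjective y
  obtain ⟨W, rfl⟩ := QuotientGroup.mk_surjective w
  have hc : ∀ A B : Matrix.SpecialLinearGroup (Fin 2) F, ((A * B : Matrix.SpecialLinearGroup (Fin 2) F) :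
      Matrix.ProjectiveSpecialLinearGroup (Fin 2) F) = ((B * A : Matrix.SpecialLinearGroup (Fin 2) F) :
      Matrix.ProjectiveSpecialLinearGroup (Fin 2) F) → A * B = B * A := by
    intro A B h
    have h3 := QuotientGroup.eq.1 h
    rw [center_SL8 hF, Subgroup.mem_bot] at h3
    exact inv_mul_eq_one.1 h3
  have e1 := hc X Y h1
  have e2 := hc X W h2
  have hX : X ≠ 1 := by
    rintro rfl
    exact hx rfl
  have hX2 : (X : Matrix (Fin 2) (Fin 2) F) 0 1 ≠ 0 ∨ (X : Matrix (Fin 2) (Fin 2) F) 1 0 ≠ 0 ∨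
      (X : Matrix (Fin 2) (Fin 2) F) 0 0 - (X : Matrix (Fin 2) (Fin 2) F) 1 1 ≠ 0 := by
    by_contra hcon
    push Not at hcon
    obtain ⟨c1, c2, c3⟩ := hcon
    apply hX
    have h4 : X ∈ Subgroup.center (Matrix.SpecialLinearGroup (Fin 2) F) := by
      rw [Matrix.SpecialLinearGroup.mem_center_iff]
      have hd := X.2
      rw [Matrix.det_fin_two, c1, zero_mul, sub_zero] at hd
      have c4 := sub_eq_zero.1 c3
      refine ⟨(X : Matrix (Fin 2) (Fin 2) F) 0 0, ?_, ?_⟩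
      · rw [Fintype.card_fin, pow_two]
        rw [← c4] at hd
        exact hd
      · ext i j
        fin_cases i <;> fin_cases j <;> simp [Matrix.scalar_apply, Matrix.diagonal_apply, c1, c2, c4]
    rw [center_SL8 hF, Subgroup.mem_bot] at h4
    exact h4
  have e3 : (Y : Matrix (Fin 2) (Fin 2) F) * W = W * Y :=
    comm2 (congrArg Subtype.val e1) (congrArg Subtype.val e2) hX2
  have e4 : Y * W = W * Y := Subtype.ext e3
  rw [← QuotientGroup.mk_mul, e4, QuotientGroup.mk_mul]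

theorem row_L28 : Row 3 (Matrix.ProjectiveSpecialLinearGroup (Fin 2) F) := by
  have hs := simple_L28 hF
  have hc := card_L28 hF
  have hp3 : Fact (Nat.Prime 3) := ⟨Nat.prime_three⟩
  have hfin : Finite (Matrix.ProjectiveSpecialLinearGroup (Fin 2) F) := Nat.finite_of_card_ne_zero (by rw [hc]; norm_num)
  obtain ⟨U⟩ := (inferInstance : Nonempty (Sylow 3 (Matrix.ProjectiveSpecialLinearGroup (Fin 2) F)))
  have hU : Nat.card (U : Subgroup (Matrix.ProjectiveSpecialLinearGroup (Fin 2) F)) = 3 ^ 2 := by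
    rw [U.card_eq_multiplicity, hc, Nat.factorization_mul (by norm_num) (by norm_num), Finsupp.add_apply,
      Nat.prime_three.factorization_pow, Finsupp.single_eq_same, Nat.factorization_eq_zero_of_not_dvd (by norm_num), add_zero]
  have hUc : ∀ x ∈ (U : Subgroup (Matrix.ProjectiveSpecialLinearGroup (Fin 2) F)), ∀ y ∈ (U : Subgroup _), x * y = y * x := by
    intro x hx y hy
    have := IsPGroup.commutative_of_card_eq_prime_sq hU
    exact congrArg Subtype.val (this ⟨x, hx⟩ ⟨y, hy⟩)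
  set N : Subgroup (Matrix.ProjectiveSpecialLinearGroup (Fin 2) F) :=
    Subgroup.normalizer ((U : Subgroup (Matrix.ProjectiveSpecialLinearGroup (Fin 2) F)) : Set _) with hN
  have hNtop : N ≠ ⊤ := by
    intro h
    have hn : (U : Subgroup (Matrix.ProjectiveSpecialLinearGroup (Fin 2) F)).Normal := Subgroup.normalizer_eq_top_iff.1 h
    rcases hn.eq_bot_or_eq_top with h1 | h1
    · rw [h1, Subgroup.card_bot] at hU; norm_num at hU
    · have h2 : Nat.card (U : Subgroup (Matrix.ProjectiveSpecialLinearGroup (Fin 2) F)) = 3 ^ 2 * 56 := by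
        rw [h1, Subgroup.card_top]; exact hc
      rw [hU] at h2; norm_num at h2
  have hmax : ∀ M : Subgroup (Matrix.ProjectiveSpecialLinearGroup (Fin 2) F), N ≤ M → M ≠ ⊤ → M ≤ N := by
    intro M hM hne
    obtain ⟨W, hWU, hW1, hW⟩ := exists_W (top_L28 hF) U (Subgroup.le_normalizer.trans hM) hne
    obtain ⟨w, hw, hw1⟩ : ∃ w ∈ W, w ≠ 1 := by
      by_contra hcon
      push Not at hcon
      exact hW1 ((Subgroup.eq_bot_iff_forall W).2 hcon)
    intro m hm
    rw [hN, Subgroup.mem_normalizer_iff_map_conj_eq]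
    refine sylow_eq U (θ := MulAut.conj m) ?_
    rintro _ ⟨u, hu, rfl⟩
    -- `m u m⁻¹` commutes with `w`
    have h1 : (m * u * m⁻¹) * w = w * (m * u * m⁻¹) := by
      have h2 : m⁻¹ * w * m ∈ W := by
        have := hW m⁻¹ (inv_mem hm) w hw
        rwa [inv_inv] at this
      have h3 := hUc u hu _ (hWU h2)
      calc (m * u * m⁻¹) * w = m * (u * (m⁻¹ * w * m)) * m⁻¹ := by group
        _ = w * (m * u * m⁻¹) := by rw [h3]; group
    have h4 : ∀ v ∈ (U : Subgroup (Matrix.ProjectiveSpecialLinearGroup (Fin 2) F)), (m * u * m⁻¹) * v = v * (m * u * m⁻¹) :=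
      fun v hv => comm_L28 hF hw1 h1.symm (hUc w (hWU hw) v hv)
    show m * u * m⁻¹ ∈ N
    rw [hN, Subgroup.mem_normalizer_iff]
    have key : ∀ g, (∀ v ∈ (U : Subgroup (Matrix.ProjectiveSpecialLinearGroup (Fin 2) F)), g * v = v * g) →
        ∀ v ∈ (U : Subgroup _), g * v * g⁻¹ ∈ (U : Subgroup _) := by
      intro g hg v hv
      rw [hg v hv, mul_inv_cancel_right]; exact hv
    intro v
    refine ⟨key _ h4 v, fun hv => ?_⟩
    have h5 := key (m * u * m⁻¹)⁻¹ (fun v hv => by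
      have h6 := h4 v hv
      calc (m * u * m⁻¹)⁻¹ * v = (m * u * m⁻¹)⁻¹ * (v * (m * u * m⁻¹)) * (m * u * m⁻¹)⁻¹ := by group
        _ = v * (m * u * m⁻¹)⁻¹ := by rw [← h6]; group) _ hv
    have e : (m * u * m⁻¹)⁻¹ * (m * u * m⁻¹ * v * (m * u * m⁻¹)⁻¹) * (m * u * m⁻¹)⁻¹⁻¹ = v := by group
    rwa [e] at h5
  refine ⟨U, 1, fun _ => ⊤, ?_, fun _ => Or.inl (Or.inr (Or.inr (Or.inr ⟨rfl, Or.inr ⟨F, _, _, hF, ⟨MulEquiv.refl _⟩⟩⟩)))⟩
  refine ⟨one_pos, fun _ => le_top, fun _ h => hNtop (top_le_iff.1 h), ?_, fun i j _ => Subsingleton.elim i j, ?_, ?_⟩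
  · intro M hM hne
    refine ⟨0, ?_⟩
    by_contra h
    exact hne (hmax M hM (fun h' => h (by rw [h'])))
  · intro M hM
    exact top_le_iff.1 (hM 0)
  · intro J hJ
    refine ⟨N, hNtop, le_rfl, fun j hj => ?_⟩
    exfalso
    apply hJ
    ext i
    rw [Subsingleton.elim i j]
    exact ⟨fun _ => trivial, fun _ => hj⟩

end L28

end Cfsg.Agent.Uni36.PM
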