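import Mathlib.GroupTheory.Sylow
import Mathlib.GroupTheory.Subgroup.Simple
import Mathlib.Order.Atoms
import Mathlib.Order.Atoms.Finite
import Cfsg.Prelude.Def_LocalEven

set_option autoImplicit false
set_option linter.unusedSectionVars false

/-!
`p`-minimal groups with a normal simple subgroup having a system of minimal parabolic subgroups.
-/

namespace Cfsg.Agent.Uni36.PM

/-- a system of minimal parabolic subgroups over `N` -/
structure ParSys {K : Type*} [Group K] {l : ℕ} (N : Subgroup K) (P : Fin l → Subgroup K) : Prop where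
  pos : 0 < l
  le : ∀ j, N ≤ P j
  ne : ∀ j, ¬ P j ≤ N
  min : ∀ M : Subgroup K, N ≤ M → ¬ M ≤ N → ∃ j, P j ≤ M
  inj : ∀ i j, P i ≤ P j → i = j
  top : ∀ M : Subgroup K, (∀ j, P j ≤ M) → M = ⊤
  prop : ∀ J : Set (Fin l), J ≠ Set.univ → ∃ M : Subgroup K, M ≠ ⊤ ∧ N ≤ M ∧ ∀ j ∈ J, P j ≤ M

section

variable {K : Type*} [Group K] {l : ℕ} {N : Subgroup K} {P : Fin l → Subgroup K}

lemma mem_map {A : Subgroup K} {θ : MulAut K} {x : K} : x ∈ A.map θ.toMonoidHom ↔ θ⁻¹ x ∈ A := by
  constructor
  · rintro ⟨y, hy, rfl⟩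
    show θ⁻¹ (θ y) ∈ A
    rw [MulAut.inv_apply_self]; exact hy
  · intro h
    exact ⟨_, h, MulAut.apply_inv_self _ θ x⟩

lemma map_map' (A : Subgroup K) (θ θ' : MulAut K) :
    (A.map θ.toMonoidHom).map θ'.toMonoidHom = A.map (θ' * θ).toMonoidHom := by
  ext x
  rw [mem_map, mem_map, mem_map, mul_inv_rev]; rfl

lemma map_one' (A : Subgroup K) : A.map (1 : MulAut K).toMonoidHom = A := by
  ext x
  rw [mem_map, inv_one]; rfl

lemma map_inv_eq {A C : Subgroup K} {θ : MulAut K} (h : A.map θ.toMonoidHom = C) :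
    C.map (θ⁻¹ : MulAut K).toMonoidHom = A := by
  rw [← h, map_map', inv_mul_cancel, map_one']

/-- automorphisms preserving `N` permute the minimal parabolic subgroups -/
lemma ParSys.exists_map (h : ParSys N P) {θ : MulAut K} (hθ : N.map θ.toMonoidHom = N) (i : Fin l) :
    ∃ j, (P i).map θ.toMonoidHom = P j := by
  have key : ∀ θ : MulAut K, N.map θ.toMonoidHom = N → ∀ i, ∃ j, P j ≤ (P i).map θ.toMonoidHom := by
    intro θ hθ i
    refine h.min _ ?_ ?_
    · conv_lhs => rw [← hθ]
      exact Subgroup.map_mono (h.le i)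
    · intro hle
      apply h.ne i
      rw [← hθ] at hle
      exact (Subgroup.map_le_map_iff_of_injective θ.injective).1 hle
  obtain ⟨j, hj⟩ := key θ hθ i
  obtain ⟨k, hk⟩ := key θ⁻¹ (map_inv_eq hθ) j
  have h1 : (P j).map (θ⁻¹ : MulAut K).toMonoidHom ≤ P i := by
    have := Subgroup.map_mono (f := (θ⁻¹ : MulAut K).toMonoidHom) hj
    rwa [map_map', inv_mul_cancel, map_one'] at this
  have h2 : k = i := h.inj _ _ (hk.trans h1)
  subst h2
  refine ⟨j, le_antisymm ?_ hj⟩
  have := Subgroup.map_mono (f := θ.toMonoidHom) hk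
  rwa [map_map', mul_inv_cancel, map_one'] at this

end

section

variable {X : Type*} [Group X] [Finite X] {p : ℕ} [hp : Fact p.Prime] {K : Subgroup X} [hKn : K.Normal]

lemma conjN_mem {A : Subgroup K} {x : X} {y : K} :
    y ∈ A.map (MulAut.conjNormal x : MulAut K).toMonoidHom ↔ (x⁻¹ * y * x) ∈ A.map K.subtype := by
  rw [mem_map, ← map_inv]
  constructor
  · intro h
    refine ⟨_, h, ?_⟩
    show ((MulAut.conjNormal x⁻¹ y : K) : X) = _
    rw [MulAut.conjNormal_apply, inv_inv]
  · rintro ⟨z, hz, e⟩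
    have : MulAut.conjNormal x⁻¹ y = z := by
      apply Subtype.ext
      rw [MulAut.conjNormal_apply, inv_inv]; exact e.symm
    rw [this]; exact hz

lemma map_conjN (A : Subgroup K) (x : X) :
    (A.map (MulAut.conjNormal x : MulAut K).toMonoidHom).map K.subtype = (A.map K.subtype).map (MulAut.conj x).toMonoidHom := by
  ext y
  constructor
  · rintro ⟨z, hz, rfl⟩
    refine ⟨_, conjN_mem.1 hz, ?_⟩
    show x * (x⁻¹ * z * x) * x⁻¹ = z
    group
  · rintro ⟨z, hz, rfl⟩
    have hzK : z ∈ K := by obtain ⟨w, -, rfl⟩ := hz; exact w.2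
    refine ⟨⟨x * z * x⁻¹, hKn.conj_mem z hzK x⟩, ?_, rfl⟩
    refine conjN_mem.2 ?_
    show x⁻¹ * (x * z * x⁻¹) * x ∈ _
    have e : x⁻¹ * (x * z * x⁻¹) * x = z := by group
    rw [e]; exact hz

lemma mem_norm_iff {A : Subgroup K} {x : X} :
    x ∈ Subgroup.normalizer ((A.map K.subtype : Subgroup X) : Set X) ↔
      A.map (MulAut.conjNormal x : MulAut K).toMonoidHom = A := by
  rw [Subgroup.mem_normalizer_iff_map_conj_eq]
  change (A.map K.subtype).map (MulAut.conj x).toMonoidHom = _ ↔ _
  rw [← map_conjN]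
  exact ⟨fun h => Subgroup.map_injective K.subtype_injective h, fun h => by rw [h]⟩

/-- a Sylow subgroup contained in the normalizer of another one -/
lemma sylow_eq {K : Type*} [Group K] [Finite K] (U : Sylow p K) {θ : MulAut K}
    (h : (U : Subgroup K).map θ.toMonoidHom ≤ Subgroup.normalizer ((U : Subgroup K) : Set K)) :
    (U : Subgroup K).map θ.toMonoidHom = U := by
  have h1 : IsPGroup p ↥((U : Subgroup K).map θ.toMonoidHom) := U.isPGroup'.map _
  have h2 : IsPGroup p ↥((U : Subgroup K).map θ.toMonoidHom ⊔ U : Subgroup K) := h1.to_sup_of_normal_right' U.isPGroup' h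
  have h3 : (U : Subgroup K).map θ.toMonoidHom ⊔ U = U := U.is_maximal' h2 le_sup_right
  have h4 : (U : Subgroup K).map θ.toMonoidHom ≤ U := by
    conv_rhs => rw [← h3]
    exact le_sup_left
  refine Subgroup.eq_of_le_of_card_ge h4 ?_
  rw [Subgroup.card_map_of_injective θ.injective]

theorem main (hX : Cfsg.IsPMinimal p X) (hs : IsSimpleGroup K) {l : ℕ} (U : Sylow p K) (P : Fin l → Subgroup K)
    (hP : ParSys (Subgroup.normalizer ((U : Subgroup K) : Set K)) P) :
    IsCoatom (Subgroup.normalizer (((U : Subgroup K).map K.subtype : Subgroup X) : Set X)) ∧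
    ∃ S : Subgroup X, IsPGroup p S ∧ S.subgroupOf K = U ∧
      (∀ s ∈ S, (U : Subgroup K).map (MulAut.conjNormal s : MulAut K).toMonoidHom = U) ∧
      ∀ i j, ∃ s ∈ S, (P i).map (MulAut.conjNormal s : MulAut K).toMonoidHom = P j := by
  set N : Subgroup K := Subgroup.normalizer ((U : Subgroup K) : Set K) with hN
  set NX : Subgroup X := Subgroup.normalizer (((U : Subgroup K).map K.subtype : Subgroup X) : Set X) with hNX
  have hUN : (U : Subgroup K) ≤ N := Subgroup.le_normalizer
  have hNtop : N ≠ ⊤ := fun h => hP.ne ⟨0, hP.pos⟩ (le_top.trans h.ge)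
  have hUbot : (U : Subgroup K) ≠ ⊥ := by
    intro h
    apply hNtop
    rw [hN, h, Subgroup.normalizer_eq_top_iff]
    infer_instance
  -- a Sylow subgroup of `X`
  obtain ⟨S, hUS⟩ := (U.isPGroup'.map K.subtype).exists_le_sylow (P := (U : Subgroup K).map K.subtype)
  have hSK : (S : Subgroup X).subgroupOf K = U := by
    refine U.is_maximal' ?_ ?_
    · exact S.isPGroup'.comap_of_injective K.subtype K.subtype_injective
    · intro x hx
      exact hUS ⟨x, hx, rfl⟩
  have hSN : (S : Subgroup X) ≤ NX := by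
    intro s hs
    rw [hNX, mem_norm_iff]
    have h1 : ∀ s ∈ (S : Subgroup X), ∀ y : K, y ∈ (U : Subgroup K) →
        y ∈ (U : Subgroup K).map (MulAut.conjNormal s : MulAut K).toMonoidHom := by
      intro s hs y hy
      rw [conjN_mem]
      rw [← hSK] at hy ⊢
      refine ⟨⟨s⁻¹ * y * s, ?_⟩, ?_, rfl⟩
      · have := hKn.conj_mem y y.2 s⁻¹
        rwa [inv_inv] at this
      · exact mul_mem (mul_mem (inv_mem hs) hy) hs
    refine le_antisymm ?_ (h1 s hs)
    have h2 := Subgroup.map_mono (f := (MulAut.conjNormal s : MulAut K).toMonoidHom) (show (U : Subgroup K) ≤ _ from h1 s⁻¹ (inv_mem hs))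
    rwa [map_map', ← map_mul, mul_inv_cancel, map_one, map_one'] at h2
  have hSU : ∀ s ∈ (S : Subgroup X), (U : Subgroup K).map (MulAut.conjNormal s : MulAut K).toMonoidHom = U :=
    fun s hs => mem_norm_iff.1 (hSN hs)
  have hUNmap : ∀ x : X, (U : Subgroup K).map (MulAut.conjNormal x : MulAut K).toMonoidHom = U →
      N.map (MulAut.conjNormal x : MulAut K).toMonoidHom = N := by
    have h1 : ∀ x : X, (U : Subgroup K).map (MulAut.conjNormal x : MulAut K).toMonoidHom = U →
        N ≤ N.map (MulAut.conjNormal x : MulAut K).toMonoidHom := by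
      intro x hx g hg
      rw [mem_map]
      rw [hN, Subgroup.mem_normalizer_iff] at hg ⊢
      have h2 : ∀ y, y ∈ (U : Subgroup K) ↔ (MulAut.conjNormal x : MulAut K) y ∈ (U : Subgroup K) := by
        intro y
        conv_rhs => rw [← hx]
        rw [mem_map, MulAut.inv_apply_self]
      intro y
      rw [h2, h2 (_ * _ * _), map_mul, map_mul, map_inv, MulAut.apply_inv_self]
      exact hg _
    intro x hx
    refine le_antisymm ?_ (h1 x hx)
    have h2 := Subgroup.map_mono (f := (MulAut.conjNormal x : MulAut K).toMonoidHom) (h1 x⁻¹ (by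
      rw [map_inv]; exact map_inv_eq hx))
    rwa [map_map', ← map_mul, mul_inv_cancel, map_one, map_one'] at h2
  -- the unique maximal subgroup
  obtain ⟨-, M0, ⟨hM0, hSM0⟩, huniq⟩ := hX S
  have hle : ∀ H : Subgroup X, (S : Subgroup X) ≤ H → H ≠ ⊤ → H ≤ M0 := by
    intro H hH hne
    rcases eq_top_or_exists_le_coatom H with h | ⟨M, hM, hHM⟩
    · exact absurd h hne
    · rw [← huniq M ⟨hM, hH.trans hHM⟩]
      exact hHM
  have hnn : ∀ A : Subgroup K, A ≠ ⊤ → (U : Subgroup K) ≤ A →
      (∀ s ∈ (S : Subgroup X), A.map (MulAut.conjNormal s : MulAut K).toMonoidHom = A) → A.map K.subtype ≤ M0 := by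
    intro A hA hUA hinv
    refine le_trans Subgroup.le_normalizer (hle (Subgroup.normalizer ((A.map K.subtype : Subgroup X) : Set X)) ?_ ?_)
    · intro s hs
      exact mem_norm_iff.2 (hinv s hs)
    · intro htop
      have hnorm : A.Normal := by
        constructor
        intro a ha g
        have h1 : (g : X) ∈ Subgroup.normalizer ((A.map K.subtype : Subgroup X) : Set X) := by rw [htop]; trivial
        have h2 := mem_norm_iff.1 h1
        rw [← h2, conjN_mem]
        refine ⟨a, ha, ?_⟩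
        show (a : X) = (g : X)⁻¹ * ((g * a * g⁻¹ : K) : X) * g
        push_cast; group
      rcases hnorm.eq_bot_or_eq_top with h | h
      · exact hUbot (le_bot_iff.1 (h ▸ hUA))
      · exact hA h
  have hNXtop : NX ≠ ⊤ := by
    intro htop
    apply hNtop
    rw [eq_top_iff]
    intro g _
    have h1 : (g : X) ∈ NX := by rw [htop]; trivial
    have h2 := mem_norm_iff.1 h1
    rw [hN, Subgroup.mem_normalizer_iff_map_conj_eq]
    have h3 : (MulAut.conj g : MulAut K) = MulAut.conjNormal (g : X) := by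
      ext y; rw [MulAut.conjNormal_apply]; rfl
    rw [h3]; exact h2
  have hNXM0 : NX ≤ M0 := hle NX hSN hNXtop
  have hNM0 : N.map K.subtype ≤ M0 := by
    refine le_trans ?_ hNXM0
    rintro _ ⟨g, hg, rfl⟩
    have h3 : (MulAut.conj g : MulAut K) = MulAut.conjNormal (g : X) := by
      ext y; rw [MulAut.conjNormal_apply]; rfl
    refine mem_norm_iff.2 ?_
    show (U : Subgroup K).map (MulAut.conjNormal (g : X) : MulAut K).toMonoidHom = U
    rw [← h3]
    exact (Subgroup.mem_normalizer_iff_map_conj_eq).1 hg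
  have hKM0 : ¬ K ≤ M0 := by
    intro hK
    apply hM0.1
    rw [eq_top_iff, ← Sylow.normalizer_sup_eq_top U]
    exact sup_le hNXM0 hK
  have hKall : ∀ M : Subgroup K, M.map K.subtype ≤ M0 → (∀ j, P j ≤ M) → False := by
    intro M hM hall
    apply hKM0
    rw [hP.top M hall, ← MonoidHom.range_eq_map, K.range_subtype] at hM
    exact hM
  -- `S` permutes the minimal parabolic subgroups
  have hperm : ∀ s ∈ (S : Subgroup X), ∀ i, ∃ j, (P i).map (MulAut.conjNormal s : MulAut K).toMonoidHom = P j :=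
    fun s hs i => hP.exists_map (hUNmap s (hSU s hs)) i
  have htrans : ∀ i j, ∃ s ∈ (S : Subgroup X), (P i).map (MulAut.conjNormal s : MulAut K).toMonoidHom = P j := by
    intro i
    by_contra hcon
    push Not at hcon
    obtain ⟨j0, hj0⟩ := hcon
    set J : Set (Fin l) := {j | ∃ s ∈ (S : Subgroup X), (P i).map (MulAut.conjNormal s : MulAut K).toMonoidHom = P j} with hJ
    have hiJ : i ∈ J := ⟨1, one_mem _, by rw [map_one, map_one']⟩
    have hjJ : j0 ∉ J := by
      rintro ⟨s, hs, h⟩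
      exact hj0 s hs h
    -- the intersection of all proper subgroups ... : the join
    have hJinv : ∀ s ∈ (S : Subgroup X), ∀ j j', (P j).map (MulAut.conjNormal s : MulAut K).toMonoidHom = P j' →
        (j ∈ J ↔ j' ∈ J) := by
      intro s hs j j' hjj
      constructor
      · rintro ⟨t, ht, h⟩
        exact ⟨s * t, mul_mem hs ht, by rw [map_mul, ← map_map', h, hjj]⟩
      · rintro ⟨t, ht, h⟩
        refine ⟨s⁻¹ * t, mul_mem (inv_mem hs) ht, ?_⟩
        rw [map_mul, ← map_map', h, map_inv]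
        exact map_inv_eq hjj
    have hJM : ∀ J' : Set (Fin l), J' ≠ Set.univ → (∀ s ∈ (S : Subgroup X), ∀ j ∈ J', ∀ j',
        (P j).map (MulAut.conjNormal s : MulAut K).toMonoidHom = P j' → j' ∈ J') → ∀ j ∈ J', (P j).map K.subtype ≤ M0 := by
      intro J' hne hinv j hj
      obtain ⟨M, hM, hNM, hPM⟩ := hP.prop J' hne
      set D : Subgroup K := N ⊔ ⨆ j ∈ J', P j with hD
      have hDM : D ≤ M := sup_le hNM (iSup₂_le hPM)
      have h1 : ∀ s ∈ (S : Subgroup X), D.map (MulAut.conjNormal s : MulAut K).toMonoidHom ≤ D := by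
        intro s hs
        rw [Subgroup.map_le_iff_le_comap]
        refine sup_le ?_ (iSup₂_le fun k hk => ?_)
        · rw [← Subgroup.map_le_iff_le_comap, hUNmap s (hSU s hs)]
          exact le_sup_left
        · obtain ⟨k', hk'⟩ := hperm s hs k
          rw [← Subgroup.map_le_iff_le_comap, hk']
          exact le_trans (le_iSup₂_of_le (f := fun j (_ : j ∈ J') => P j) k' (hinv s hs k hk k' hk') le_rfl) le_sup_right
      have h2 : D.map K.subtype ≤ M0 := by
        refine hnn D (fun h => hM (top_le_iff.1 (h ▸ hDM))) (hUN.trans le_sup_left) ?_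
        intro s hs
        refine le_antisymm (h1 s hs) ?_
        have h3 := Subgroup.map_mono (f := (MulAut.conjNormal s : MulAut K).toMonoidHom) (h1 s⁻¹ (inv_mem hs))
        rwa [map_map', ← map_mul, mul_inv_cancel, map_one, map_one'] at h3
      refine le_trans (Subgroup.map_mono ?_) h2
      exact le_trans (le_iSup₂_of_le (f := fun j (_ : j ∈ J') => P j) j hj le_rfl) le_sup_right
    have hA := hJM J (fun h => hjJ (h ▸ Set.mem_univ _)) (fun s hs j hj j' h => (hJinv s hs j j' h).1 hj)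
    have hB := hJM Jᶜ (fun h => (h ▸ Set.mem_univ i : i ∈ Jᶜ) hiJ) (fun s hs j hj j' h h' => hj ((hJinv s hs j j' h).2 h'))
    refine hKall (M0.subgroupOf K) ?_ ?_
    · exact Subgroup.map_le_iff_le_comap.2 le_rfl
    · intro j x hx
      by_cases hj : j ∈ J
      · exact hA j hj ⟨x, hx, rfl⟩
      · exact hB j hj ⟨x, hx, rfl⟩
  refine ⟨?_, S, S.isPGroup', hSK, hSU, htrans⟩
  -- `M0 ∩ K = N`
  have hM0K : M0.subgroupOf K = N := by
    refine le_antisymm ?_ (fun x hx => hNM0 ⟨x, hx, rfl⟩)
    by_contra hcon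
    obtain ⟨j, hj⟩ := hP.min _ (show N ≤ M0.subgroupOf K from fun x hx => hNM0 ⟨x, hx, rfl⟩) hcon
    refine hKall (M0.subgroupOf K) (Subgroup.map_le_iff_le_comap.2 le_rfl) ?_
    intro i
    obtain ⟨s, hs, h⟩ := htrans j i
    rw [← h]
    rintro _ ⟨x, hx, rfl⟩
    show ((MulAut.conjNormal s x : K) : X) ∈ M0
    rw [MulAut.conjNormal_apply]
    exact mul_mem (mul_mem (hSM0 hs) (hj hx)) (inv_mem (hSM0 hs))
  have hM0NX : M0 ≤ NX := by
    intro m hm
    rw [hNX, mem_norm_iff]
    refine sylow_eq U ?_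
    rintro _ ⟨x, hx, rfl⟩
    show _ ∈ N
    rw [← hM0K]
    show ((MulAut.conjNormal m x : K) : X) ∈ M0
    rw [MulAut.conjNormal_apply]
    exact mul_mem (mul_mem hm (hNM0 ⟨x, hUN hx, rfl⟩)) (inv_mem hm)
  rw [le_antisymm hNXM0 hM0NX]
  exact hM0

end

end Cfsg.Agent.Uni36.PM
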