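import Cfsg.Agent.Uni36.PM9

set_option autoImplicit false
set_option maxRecDepth 100000
set_option linter.unusedSectionVars false

/-!
The data for the alternating group of degree six.
-/

namespace Cfsg.Agent.Uni36.PM.A6

open Equiv Equiv.Perm

abbrev P6 := Equiv.Perm (Fin 6)

def pz : P6 := ⟨![1,0,3,2,4,5], ![1,0,3,2,4,5], by decide +kernel, by decide +kernel⟩
def pa : P6 := ⟨![2,3,0,1,4,5], ![2,3,0,1,4,5], by decide +kernel, by decide +kernel⟩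
def pb : P6 := ⟨![1,0,2,3,5,4], ![1,0,2,3,5,4], by decide +kernel, by decide +kernel⟩
def pza : P6 := ⟨![3,2,1,0,4,5], ![3,2,1,0,4,5], by decide +kernel, by decide +kernel⟩
def pzb : P6 := ⟨![0,1,3,2,5,4], ![0,1,3,2,5,4], by decide +kernel, by decide +kernel⟩
def pab : P6 := ⟨![3,2,0,1,5,4], ![2,3,1,0,5,4], by decide +kernel, by decide +kernel⟩
def pba : P6 := ⟨![2,3,1,0,5,4], ![3,2,0,1,5,4], by decide +kernel, by decide +kernel⟩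
def pe : P6 := ⟨![0,1,2,3,4,5], ![0,1,2,3,4,5], by decide +kernel, by decide +kernel⟩
def pc1 : P6 := ⟨![1,2,0,3,4,5], ![2,0,1,3,4,5], by decide +kernel, by decide +kernel⟩
def pc2 : P6 := ⟨![2,3,4,5,0,1], ![4,5,0,1,2,3], by decide +kernel, by decide +kernel⟩
def U8 : List P6 := [pe, pz, pa, pza, pb, pzb, pab, pba]
def V1 : List P6 := [pe, pz, pa, pza]
def V2 : List P6 := [pe, pz, pb, pzb]

theorem centz : ∀ g : P6, sign g = 1 → g * pz = pz * g → g ∈ U8 := by decide +kernel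

theorem U8_mul : ∀ x ∈ U8, ∀ y ∈ U8, x * y ∈ U8 := by decide +kernel
theorem U8_inv : ∀ x ∈ U8, x⁻¹ ∈ U8 := by decide +kernel
theorem V1_mul : ∀ x ∈ V1, ∀ y ∈ V1, x * y ∈ V1 := by decide +kernel
theorem V1_inv : ∀ x ∈ V1, x⁻¹ ∈ V1 := by decide +kernel
theorem V2_mul : ∀ x ∈ V2, ∀ y ∈ V2, x * y ∈ V2 := by decide +kernel
theorem V2_inv : ∀ x ∈ V2, x⁻¹ ∈ V2 := by decide +kernel
theorem U8_sign : ∀ x ∈ U8, sign x = 1 := by decide +kernel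
theorem V1_le : ∀ x ∈ V1, x ∈ U8 := by decide +kernel
theorem V2_le : ∀ x ∈ V2, x ∈ U8 := by decide +kernel
theorem U8_nodup : U8.Nodup := by decide +kernel
theorem V1_norm : ∀ u ∈ U8, ∀ x ∈ V1, u * x * u⁻¹ ∈ V1 := by decide +kernel
theorem V2_norm : ∀ u ∈ U8, ∀ x ∈ V2, u * x * u⁻¹ ∈ V2 := by decide +kernel
/-- commutators -/
theorem U8_comm : ∀ x ∈ U8, x ≠ 1 → x = pz ∨ ∃ u ∈ U8, x * (u * x⁻¹ * u⁻¹) = pz := by decide +kernel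
/-- conjugates of `z` -/
theorem U8_invol : ∀ x ∈ U8, x * x = 1 → x = 1 ∨ x = pz ∨ x = pa ∨ x = pza ∨ x = pb ∨ x = pzb := by decide +kernel
theorem U8_ord4 : ∀ x ∈ U8, x * x ≠ 1 → x * x = pz := by decide +kernel
theorem c1_norm : sign pc1 = 1 ∧ pc1 * pz * pc1⁻¹ ∈ V1 ∧ pc1 * pa * pc1⁻¹ ∈ V1 ∧ pc1 * pz * pc1⁻¹ ∉ V2 := by decide +kernel
theorem c2_norm : sign pc2 = 1 ∧ pc2 * pz * pc2⁻¹ ∈ V2 ∧ pc2 * pb * pc2⁻¹ ∈ V2 ∧ pc2 * pz * pc2⁻¹ ∉ V1 := by decide +kernel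
/-- subgroups of `U` containing `V₁` properly -/
theorem gen1 : ∀ x ∈ U8, x ∉ V1 → ∀ y ∈ U8, y ∈ V1 ∨ y * x⁻¹ ∈ V1 := by decide +kernel
theorem gen2 : ∀ x ∈ U8, x ∉ V2 → ∀ y ∈ U8, y ∈ V2 ∨ y * x⁻¹ ∈ V2 := by decide +kernel

theorem V_sub1 : ∀ t ∈ U8, t * t = 1 → t ≠ 1 → t ≠ pz → (t ∈ V1 ∧ ∀ x ∈ V1, x = 1 ∨ x = pz ∨ x = t ∨ x = pz * t) ∨
    (t ∈ V2 ∧ ∀ x ∈ V2, x = 1 ∨ x = pz ∨ x = t ∨ x = pz * t) := by decide +kernel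
theorem V_sub1' : ∀ t ∈ V1, t ∉ V2 → ∀ x ∈ V1, x = 1 ∨ x = pz ∨ x = t ∨ x = pz * t := by decide +kernel
theorem x4 : pab ∈ U8 ∧ pab * pab = pz := by decide +kernel
theorem mems : pz ∈ U8 ∧ pz ∈ V1 ∧ pz ∈ V2 ∧ (1 : P6) ∈ U8 ∧ (1 : P6) ∈ V1 ∧ (1 : P6) ∈ V2 ∧ pz ≠ 1 ∧ pz * pz = 1 ∧
    pc1 ∉ U8 ∧ pc2 ∉ U8 := by decide +kernel
theorem V1_three : ∀ x ∈ V1, x ≠ 1 → x = pz ∨ x = pa ∨ x = pza := by decide +kernel
theorem V2_three : ∀ x ∈ V2, x ≠ 1 → x = pz ∨ x = pb ∨ x = pzb := by decide +kernel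

theorem V1_gen' : ∀ x ∈ V1, x = 1 ∨ x = pz ∨ x = pa ∨ x = pz * pa := by decide +kernel
theorem V2_gen' : ∀ x ∈ V2, x = 1 ∨ x = pz ∨ x = pb ∨ x = pz * pb := by decide +kernel
theorem mem_pa : pa ∈ U8 := by decide +kernel
theorem mem_pb : pb ∈ U8 := by decide +kernel

end Cfsg.Agent.Uni36.PM.A6
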