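import Cfsg.Agent.Uni36.PM9

set_option autoImplicit false
set_option linter.unusedSectionVars false

/-!
A criterion excluding `p`-minimal groups.
-/

namespace Cfsg.Agent.Uni36.PM

section

variable {K K' : Type*} [Group K] [Group K']

def cA (U : Subgroup K) : Subgroup K := Subgroup.centralizer ((⁅U, U⁆ : Subgroup K) : Set K) ⊓ U

def cB (U : Subgroup K) : Subgroup K := Subgroup.centralizer (U : Set K) ⊓ U

lemma cB_le_cA (U : Subgroup K) : cB U ≤ cA U := by
  refine inf_le_inf_right _ (Subgroup.centralizer_le ?_)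
  have : ⁅U, U⁆ ≤ U := by
    rw [Subgroup.commutator_le]
    intro x hx y hy
    rw [commutatorElement_def]
    exact mul_mem (mul_mem (mul_mem hx hy) (inv_mem hx)) (inv_mem hy)
  exact this

lemma centralizer_map (U : Subgroup K) (e : K ≃* K') :
    (Subgroup.centralizer (U : Set K)).map e.toMonoidHom = Subgroup.centralizer ((U.map e.toMonoidHom : Subgroup K') : Set K') := by
  ext x
  constructor
  · rintro ⟨y, hy, rfl⟩
    rw [Subgroup.mem_centralizer_iff]
    rintro _ ⟨u, hu, rfl⟩
    show e u * e y = e y * e u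
    rw [← map_mul, ← map_mul, Subgroup.mem_centralizer_iff.1 hy u hu]
  · intro hx
    refine ⟨e.symm x, ?_, e.apply_symm_apply x⟩
    show e.symm x ∈ Subgroup.centralizer (U : Set K)
    rw [Subgroup.mem_centralizer_iff]
    intro u hu
    have h := Subgroup.mem_centralizer_iff.1 hx (e u) ⟨u, hu, rfl⟩
    apply e.injective
    rw [map_mul, map_mul, e.apply_symm_apply]
    exact h

lemma cA_map (U : Subgroup K) (e : K ≃* K') : (cA U).map e.toMonoidHom = cA (U.map e.toMonoidHom) := by
  rw [cA, cA, Subgroup.map_inf _ _ _ e.injective, centralizer_map, Subgroup.map_commutator]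

lemma cB_map (U : Subgroup K) (e : K ≃* K') : (cB U).map e.toMonoidHom = cB (U.map e.toMonoidHom) := by
  rw [cB, cB, Subgroup.map_inf _ _ _ e.injective, centralizer_map]

/-- a group whose Sylow subgroups have characteristic subgroups with normalizers generating -/
def NoPM (p : ℕ) (K : Type*) [Group K] : Prop :=
  ∃ U : Sylow p K, cB (U : Subgroup K) ≠ ⊥ ∧ (U : Subgroup K) ≠ ⊤ ∧
    ∀ M : Subgroup K, (U : Subgroup K) ≤ M → Subgroup.normalizer (cA (U : Subgroup K) : Set K) ≤ M →
      Subgroup.normalizer (cB (U : Subgroup K) : Set K) ≤ M → M = ⊤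

theorem NoPM.of_equiv {p : ℕ} [hp : Fact p.Prime] [Finite K] (h : NoPM p K) (e : K ≃* K') : NoPM p K' := by
  have hfin : Finite K' := Finite.of_equiv K e.toEquiv
  obtain ⟨U, h1, h2, h3⟩ := h
  have hP : IsPGroup p ↥((U : Subgroup K).map e.toMonoidHom) := U.isPGroup'.map _
  obtain ⟨V, hV⟩ := hP.exists_le_sylow
  have hV2 : (V : Subgroup K').map e.symm.toMonoidHom = (U : Subgroup K) := by
    refine U.is_maximal' (V.isPGroup'.map _) ?_
    intro u hu
    exact ⟨e u, hV ⟨u, hu, rfl⟩, e.symm_apply_apply u⟩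
  have hV3 : (V : Subgroup K') = (U : Subgroup K).map e.toMonoidHom := by
    refine le_antisymm ?_ hV
    intro v hv
    refine ⟨e.symm v, ?_, e.apply_symm_apply v⟩
    rw [← hV2]
    exact ⟨v, hv, rfl⟩
  refine ⟨V, ?_, ?_, ?_⟩
  · rw [hV3, ← cB_map]
    intro h
    exact h1 ((Subgroup.map_eq_bot_iff_of_injective _ e.injective).1 h)
  · rw [hV3]
    intro h
    apply h2
    rw [eq_top_iff]
    intro x _
    have h5 : e x ∈ (U : Subgroup K).map e.toMonoidHom := by rw [h]; trivial
    obtain ⟨y, hy, e1⟩ := h5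
    have e2 : y = x := e.injective e1
    rw [← e2]; exact hy
  · intro M hM1 hM2 hM3
    rw [hV3] at hM1 hM2 hM3
    rw [← cA_map, ← Subgroup.map_equiv_normalizer_eq] at hM2
    rw [← cB_map, ← Subgroup.map_equiv_normalizer_eq] at hM3
    have h5 : M.comap e.toMonoidHom = ⊤ := h3 _ (Subgroup.map_le_iff_le_comap.1 hM1) (Subgroup.map_le_iff_le_comap.1 hM2)
      (Subgroup.map_le_iff_le_comap.1 hM3)
    rw [eq_top_iff]
    intro y _
    obtain ⟨x, rfl⟩ := e.surjective y
    have : x ∈ M.comap e.toMonoidHom := by rw [h5]; trivial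
    exact this

end

section

variable {X : Type*} [Group X] [Finite X] {p : ℕ} [hp : Fact p.Prime] {K : Subgroup X} [hKn : K.Normal]

theorem no_pmin (hX : Cfsg.IsPMinimal p X) (hs : IsSimpleGroup K) (hK : NoPM p K) : False := by
  obtain ⟨U, hBbot, hUtop, hM⟩ := hK
  set NX : Subgroup X := Subgroup.normalizer (((U : Subgroup K).map K.subtype : Subgroup X) : Set X) with hNX
  -- a Sylow subgroup of `X`
  obtain ⟨S, hUS⟩ := (U.isPGroup'.map K.subtype).exists_le_sylow (P := (U : Subgroup K).map K.subtype)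
  have hSK : (S : Subgroup X).subgroupOf K = U := by
    refine U.is_maximal' ?_ ?_
    · exact S.isPGroup'.comap_of_injective K.subtype K.subtype_injective
    · intro x hx
      exact hUS ⟨x, hx, rfl⟩
  have hSN : (S : Subgroup X) ≤ NX := by
    intro s hs
    rw [hNX, mem_norm_iff]
    have h1 : ∀ s ∈ (S : Subgroup X), ∀ y : K, y ∈ (U : Subgroup K) →
        y ∈ (U : Subgroup K).map (MulAut.conjNormal s : MulAut K).toMonoidHom := by
      intro s hs y hy
      rw [conjN_mem]
      rw [← hSK] at hy ⊢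
      refine ⟨⟨s⁻¹ * y * s, ?_⟩, ?_, rfl⟩
      · have := hKn.conj_mem y y.2 s⁻¹
        rwa [inv_inv] at this
      · exact mul_mem (mul_mem (inv_mem hs) hy) hs
    refine le_antisymm ?_ (h1 s hs)
    have h2 := Subgroup.map_mono (f := (MulAut.conjNormal s : MulAut K).toMonoidHom) (show (U : Subgroup K) ≤ _ from h1 s⁻¹ (inv_mem hs))
    rwa [map_map', ← map_mul, mul_inv_cancel, map_one, map_one'] at h2
  have hNXA : NX ≤ Subgroup.normalizer (((cA (U : Subgroup K)).map K.subtype : Subgroup X) : Set X) := by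
    intro x hx
    have h1 := mem_norm_iff.1 hx
    rw [mem_norm_iff, cA_map, h1]
  have hNXB : NX ≤ Subgroup.normalizer (((cB (U : Subgroup K)).map K.subtype : Subgroup X) : Set X) := by
    intro x hx
    have h1 := mem_norm_iff.1 hx
    rw [mem_norm_iff, cB_map, h1]
  -- the unique maximal subgroup
  obtain ⟨-, M0, ⟨hM0, hSM0⟩, huniq⟩ := hX S
  have hle : ∀ H : Subgroup X, (S : Subgroup X) ≤ H → H ≠ ⊤ → H ≤ M0 := by
    intro H hH hne
    rcases eq_top_or_exists_le_coatom H with h | ⟨M, hM, hHM⟩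
    · exact absurd h hne
    · rw [← huniq M ⟨hM, hH.trans hHM⟩]
      exact hHM
  have hnn : ∀ A : Subgroup K, A ≤ (U : Subgroup K) → A ≠ ⊥ →
      Subgroup.normalizer ((A.map K.subtype : Subgroup X) : Set X) ≠ ⊤ := by
    intro A hA hAbot htop
    have hnorm : A.Normal := by
      constructor
      intro a ha g
      have h1 : (g : X) ∈ Subgroup.normalizer ((A.map K.subtype : Subgroup X) : Set X) := by rw [htop]; trivial
      have h2 := mem_norm_iff.1 h1
      rw [← h2, conjN_mem]
      refine ⟨a, ha, ?_⟩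
      show (a : X) = (g : X)⁻¹ * ((g * a * g⁻¹ : K) : X) * g
      push_cast; group
    rcases hnorm.eq_bot_or_eq_top with h | h
    · exact hAbot h
    · exact hUtop (top_le_iff.1 (h ▸ hA))
  have hA1 : Subgroup.normalizer (((cA (U : Subgroup K)).map K.subtype : Subgroup X) : Set X) ≤ M0 :=
    hle _ (hSN.trans hNXA) (hnn _ inf_le_right fun h => hBbot (le_bot_iff.1 (h ▸ cB_le_cA _)))
  have hB1 : Subgroup.normalizer (((cB (U : Subgroup K)).map K.subtype : Subgroup X) : Set X) ≤ M0 :=
    hle _ (hSN.trans hNXB) (hnn _ inf_le_right hBbot)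
  have hcc : ∀ (A : Subgroup K), Subgroup.normalizer (A : Set K) ≤
      (Subgroup.normalizer ((A.map K.subtype : Subgroup X) : Set X)).comap K.subtype := by
    intro A g hg
    have h3 : (MulAut.conj g : MulAut K) = MulAut.conjNormal (g : X) := by
      ext y; rw [MulAut.conjNormal_apply]; rfl
    refine mem_norm_iff.2 ?_
    show A.map (MulAut.conjNormal (g : X) : MulAut K).toMonoidHom = A
    rw [← h3]
    exact (Subgroup.mem_normalizer_iff_map_conj_eq).1 hg
  have h1 : M0.comap K.subtype = ⊤ := by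
    apply hM
    · intro u hu
      exact hSM0 (hUS ⟨u, hu, rfl⟩)
    · exact (hcc _).trans (Subgroup.comap_mono hA1)
    · exact (hcc _).trans (Subgroup.comap_mono hB1)
  apply hM0.1
  rw [eq_top_iff, ← Sylow.normalizer_sup_eq_top U]
  refine sup_le (hNXA.trans hA1) ?_
  intro k hk
  have h5 : (⟨k, hk⟩ : K) ∈ M0.comap K.subtype := by rw [h1]; trivial
  exact h5

end

end Cfsg.Agent.Uni36.PM
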