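import Cfsg.Agent.Uni36.PM1
import Cfsg.Agent.Uni36.Surj
import Cfsg.Agent.BNPair.Parabolic
import Cfsg.Agent.AutChev.Par
import Cfsg.Agent.ChevGrp.Conn

set_option autoImplicit false
set_option linter.unusedSectionVars false

/-!
The minimal parabolic subgroups of a group with a system of root subgroups.
-/

namespace Cfsg.Agent.Uni36.PM

open Cfsg.Agent.ChevGrp Cfsg.Agent.ChevGrp.RGrp Cfsg.Agent.AutChev Cfsg.Agent.ChevWeyl

variable {l n : ℕ} {S : WSys l n} {G : Type*} [Group G] {R : RGrp S G}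

lemma nn_not_mem_B (i : Fin l) : R.nn i ∉ R.B := by
  intro h1
  have h2 := B_inf_N h1 (R.nn_mem_N i)
  have h3 := (act_nn (R := R) i).unique (act_H h2)
  have h4 := S.w_p i
  rw [h3, Equiv.Perm.one_apply] at h4
  have h5 := S.pos_p i
  rw [h4, S.pos_neg_iff] at h5
  exact h5 (S.pos_p i)

theorem parSys (hG : R.Grp = ⊤) (hl : 0 < l) : ParSys R.B R.mpar where
  pos := hl
  le := B_le_mpar
  ne := fun j h => nn_not_mem_B j (h (nn_mem_mpar j))
  min := by
    intro M hM hne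
    obtain ⟨g, hg, hgB⟩ := SetLike.not_le_iff_exists.1 hne
    obtain ⟨j, hj⟩ := exists_nn_mem (R := R) hM (g := g) (by rw [hG]; trivial) hg hgB
    exact ⟨j, mpar_le hM hj⟩
  inj := fun i j h => eq_of_nn_mem (R := R) (h (nn_mem_mpar i))
  top := by
    intro M hM
    rw [eq_top_iff, ← hG, RGrp.Grp]
    have hB : R.B ≤ M := (B_le_mpar ⟨0, hl⟩).trans (hM _)
    refine sup_le hB ?_
    rw [RGrp.N]
    refine sup_le (R.H_le_B.trans hB) ?_
    rw [Subgroup.closure_le]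
    rintro _ ⟨i, rfl⟩
    exact hM i (nn_mem_mpar i)
  prop := by
    intro J hJ
    obtain ⟨j, hj⟩ : ∃ j, j ∉ J := by
      by_contra hcon
      push Not at hcon
      exact hJ (Set.eq_univ_of_forall hcon)
    set Q := R.bnPair ⊤ hG.symm with hQ
    set J' : Set Q.S := {s | ∃ i ∈ J, ((s : (⊤ : Subgroup G)) : G) = R.nn i} with hJ'
    have hB : R.B ≤ (BNP.par Q J').map (⊤ : Subgroup G).subtype := by
      intro b hb
      exact ⟨⟨b, trivial⟩, BNP.B_le_par Q J' (show (⟨b, trivial⟩ : (⊤ : Subgroup G)) ∈ R.B.subgroupOf ⊤ from hb), rfl⟩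
    have hmem : ∀ i, R.nn i ∈ (BNP.par Q J').map (⊤ : Subgroup G).subtype → i ∈ J := by
      rintro i ⟨x, hx, e⟩
      have hS : x ∈ Q.S := ⟨i, e⟩
      have h1 := (BNP.coe_mem_par_iff Q (J := J') (s := ⟨x, hS⟩)).1 hx
      obtain ⟨k, hk, e'⟩ := h1
      have e1 : R.nn k = R.nn i := e'.symm.trans e
      have e2 : (R.nn k)⁻¹ * R.nn i ∈ R.B := by rw [e1, inv_mul_cancel]; exact one_mem _
      have := nn_inj e2
      rw [← this]; exact hk
    refine ⟨(BNP.par Q J').map (⊤ : Subgroup G).subtype, ?_, hB, ?_⟩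
    · intro htop
      exact hj (hmem j (by rw [htop]; trivial))
    · intro i hi
      refine mpar_le hB ?_
      have hS : (⟨R.nn i, trivial⟩ : (⊤ : Subgroup G)) ∈ Q.S := ⟨i, rfl⟩
      exact ⟨⟨R.nn i, trivial⟩, (BNP.coe_mem_par_iff Q (J := J') (s := ⟨_, hS⟩)).2 ⟨i, hi, rfl⟩, rfl⟩

/-- `B` is the normalizer of `U` -/
lemma B_eq_norm (hG : R.Grp = ⊤) : R.B = Subgroup.normalizer (R.U : Set G) := by
  ext x
  rw [PUV.mem_B_iff hG]
  constructor
  · intro h
    have h' : x ∈ R.B := (PUV.mem_B_iff hG).2 h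
    rw [Subgroup.mem_normalizer_iff]
    intro y
    refine ⟨h y, fun hy => ?_⟩
    have h2 := B_norm_U' h' _ hy
    have e : x⁻¹ * (x * y * x⁻¹) * x = y := by group
    rwa [e] at h2
  · intro h y hy
    exact (Subgroup.mem_normalizer_iff.1 h y).1 hy

/-- normal form relative to a node -/
lemma nn_B_nn {i k : Fin l} (hik : k ≠ i) {b : G} (hb : b ∈ R.B) : ∃ b₁ ∈ R.B, ∃ b₂ ∈ R.B,
    R.nn i * b * R.nn k = b₁ * (R.nn i * R.nn k) * b₂ := by
  obtain ⟨u, hu, h, hh, rfl⟩ := mem_B.1 hb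
  obtain ⟨x, hx, v, hv, rfl⟩ := mem_U k hu
  have hpos : S.Pos (S.w i (S.p k)) := S.pos_w i _ (S.pos_p k) (fun h => hik (S.p_inj h))
  refine ⟨R.nn i * x * (R.nn i)⁻¹, R.U_le_B (R.X_le_U hpos ((act_nn i).conj hx)),
    (R.nn k)⁻¹ * v * R.nn k * ((R.nn k)⁻¹ * h * R.nn k),
    mul_mem (R.U_le_B (R.Ui_le_U k (nn_Ui' k v hv))) (R.H_le_B (nn_H' k hh)), ?_⟩
  group

/-- commuting nodes -/
lemma comm_iff {i k : Fin l} (hik : i ≠ k) :
    (∀ x ∈ R.mpar i, ∀ y ∈ R.mpar k, ∃ y' ∈ R.mpar k, ∃ x' ∈ R.mpar i, x * y = y' * x') ↔ S.w i * S.w k = S.w k * S.w i := by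
  constructor
  · intro h
    obtain ⟨y, hy, x, hx, e⟩ := h _ (nn_mem_mpar i) _ (nn_mem_mpar k)
    have hnk : R.nn k ∉ R.mpar i := fun h => hik (eq_of_nn_mem h).symm
    have hni : R.nn i ∉ R.mpar k := fun h => hik (eq_of_nn_mem h)
    have hyB : y ∉ R.B := by
      intro hyB
      apply hnk
      have e1 : R.nn k = (R.nn i)⁻¹ * (y * x) := by rw [← e]; group
      rw [e1]
      exact mul_mem (inv_mem (nn_mem_mpar i)) (mul_mem (B_le_mpar i hyB) hx)
    have hxB : x ∉ R.B := by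
      intro hxB
      apply hni
      have e1 : R.nn i = (y * x) * (R.nn k)⁻¹ := by rw [← e]; group
      rw [e1]
      exact mul_mem (mul_mem hy (B_le_mpar k hxB)) (inv_mem (nn_mem_mpar k))
    obtain ⟨b, hb, b', hb', rfl⟩ := (mem_mpar.1 hy).resolve_left hyB
    obtain ⟨c, hc, c', hc', rfl⟩ := (mem_mpar.1 hx).resolve_left hxB
    obtain ⟨b₁, h1, b₂, h2, e2⟩ := nn_B_nn (R := R) (i := k) (k := i) hik (mul_mem hb' hc)
    have e3 : R.nn i * R.nn k = (b * b₁) * (R.nn k * R.nn i) * (b₂ * c') := by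
      have : (b * b₁) * (R.nn k * R.nn i) * (b₂ * c') = b * (b₁ * (R.nn k * R.nn i) * b₂) * c' := by group
      rw [this, ← e2, e]; group
    exact (act_eq_of_bnb ((act_nn (R := R) k).mul (act_nn i)) (mul_mem (R.nn_mem_N k) (R.nn_mem_N i))
      ((act_nn i).mul (act_nn k)) (mul_mem (R.nn_mem_N i) (R.nn_mem_N k)) (mul_mem hb h1) (mul_mem h2 hc') e3).symm
  · intro hw x hx y hy
    rcases mem_mpar.1 hx with hxB | ⟨b, hb, b', hb', rfl⟩
    · exact ⟨x * y, mul_mem (B_le_mpar k hxB) hy, 1, one_mem _, by group⟩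
    rcases mem_mpar.1 hy with hyB | ⟨c, hc, c', hc', rfl⟩
    · exact ⟨1, one_mem _, _, mul_mem hx (B_le_mpar i hyB), by rw [one_mul]⟩
    obtain ⟨b₁, h1, b₂, h2, e2⟩ := nn_B_nn (R := R) (i := i) (k := k) hik.symm (mul_mem hb' hc)
    have ht : R.nn i * R.nn k * (R.nn i)⁻¹ * (R.nn k)⁻¹ ∈ R.H := by
      refine mem_H_of_act_one (mul_mem (mul_mem (mul_mem (R.nn_mem_N i) (R.nn_mem_N k)) (inv_mem (R.nn_mem_N i)))
        (inv_mem (R.nn_mem_N k))) ?_
      have h3 := (((act_nn (R := R) i).mul (act_nn k)).mul (act_nn i).inv).mul (act_nn k).inv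
      have h4 : S.w i * S.w k * (S.w i)⁻¹ * (S.w k)⁻¹ = 1 := by rw [hw]; group
      rwa [h4] at h3
    refine ⟨b * b₁ * (R.nn i * R.nn k * (R.nn i)⁻¹ * (R.nn k)⁻¹) * R.nn k,
      mul_mem (mul_mem (mul_mem (B_le_mpar k hb) (B_le_mpar k h1)) (B_le_mpar k (R.H_le_B ht))) (nn_mem_mpar k),
      R.nn i * (b₂ * c'), mul_mem (nn_mem_mpar i) (B_le_mpar i (mul_mem h2 hc')), ?_⟩
    have e4 : b * R.nn i * b' * (c * R.nn k * c') = b * (R.nn i * (b' * c) * R.nn k) * c' := by group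
    rw [e4, e2]
    group

/-- an automorphism fixing `U` is transitive on the nodes -/
def Tr {K : Type*} [Group K] {l : ℕ} (U : Subgroup K) (P : Fin l → Subgroup K) : Prop :=
  ∀ i j, ∃ θ : MulAut K, U.map θ.toMonoidHom = U ∧ (P i).map θ.toMonoidHom = P j

lemma map_norm {K : Type*} [Group K] {U : Subgroup K} {θ : MulAut K} (h : U.map θ.toMonoidHom = U) :
    (Subgroup.normalizer (U : Set K)).map θ.toMonoidHom = Subgroup.normalizer (U : Set K) := by
  have h1 := Subgroup.map_equiv_normalizer_eq U θ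
  conv_rhs => rw [← h]
  exact h1

/-- a diagram with a leaf is not transitive -/
theorem noTr_of_leaf (hG : R.Grp = ⊤) (hc : S.Conn) {i₀ k₀ : Fin l}
    (hleaf : ∀ j, j ≠ i₀ → j ≠ k₀ → S.w i₀ * S.w j = S.w j * S.w i₀) (hl : 3 ≤ l) : ¬ Tr R.U R.mpar := by
  intro htr
  have hPS := parSys (R := R) hG (by omega)
  have key : ∀ i, ∃ k, ∀ j, j ≠ i → j ≠ k → S.w i * S.w j = S.w j * S.w i := by
    intro i
    obtain ⟨θ, hθU, hθ⟩ := htr i₀ i
    have hN : R.B.map θ.toMonoidHom = R.B := by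
      rw [B_eq_norm hG]; exact map_norm hθU
    obtain ⟨k, hk⟩ := hPS.exists_map hN k₀
    refine ⟨k, fun j hji hjk => ?_⟩
    obtain ⟨j', hj'⟩ := hPS.exists_map (θ := θ⁻¹) (map_inv_eq hN) j
    have hj : (R.mpar j').map θ.toMonoidHom = R.mpar j := by
      have := map_inv_eq hj'
      rwa [inv_inv] at this
    have h1 : j' ≠ i₀ := by
      rintro rfl
      exact hji (mpar_inj (R := R) (hj.symm.trans hθ))
    have h2 : j' ≠ k₀ := by
      rintro rfl
      exact hjk (mpar_inj (R := R) (hj.symm.trans hk))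
    have h3 := (comm_iff (R := R) (Ne.symm h1)).2 (hleaf j' h1 h2)
    refine (comm_iff (R := R) (Ne.symm hji)).1 ?_
    rw [← hθ, ← hj]
    rintro _ ⟨x, hx, rfl⟩ _ ⟨y, hy, rfl⟩
    obtain ⟨y', hy', x', hx', e⟩ := h3 x hx y hy
    refine ⟨_, ⟨y', hy', rfl⟩, _, ⟨x', hx', rfl⟩, ?_⟩
    rw [← map_mul, e, map_mul]
  choose k hk using key
  -- every node has exactly one neighbour
  have hnb : ∀ i, k i ≠ i ∧ S.w i * S.w (k i) ≠ S.w (k i) * S.w i := by
    intro i
    have hne : ({i} : Set (Fin l))ᶜ.Nonempty := by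
      by_contra hcon
      rw [Set.not_nonempty_iff_eq_empty, Set.compl_empty_iff] at hcon
      have h1 : (⟨0, by omega⟩ : Fin l) ∈ ({i} : Set (Fin l)) := by rw [hcon]; trivial
      have h2 : (⟨1, by omega⟩ : Fin l) ∈ ({i} : Set (Fin l)) := by rw [hcon]; trivial
      rw [Set.mem_singleton_iff] at h1 h2
      have := congrArg Fin.val (h1.trans h2.symm)
      simp at this
    obtain ⟨a, ha, b, hb, hab⟩ := hc {i} ⟨i, rfl⟩ hne
    rw [Set.mem_singleton_iff] at ha hb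
    subst ha
    have : b = k a := by
      by_contra hbk
      exact hab (hk a b hb hbk)
    subst this
    exact ⟨hb, hab⟩
  have i : Fin l := ⟨0, by omega⟩
  have hne : ({i, k i} : Set (Fin l))ᶜ.Nonempty := by
    by_contra hcon
    rw [Set.not_nonempty_iff_eq_empty, Set.compl_empty_iff] at hcon
    have h1 : (Finset.univ : Finset (Fin l)) ⊆ {i, k i} := by
      intro x _
      have : x ∈ ({i, k i} : Set (Fin l)) := by rw [hcon]; trivial
      simpa using this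
    have h2 := Finset.card_le_card h1
    rw [Finset.card_univ, Fintype.card_fin] at h2
    have h3 := Finset.card_le_two (a := i) (b := k i)
    omega
  obtain ⟨a, ha, b, hb, hab⟩ := hc {i, k i} ⟨i, Or.inl rfl⟩ hne
  have hbi : b ≠ i := fun h => hb (Or.inl h)
  have hbk : b ≠ k i := fun h => hb (Or.inr h)
  rcases ha with rfl | ha
  · exact hab (hk a b hbi hbk)
  · rw [Set.mem_singleton_iff] at ha
    subst ha
    have h1 : b = k (k i) := by
      by_contra h
      exact hab (hk _ b hbk h)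
    have h2 : i = k (k i) := by
      by_contra h
      exact (hnb i).2 (hk _ i (hnb i).1.symm h).symm
    exact hbi (h1.trans h2.symm)

/-- adjusting an automorphism preserving `U` -/
lemma exists_PUV [Finite G] (hG : R.Grp = ⊤) {p : ℕ} [Fact p.Prime] (Q : Sylow p G) (hQ : (Q : Subgroup G) = R.U)
    {θ : MulAut G} (hθ : R.U.map θ.toMonoidHom = R.U) : ∃ θ' : G ≃* G, PUV R θ' ∧
      ∀ i j, (R.mpar i).map θ.toMonoidHom = R.mpar j → (R.mpar i).map θ'.toMonoidHom = R.mpar j := by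
  obtain ⟨g, hg⟩ := exists_conj_PUV hG p Q hQ θ
  have hgB : g ∈ R.B := by
    rw [PUV.mem_B_iff hG]
    intro x hx
    obtain ⟨y, rfl⟩ := θ.surjective x
    have hy : y ∈ R.U := (mem_of_map_eq hθ).1 hx
    have := hg.mem_U.2 hy
    rwa [MulEquiv.trans_apply, MulAut.conj_apply] at this
  refine ⟨_, hg, fun i j hij => ?_⟩
  refine map_eq_of_mem fun x => ?_
  rw [MulEquiv.trans_apply, MulAut.conj_apply, ← mem_of_map_eq hij]
  have hgj := B_le_mpar (R := R) j hgB
  constructor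
  · intro h
    have := mul_mem (mul_mem (inv_mem hgj) h) hgj
    have e : g⁻¹ * (g * θ x * g⁻¹) * g = θ x := by group
    rwa [e] at this
  · intro h
    exact mul_mem (mul_mem hgj h) (inv_mem hgj)

lemma card_Xneg (i : Fin l) : Nat.card (R.X (S.neg (S.p i))) = Nat.card (R.X (S.p i)) := by
  refine Nat.card_congr (Equiv.ofBijective (fun y : R.X (S.neg (S.p i)) =>
    (⟨R.nn i * y * (R.nn i)⁻¹, ?_⟩ : R.X (S.p i))) ⟨?_, ?_⟩)
  · have := (act_nn (R := R) i).conj y.2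
    rwa [S.w_neg, S.w_p, S.neg_neg] at this
  · intro y y' h
    have h1 := congrArg Subtype.val h
    exact Subtype.ext (mul_left_cancel (mul_right_cancel h1))
  · intro x
    have h1 := (act_nn (R := R) i).conj' x.2
    rw [S.w_inv, S.w_p] at h1
    exact ⟨⟨_, h1⟩, Subtype.ext (by show R.nn i * ((R.nn i)⁻¹ * x * R.nn i) * (R.nn i)⁻¹ = x; group)⟩

/-- simple root subgroups of different orders -/
theorem noTr_of_card [Finite G] (hG : R.Grp = ⊤) {p : ℕ} [Fact p.Prime] (Q : Sylow p G) (hQ : (Q : Subgroup G) = R.U)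
    {i j : Fin l} (hne : Nat.card (R.X (S.p i)) ≠ Nat.card (R.X (S.p j))) : ¬ Tr R.U R.mpar := by
  intro htr
  obtain ⟨θ, hθU, hθ⟩ := htr i j
  obtain ⟨θ', h1, h2⟩ := exists_PUV hG Q hQ hθU
  have h3 := h1.map_Xneg (h2 i j hθ)
  apply hne
  rw [← card_Xneg i, ← card_Xneg j, ← h3, Subgroup.card_map_of_injective θ'.injective]

end Cfsg.Agent.Uni36.PM
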