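import Cfsg.Agent.Uni36.PM2
import Cfsg.Prelude.Def_AlmostLie
import Cfsg.Prelude.Def_Classical

set_option autoImplicit false
set_option linter.unusedSectionVars false

/-!
Assembling the data for `p`-minimal groups.
-/

namespace Cfsg.Agent.Uni36.PM

open Cfsg.Agent.ChevGrp Cfsg.Agent.ChevGrp.RGrp Cfsg.Agent.AutChev Cfsg.Agent.ChevWeyl

/-! ### order isomorphisms -/

lemma ParSys.map {K K' : Type*} [Group K] [Group K'] {l : ℕ} {N : Subgroup K} {P : Fin l → Subgroup K}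
    (h : ParSys N P) (φ : Subgroup K ≃o Subgroup K') : ParSys (φ N) (fun j => φ (P j)) where
  pos := h.pos
  le := fun j => φ.monotone (h.le j)
  ne := fun j hj => h.ne j (φ.le_iff_le.1 hj)
  min := by
    intro M hM hne
    obtain ⟨j, hj⟩ := h.min (φ.symm M) (by rw [φ.le_symm_apply]; exact hM) (by rw [φ.symm_apply_le]; exact hne)
    exact ⟨j, by rw [← φ.le_symm_apply]; exact hj⟩
  inj := fun i j hij => h.inj i j (φ.le_iff_le.1 hij)
  top := by
    intro M hM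
    have h1 := h.top (φ.symm M) (fun j => by rw [φ.le_symm_apply]; exact hM j)
    rw [← φ.apply_symm_apply M, h1, φ.map_top]
  prop := by
    intro J hJ
    obtain ⟨M, h1, h2, h3⟩ := h.prop J hJ
    refine ⟨φ M, ?_, φ.monotone h2, fun j hj => φ.monotone (h3 j hj)⟩
    intro h4
    apply h1
    rw [← φ.map_top] at h4
    exact φ.injective h4

lemma mapSubgroup_coe {K K' : Type*} [Group K] [Group K'] (e : K ≃* K') (A : Subgroup K) :
    e.mapSubgroup A = A.map e.toMonoidHom := rfl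

/-- the list of exceptions of rank two -/
def List3 (K : Type*) [Group K] : Prop :=
  (∃ (F : Type) (_ : Field F) (_ : Fintype F) (_ : CharP F 2),
      Nonempty (K ≃* Matrix.ProjectiveSpecialLinearGroup (Fin 3) F)) ∨
    (∃ (F : Type) (_ : Field F) (_ : Fintype F) (_ : CharP F 2), 4 ≤ Fintype.card F ∧ Nonempty (K ≃* Cfsg.PSp 2 F)) ∨
      Nonempty (K ≃* ↥(alternatingGroup (Fin 6)))

lemma List3.of_equiv {K K' : Type*} [Group K] [Group K'] (e : K ≃* K') (h : List3 K) : List3 K' := by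
  rcases h with ⟨F, i1, i2, i3, ⟨f⟩⟩ | ⟨F, i1, i2, i3, h4, ⟨f⟩⟩ | ⟨⟨f⟩⟩
  · exact Or.inl ⟨F, i1, i2, i3, ⟨e.symm.trans f⟩⟩
  · exact Or.inr (Or.inl ⟨F, i1, i2, i3, h4, ⟨e.symm.trans f⟩⟩)
  · exact Or.inr (Or.inr ⟨e.symm.trans f⟩)

lemma rankOne_of_equiv {p : ℕ} {K K' : Type*} [Group K] [Group K'] (e : K ≃* K') (h : Cfsg.IsLieRankOneChar p K) :
    Cfsg.IsLieRankOneChar p K' := by
  rcases h with ⟨F, i1, i2, i3, h4, ⟨f⟩⟩ | ⟨F, i1, i2, i3, q, hF, hq, ⟨f⟩⟩ | ⟨hp, h⟩ | ⟨hp, h | ⟨F, _, _, hF, ⟨f⟩⟩⟩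
  · exact Or.inl ⟨F, i1, i2, i3, h4, ⟨e.symm.trans f⟩⟩
  · exact Or.inr (Or.inl ⟨F, i1, i2, i3, q, hF, hq, ⟨e.symm.trans f⟩⟩)
  · obtain ⟨F, _, _, m, hm, hF, ⟨f⟩⟩ := h
    exact Or.inr (Or.inr (Or.inl ⟨hp, F, _, _, m, hm, hF, ⟨e.symm.trans f⟩⟩))
  · obtain ⟨F, _, _, m, hm, hF, ⟨f⟩⟩ := h
    exact Or.inr (Or.inr (Or.inr ⟨hp, Or.inl ⟨F, _, _, m, hm, hF, ⟨e.symm.trans f⟩⟩⟩))
  · exact Or.inr (Or.inr (Or.inr ⟨hp, Or.inr ⟨F, _, _, hF, ⟨e.symm.trans f⟩⟩⟩))

/-- the data for one Sylow subgroup -/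
def RowAt (p : ℕ) (K : Type*) [Group K] (U : Subgroup K) : Prop :=
  ∃ (l : ℕ) (P : Fin l → Subgroup K), ParSys (Subgroup.normalizer (U : Set K)) P ∧
    (Tr U P → Cfsg.IsLieRankOneChar p K ∨ (l = 2 ∧ (p ≠ 2 ∨ List3 K)))

def Row (p : ℕ) (K : Type*) [Group K] : Prop := ∃ U : Sylow p K, RowAt p K (U : Subgroup K)

lemma RowAt.map {p : ℕ} {K K' : Type*} [Group K] [Group K'] {U : Subgroup K} (h : RowAt p K U) (e : K ≃* K') :
    RowAt p K' (U.map e.toMonoidHom) := by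
  obtain ⟨l, P, hP, hT⟩ := h
  have hn : Subgroup.normalizer ((U.map e.toMonoidHom : Subgroup K') : Set K') = e.mapSubgroup (Subgroup.normalizer (U : Set K)) := by
    rw [mapSubgroup_coe]
    exact (Subgroup.map_equiv_normalizer_eq U e).symm
  refine ⟨l, fun j => e.mapSubgroup (P j), ?_, ?_⟩
  · rw [hn]; exact hP.map _
  · intro htr
    have htr' : Tr U P := by
      intro i j
      obtain ⟨θ, h1, h2⟩ := htr i j
      have key : ∀ A C : Subgroup K, (A.map e.toMonoidHom).map θ.toMonoidHom = C.map e.toMonoidHom →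
          A.map ((e.trans (θ.trans e.symm) : MulAut K)).toMonoidHom = C := by
        intro A C hAC
        apply Subgroup.map_injective (f := e.toMonoidHom) e.injective
        rw [← hAC]
        ext x
        constructor
        · rintro ⟨_, ⟨a, ha, rfl⟩, rfl⟩
          refine ⟨e a, ⟨a, ha, rfl⟩, ?_⟩
          show θ (e a) = e (e.symm (θ (e a)))
          rw [e.apply_symm_apply]
        · rintro ⟨_, ⟨a, ha, rfl⟩, rfl⟩
          refine ⟨_, ⟨a, ha, rfl⟩, ?_⟩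
          show e (e.symm (θ (e a))) = θ (e a)
          rw [e.apply_symm_apply]
      exact ⟨(e.trans (θ.trans e.symm) : MulAut K), key _ _ h1, key _ _ h2⟩
    rcases hT htr' with h | ⟨h1, h2⟩
    · exact Or.inl (rankOne_of_equiv e h)
    · exact Or.inr ⟨h1, h2.imp id (fun h => h.of_equiv e)⟩

lemma Row.of_equiv {p : ℕ} [Fact p.Prime] {K K' : Type*} [Group K] [Group K'] [Finite K] (h : Row p K) (e : K ≃* K') :
    Row p K' := by
  have : Finite K' := Finite.of_equiv _ e.toEquiv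
  obtain ⟨U, hU⟩ := h
  refine ⟨Sylow.ofCard ((U : Subgroup K).map e.toMonoidHom) ?_, hU.map e⟩
  rw [Subgroup.card_map_of_injective e.injective, ← Nat.card_congr e.toEquiv]
  exact Sylow.card_eq_multiplicity U

lemma Row.all {p : ℕ} [Fact p.Prime] {K : Type*} [Group K] [Finite K] (h : Row p K) (U : Sylow p K) :
    RowAt p K (U : Subgroup K) := by
  obtain ⟨U0, hU0⟩ := h
  obtain ⟨g, rfl⟩ := MulAction.exists_smul_eq K U0 U
  exact hU0.map (MulAut.conj g)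

/-! ### root subgroups -/

/-- `G` has a system of root subgroups, `U` being Sylow, with the Weyl system and the orders satisfying `Φ` -/
def HasRG (p : ℕ) (G : Type*) [Group G] (Φ : ∀ (l n : ℕ), WSys l n → (Fin l → ℕ) → Prop) : Prop :=
  ∃ (l n : ℕ) (S : WSys l n) (R : RGrp S G), 0 < l ∧ R.Grp = ⊤ ∧ (∃ P : Sylow p G, (P : Subgroup G) = R.U) ∧
    Φ l n S (fun i => Nat.card (R.X (S.p i)))

theorem HasRG.of_surj {p : ℕ} [Fact p.Prime] {G G' : Type*} [Group G] [Group G'] [Finite G]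
    {Φ : ∀ (l n : ℕ), WSys l n → (Fin l → ℕ) → Prop} (h : HasRG p G Φ) (f : G →* G') (hs : Function.Surjective f)
    (hc : f.ker ≤ Subgroup.center G) : HasRG p G' Φ := by
  have : Finite G' := Finite.of_surjective f hs
  obtain ⟨l, n, S, R, hl, hG, ⟨P, hP⟩, hΦ⟩ := h
  have hf : f.ker ≤ R.H := hc.trans (ClBN.center_le_H R hG)
  refine ⟨l, n, S, ClRG.mapK R f hf, hl, ?_, ?_, ?_⟩
  · rw [ClRG.mapK_Grp, hG, ← MonoidHom.range_eq_map]
    exact MonoidHom.range_eq_top.2 hs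
  · have h1 : IsPGroup p ↥((P : Subgroup G).map f) := P.isPGroup'.map f
    have h2 : ¬ p ∣ ((P : Subgroup G).map f).index := fun hd =>
      P.not_dvd_index' (Subgroup.index_ne_zero_of_finite) (hd.trans (Subgroup.index_map_dvd _ hs))
    refine ⟨h1.toSylow h2, ?_⟩
    rw [IsPGroup.toSylow_coe, ClRG.mapK_U, hP]
  · have e : (fun i => Nat.card ((ClRG.mapK R f hf).X (S.p i))) = fun i => Nat.card (R.X (S.p i)) := by
      funext i
      refine (Nat.card_congr (Equiv.ofBijective (fun x : R.X (S.p i) => (⟨f x, ⟨x, x.2, rfl⟩⟩ :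
        (ClRG.mapK R f hf).X (S.p i))) ⟨?_, ?_⟩)).symm
      · intro x y hxy
        have h1 : f x = f y := congrArg Subtype.val hxy
        have h2 : f ((x : G)⁻¹ * y) = 1 := by rw [map_mul, map_inv, h1, inv_mul_cancel]
        have h3 := R.UH _ (R.X_le_U (S.pos_p i) (mul_mem (inv_mem x.2) y.2)) (hf h2)
        exact Subtype.ext (inv_mul_eq_one.1 h3)
      · rintro ⟨_, x, hx, rfl⟩
        exact ⟨⟨x, hx⟩, rfl⟩
    rw [e]; exact hΦ

theorem HasRG.of_equiv {p : ℕ} [Fact p.Prime] {G G' : Type*} [Group G] [Group G'] [Finite G]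
    {Φ : ∀ (l n : ℕ), WSys l n → (Fin l → ℕ) → Prop} (h : HasRG p G Φ) (e : G ≃* G') : HasRG p G' Φ :=
  h.of_surj e.toMonoidHom e.surjective (by
    have : e.toMonoidHom.ker = ⊥ := (MonoidHom.ker_eq_bot_iff _).2 e.injective
    rw [this]; exact bot_le)

/-- leaf -/
def PhiLeaf (l n : ℕ) (S : WSys l n) (_ : Fin l → ℕ) : Prop :=
  3 ≤ l ∧ S.Conn ∧ ∃ i₀ k₀ : Fin l, ∀ j, j ≠ i₀ → j ≠ k₀ → S.w i₀ * S.w j = S.w j * S.w i₀

/-- different orders -/
def PhiCard (l n : ℕ) (_ : WSys l n) (c : Fin l → ℕ) : Prop := ∃ i j : Fin l, c i ≠ c j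

def PhiRank (k : ℕ) (l n : ℕ) (_ : WSys l n) (_ : Fin l → ℕ) : Prop := l = k

theorem row_of_leaf {p : ℕ} [Fact p.Prime] {G : Type*} [Group G] [Finite G] (h : HasRG p G PhiLeaf) : Row p G := by
  obtain ⟨l, n, S, R, hl, hG, ⟨Q, hQ⟩, h3, hc, i₀, k₀, hleaf⟩ := h
  refine ⟨Q, l, R.mpar, ?_, fun htr => ?_⟩
  · rw [hQ, ← B_eq_norm hG]; exact parSys hG hl
  · rw [hQ] at htr
    exact absurd htr (noTr_of_leaf hG hc hleaf h3)

theorem row_of_card {p : ℕ} [Fact p.Prime] {G : Type*} [Group G] [Finite G] (h : HasRG p G PhiCard) : Row p G := by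
  obtain ⟨l, n, S, R, hl, hG, ⟨Q, hQ⟩, i, j, hij⟩ := h
  refine ⟨Q, l, R.mpar, ?_, fun htr => ?_⟩
  · rw [hQ, ← B_eq_norm hG]; exact parSys hG hl
  · rw [hQ] at htr
    exact absurd htr (noTr_of_card hG Q hQ hij)

theorem row_of_one {p : ℕ} [Fact p.Prime] {G : Type*} [Group G] [Finite G] {Φ : ∀ (l n : ℕ), WSys l n → (Fin l → ℕ) → Prop}
    (h : HasRG p G Φ) (h1 : Cfsg.IsLieRankOneChar p G) : Row p G := by
  obtain ⟨l, n, S, R, hl, hG, ⟨Q, hQ⟩, -⟩ := h
  refine ⟨Q, l, R.mpar, ?_, fun _ => Or.inl h1⟩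
  rw [hQ, ← B_eq_norm hG]; exact parSys hG hl

theorem row_of_two {p : ℕ} [Fact p.Prime] {G : Type*} [Group G] [Finite G]
    (h : HasRG p G (PhiRank 2)) (h1 : p ≠ 2 ∨ List3 G) : Row p G := by
  obtain ⟨l, n, S, R, hl, hG, ⟨Q, hQ⟩, hl2⟩ := h
  refine ⟨Q, l, R.mpar, ?_, fun _ => Or.inr ⟨hl2, h1⟩⟩
  rw [hQ, ← B_eq_norm hG]; exact parSys hG hl

/-! ### the conclusion -/

section final

variable {X : Type*} [Group X] [Finite X] {p : ℕ} [hp : Fact p.Prime] {K : Subgroup X} [hKn : K.Normal]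

theorem conclude (hX : Cfsg.IsPMinimal p X) (hs : IsSimpleGroup K) (hK : Row p K) (U : Sylow p K) :
    IsCoatom (Subgroup.normalizer (((U : Subgroup K).map K.subtype : Subgroup X) : Set X)) ∧
    (Cfsg.IsLieRankOneChar p K ∨ (p = 2 ∧ K ≠ ⊤ ∧ List3 K)) := by
  obtain ⟨l, P, hP, hT⟩ := hK.all U
  obtain ⟨hco, S, hSp, hSK, hSU, htr⟩ := main hX hs U P hP
  refine ⟨hco, ?_⟩
  rcases hT (fun i j => by
    obtain ⟨s, hs, h⟩ := htr i j
    exact ⟨_, hSU s hs, h⟩) with h | ⟨rfl, h⟩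
  · exact Or.inl h
  right
  have h01 : (0 : Fin 2) ≠ 1 := by decide
  have hne : P 0 ≠ P 1 := fun h => h01 (hP.inj 0 1 h.le)
  obtain ⟨s, hs, hs01⟩ := htr 0 1
  have hs10 : (P 1).map (MulAut.conjNormal s : MulAut K).toMonoidHom = P 0 := by
    obtain ⟨k, hk⟩ := hP.exists_map (θ := MulAut.conjNormal s) (map_norm (hSU s hs)) 1
    have hk0 : k = 0 := by
      by_contra h0
      have hk1 : k = 1 := by omega
      have hk2 : (P 1).map (MulAut.conjNormal s : MulAut K).toMonoidHom =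
          (P 0).map (MulAut.conjNormal s : MulAut K).toMonoidHom := by rw [hk, hk1, hs01]
      exact hne (Subgroup.map_injective (f := (MulAut.conjNormal s : MulAut K).toMonoidHom)
        (MulAut.conjNormal s : MulAut K).injective hk2).symm
    rw [hk, hk0]
  have hp2 : p = 2 := by
    by_contra hp2
    obtain ⟨k, hk⟩ := hSp ⟨s, hs⟩
    have hk' : s ^ p ^ k = 1 := congrArg Subtype.val hk
    have hodd : Odd (p ^ k) := (hp.out.odd_of_ne_two hp2).pow
    obtain ⟨m, hm⟩ := hodd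
    have key : ∀ m : ℕ, (P 0).map (MulAut.conjNormal (s ^ (2 * m + 1)) : MulAut K).toMonoidHom = P 1 := by
      intro m
      induction m with
      | zero => rw [mul_zero, zero_add, pow_one]; exact hs01
      | succ m ih =>
        have e : s ^ (2 * (m + 1) + 1) = s * s * s ^ (2 * m + 1) := by
          rw [show 2 * (m + 1) + 1 = 2 + (2 * m + 1) by ring, pow_add, pow_two]
        rw [e, map_mul, map_mul, ← map_map', ← map_map', ih, hs10, hs01]
    have h1 := key m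
    rw [← hm, hk', map_one, map_one'] at h1
    exact hne h1
  refine ⟨hp2, ?_, h.resolve_left (fun h => h hp2)⟩
  intro htop
  have hsK : s ∈ K := by rw [htop]; trivial
  have hsU : (⟨s, hsK⟩ : K) ∈ (U : Subgroup K) := by rw [← hSK]; exact hs
  have hsP : (⟨s, hsK⟩ : K) ∈ P 0 := hP.le 0 (Subgroup.le_normalizer hsU)
  apply hne
  rw [← hs01]
  have e : (MulAut.conjNormal s : MulAut K) = MulAut.conj (⟨s, hsK⟩ : K) := by
    ext y; rw [MulAut.conjNormal_apply]; rfl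
  rw [e]
  refine le_antisymm ?_ ?_
  · intro x hx
    refine ⟨(⟨s, hsK⟩ : K)⁻¹ * x * ⟨s, hsK⟩, mul_mem (mul_mem (inv_mem hsP) hx) hsP, ?_⟩
    show (⟨s, hsK⟩ : K) * ((⟨s, hsK⟩ : K)⁻¹ * x * ⟨s, hsK⟩) * (⟨s, hsK⟩ : K)⁻¹ = x
    group
  · rintro _ ⟨x, hx, rfl⟩
    exact mul_mem (mul_mem hsP hx) (inv_mem hsP)

end final

end Cfsg.Agent.Uni36.PM
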