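import Cfsg.Agent.Uni36.PM3
import Cfsg.Agent.Uni36.BT4
import Cfsg.Agent.ClRG.TypeA

set_option autoImplicit false
set_option linter.unusedSectionVars false

/-!
Leaves of the diagrams.
-/

namespace Cfsg.Agent.Uni36.PM

open Cfsg.Lie Cfsg.Agent.Chev Cfsg.Agent.ChevGrp Cfsg.Agent.ChevGrp.RGrp Cfsg.Agent.AutChev Cfsg.Agent.ChevWeyl

section

variable {l n : ℕ}

lemma comm_of_m (D : RootPerm l n) {i j : Fin l} (h1 : D.m j (D.p i) = 0) (h2 : D.m i (D.p j) = 0) :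
    D.w i * D.w j = D.w j * D.w i := by
  have key : ∀ i j : Fin l, D.m j (D.p i) = 0 → ∀ r, ∑ k, D.c (D.w j r) k * D.m k (D.p i) = ∑ k, D.c r k * D.m k (D.p i) := by
    intro i j h r
    have e : ∀ k, D.c (D.w j r) k * D.m k (D.p i) = D.c r k * D.m k (D.p i) := by
      intro k
      rw [D.c_w]
      split_ifs with hk
      · rw [hk, h, mul_zero, mul_zero]
      · rw [sub_zero]
    exact Finset.sum_congr rfl fun k _ => e k
  ext r : 1
  apply D.c_inj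
  funext k
  rw [Equiv.Perm.mul_apply, Equiv.Perm.mul_apply, D.c_w, D.c_w, D.c_w, D.c_w, key i j h1, key j i h2]
  ring

/-- leaf condition for a root permutation datum -/
lemma phiLeaf_of_m (D : RootPerm l n) (hl : 3 ≤ l) (hc : D.wsys.Conn) (i₀ k₀ : Fin l)
    (h : ∀ j, j ≠ i₀ → j ≠ k₀ → D.m j (D.p i₀) = 0 ∧ D.m i₀ (D.p j) = 0) (c : Fin l → ℕ) : PhiLeaf l n D.wsys c :=
  ⟨hl, hc, i₀, k₀, fun j h1 h2 => comm_of_m D (h j h1 h2).1 (h j h1 h2).2⟩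

lemma leaf_cm (D : RootPerm l n) (hl : 3 ≤ l) (hc : D.wsys.Conn) (cm : Fin l → Fin l → ℤ)
    (hA : ∀ i j, D.m i (D.p j) = cm i j) (i₀ k₀ : Fin l)
    (h : ∀ j, j ≠ i₀ → j ≠ k₀ → cm j i₀ = 0 ∧ cm i₀ j = 0) (c : Fin l → ℕ) : PhiLeaf l n D.wsys c :=
  phiLeaf_of_m D hl hc i₀ k₀ (fun j h1 h2 => by rw [hA, hA]; exact h j h1 h2) c

end

lemma leaf_F4 (E : DData chevF4) (c : Fin 4 → ℕ) : PhiLeaf 4 chevF4.nroots E.rp.wsys c :=
  leaf_cm (l := 4) E.rp (by norm_num) (conn_F4 E) cmF4 (cartan_F4 E) 0 1 (by decide +kernel) c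

lemma leaf_E6 (E : DData chevE6) (c : Fin 6 → ℕ) : PhiLeaf 6 chevE6.nroots E.rp.wsys c :=
  leaf_cm (l := 6) E.rp (by norm_num) (conn_E6 E) cmE6 (cartan_E6 E) 0 2 (by decide +kernel) c

lemma leaf_E7 (E : DData chevE7) (c : Fin 7 → ℕ) : PhiLeaf 7 chevE7.nroots E.rp.wsys c :=
  leaf_cm (l := 7) E.rp (by norm_num) (conn_E7 E) cmE7 (cartan_E7 E) 0 2 (by decide +kernel) c

lemma leaf_E8 (E : DData chevE8) (c : Fin 8 → ℕ) : PhiLeaf 8 chevE8.nroots E.rp.wsys c :=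
  leaf_cm (l := 8) E.rp (by norm_num) (conn_E8 E) cmE8 (cartan_E8 E) 0 2 (by decide +kernel) c

/-! ### types B and D -/

section BD

open Cfsg.Agent.ClBN

variable {m l : ℕ}

lemma m_RS (S : RS m l) (i j : Fin l) (h : ip (S.a i) (S.a j) = 0) : S.rp.m i (S.rp.p j) = 0 := by
  have e : S.rp.m i (S.rp.p j) = ip (S.a i) (co (S.a j)) := by
    show S.vec.m i (S.e.symm (S.e (S.vec.a j))) = _
    rw [Equiv.symm_apply_apply]; rfl
  rw [e]
  unfold co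
  split_ifs
  · rw [ip_smul_right, h, mul_zero]
  · exact h

lemma leaf_RS (S : RS m l) (hl : 3 ≤ l) (hc : S.rp.wsys.Conn) (i₀ k₀ : Fin l)
    (h : ∀ j, j ≠ i₀ → j ≠ k₀ → ip (S.a i₀) (S.a j) = 0) (c : Fin l → ℕ) :
    PhiLeaf l (Fintype.card S.Rt) S.rp.wsys c :=
  phiLeaf_of_m S.rp hl hc i₀ k₀ (fun j h1 h2 => ⟨m_RS S _ _ (by rw [ip_comm]; exact h j h1 h2), m_RS S _ _ (h j h1 h2)⟩) c

lemma leaf_B (hm : 3 ≤ m) (c : Fin m → ℕ) : PhiLeaf m (Fintype.card (rsB m).Rt) (rsB m).rp.wsys c := by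
  refine leaf_RS (rsB m) hm (conn_B m (by omega)) ⟨0, by omega⟩ ⟨1, by omega⟩ ?_ c
  intro j h0 h1
  have h0' : j.val ≠ 0 := fun h => h0 (Fin.ext h)
  have h1' : j.val ≠ 1 := fun h => h1 (Fin.ext h)
  show ip (aB m _) (aB m j) = 0
  have key : ∀ t : Fin m, 2 ≤ t.val → aB m ⟨0, by omega⟩ t = 0 := by
    intro t ht
    rw [aB_apply]
    simp only [Fin.ext_iff]
    split_ifs <;> omega
  rw [ip_comm]
  conv_lhs => rw [ip_comm]
  unfold aB
  rw [dif_pos (show (0 : ℕ) + 1 < m by omega)]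
  have key' : ∀ t : Fin m, 2 ≤ t.val → (wP (Sum.inl (⟨0, by omega⟩ : Fin m)) - wP (Sum.inl (⟨0 + 1, by omega⟩ : Fin m)) : Fin m → ℤ) t = 0 := by
    intro t ht
    have h5 := key t ht
    unfold aB at h5
    rw [dif_pos (show (0 : ℕ) + 1 < m by omega)] at h5
    exact h5
  split_ifs with h
  · rw [ip_sub_right, ip_wP_right, ip_wP_right]
    show 1 * _ - 1 * _ = (0 : ℤ)
    have e1 := key' j (by omega)
    have e2 := key' ⟨j.val + 1, h⟩ (show 2 ≤ j.val + 1 by omega)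
    rw [show ix (Sum.inl j : PP m) = j from rfl, show ix (Sum.inl (⟨j.val + 1, h⟩ : Fin m) : PP m) = ⟨j.val + 1, h⟩ from rfl, e1, e2]
    ring
  · rw [ip_wP_right]
    have e1 := key' j (by omega)
    rw [show ix (Sum.inl j : PP m) = j from rfl, e1, mul_zero]

lemma leaf_D (hm : 4 ≤ m) (c : Fin m → ℕ) : PhiLeaf m (Fintype.card (rsD m (by omega)).Rt) (rsD m (by omega)).rp.wsys c := by
  refine leaf_RS (rsD m (by omega)) (by omega) (conn_D m (by omega)) ⟨0, by omega⟩ ⟨1, by omega⟩ ?_ c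
  intro j h0 h1
  have h0' : j.val ≠ 0 := fun h => h0 (Fin.ext h)
  have h1' : j.val ≠ 1 := fun h => h1 (Fin.ext h)
  show ip (aD m _) (aD m j) = 0
  have key : ∀ t : Fin m, 2 ≤ t.val → aD m ⟨0, by omega⟩ t = 0 := by
    intro t ht
    rw [aD_apply (by omega)]
    simp only [Fin.ext_iff]
    split_ifs <;> omega
  have hj := j.2
  by_cases h : j.val + 1 < m
  · have e : aD m j = wP (Sum.inl j : PP m) - wP (Sum.inl (⟨j.val + 1, h⟩ : Fin m) : PP m) := by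
      unfold aD; rw [dif_pos h]
    rw [e, ip_sub_right, ip_wP_right, ip_wP_right]
    show 1 * aD m ⟨0, _⟩ j - 1 * aD m ⟨0, _⟩ ⟨j.val + 1, h⟩ = 0
    rw [key j (by omega), key ⟨j.val + 1, h⟩ (show 2 ≤ j.val + 1 by omega)]
    ring
  · have e : aD m j = wP (Sum.inl ⟨j.val - 1, by omega⟩ : PP m) - wP (Sum.inr j : PP m) := by
      unfold aD; rw [dif_neg h]
    rw [e, ip_sub_right, ip_wP_right, ip_wP_right]
    show 1 * aD m ⟨0, _⟩ ⟨j.val - 1, _⟩ - (-1) * aD m ⟨0, _⟩ j = 0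
    rw [key j (by omega), key ⟨j.val - 1, by omega⟩ (show 2 ≤ j.val - 1 by omega)]
    ring

end BD

/-! ### type A -/

section A

open Cfsg.Agent.ClRG

variable {l : ℕ}

lemma rpA_m (i j : Fin l) : (rpA l).m i ((rpA l).p j) =
    (dl i.castSucc j.castSucc - dl i.succ j.castSucc) - (dl i.castSucc j.succ - dl i.succ j.succ) := by
  show (vecA l).m i ((eA l).symm (eA l ((vecA l).a j))) = _
  rw [Equiv.symm_apply_apply]
  show ∑ t, (dl i.castSucc t - dl i.succ t) * (dl j.castSucc t - dl j.succ t) = _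
  simp only [mul_sub, Finset.sum_sub_distrib]
  rw [sum_mul_dl (fun t => dl i.castSucc t - dl i.succ t), sum_mul_dl (fun t => dl i.castSucc t - dl i.succ t)]

lemma conn_A (hl : 0 < l) : (rpA l).wsys.Conn := by
  refine conn_wsys (rpA l) ⟨0, hl⟩ (fun i => ⟨i.val - 1, by omega⟩) (fun i => i.val) ?_ ?_
  · intro i hi
    have : i.val ≠ 0 := fun h => hi (Fin.ext h)
    show i.val - 1 < i.val
    omega
  · intro i hi
    have hi0 : i.val ≠ 0 := fun h => hi (Fin.ext h)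
    rw [rpA_m]
    unfold dl
    simp only [Fin.ext_iff, Fin.val_castSucc, Fin.val_succ]
    split_ifs <;> omega

lemma leaf_A (hl : 3 ≤ l) (c : Fin l → ℕ) : PhiLeaf l (Fintype.card (RA l)) (rpA l).wsys c := by
  obtain ⟨i0, hi0⟩ : ∃ i0 : Fin l, i0.val = 0 := ⟨⟨0, by omega⟩, rfl⟩
  obtain ⟨i1, hi1⟩ : ∃ i1 : Fin l, i1.val = 1 := ⟨⟨1, by omega⟩, rfl⟩
  refine phiLeaf_of_m (rpA l) hl (conn_A (by omega)) i0 i1 ?_ c
  intro j h0 h1
  have h0' : j.val ≠ 0 := fun h => h0 (Fin.ext (h.trans hi0.symm))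
  have h1' : j.val ≠ 1 := fun h => h1 (Fin.ext (h.trans hi1.symm))
  rw [rpA_m, rpA_m]
  unfold dl
  simp only [Fin.ext_iff, Fin.val_castSucc, Fin.val_succ]
  constructor <;> split_ifs <;> omega

end A

end Cfsg.Agent.Uni36.PM
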