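import Cfsg.Agent.Uni36.PM4
import Cfsg.Agent.Uni36.Cls3
import Cfsg.Agent.Uni36.Inst2
import Cfsg.Agent.Uni36.Inst3

set_option autoImplicit false
set_option maxRecDepth 100000
set_option linter.unusedSectionVars false

/-!
The data for the groups of Lie type.
-/

namespace Cfsg.Agent.Uni36.PM

open Cfsg.Lie Cfsg.Agent.Chev Cfsg.Agent.ChevGrp Cfsg.Agent.ChevTw Cfsg.Agent.ChevWeyl Cfsg.Agent.ChevU Cfsg.Agent.AutChev
open Cfsg.Agent.ClRG Cfsg.Agent.ChevGrp.DData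

theorem hasRG_of_hasBN {p : ℕ} {G : Type*} [Group G] (h : HasBN p G) : HasRG p G (fun _ _ _ _ => True) := by
  obtain ⟨l, n, S, R, hl, hG, hP, -⟩ := h
  exact ⟨l, n, S, R, hl, hG, hP, trivial⟩

theorem hasRG_PSL (p : ℕ) [Fact p.Prime] (F : Type*) [Field F] [Fintype F] [CharP F p] (l : ℕ) (hl : 0 < l)
    {Φ : ∀ (l n : ℕ), WSys l n → (Fin l → ℕ) → Prop} (h : ∀ c, Φ l (Fintype.card (RA l)) (rpA l).wsys c) :
    HasRG p (Matrix.ProjectiveSpecialLinearGroup (Fin (l + 1)) F) Φ :=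
  ⟨l, _, _, rgPSL l F, hl, rgPSL_Grp,
    ⟨(isPGroup_U_PSL p).toSylow (not_dvd_index_U' (rgPSL l F) rgPSL_Grp p (isPGroup_U_PSL p) (not_dvd_H_PSL p)), rfl⟩, h _⟩

theorem hasRG_chev {D : ChevalleyDatum} (E : DData D) (H : Good D) (R : RootFacts D) (p : ℕ)
    [Fact p.Prime] (F : Type*) [Field F] [Finite F] [CharP F p] (hr : 0 < D.rank)
    {Φ : ∀ (l n : ℕ), WSys l n → (Fin l → ℕ) → Prop} (h : ∀ c, Φ D.rank D.nroots E.rp.wsys c) :
    HasRG p ↥(D.group F) Φ :=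
  ⟨D.rank, D.nroots, _, chevG E H F, hr, chevG_Grp E H, exists_sylow_U E H R p, h _⟩

theorem row_F4 (p : ℕ) [Fact p.Prime] (F : Type*) [Field F] [Finite F] [CharP F p] : Row p ↥(chevF4.group F) := by
  obtain ⟨E⟩ := DData.nonempty_of_mem (D := chevF4) (by simp [types7])
  obtain ⟨R⟩ := nonempty_rootFacts (D := chevF4) (by simp)
  have hfin : Finite (GL chevF4.Idx F) := inferInstance
  exact row_of_leaf (hasRG_chev E (good_of_mem (by simp [data])) R p F (by decide) (leaf_F4 E))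

theorem row_E6 (p : ℕ) [Fact p.Prime] (F : Type*) [Field F] [Finite F] [CharP F p] : Row p ↥(chevE6.group F) := by
  obtain ⟨E⟩ := DData.nonempty_of_mem (D := chevE6) (by simp [types7])
  obtain ⟨R⟩ := nonempty_rootFacts (D := chevE6) (by simp)
  have hfin : Finite (GL chevE6.Idx F) := inferInstance
  exact row_of_leaf (hasRG_chev E (good_of_mem (by simp [data])) R p F (by decide) (leaf_E6 E))

theorem row_E7 (p : ℕ) [Fact p.Prime] (F : Type*) [Field F] [Finite F] [CharP F p] : Row p ↥(chevE7.group F) := by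
  obtain ⟨E⟩ := DData.nonempty_of_mem (D := chevE7) (by simp [types7])
  obtain ⟨R⟩ := nonempty_rootFacts (D := chevE7) (by simp)
  have hfin : Finite (GL chevE7.Idx F) := inferInstance
  exact row_of_leaf (hasRG_chev E (good_of_mem (by simp [data])) R p F (by decide) (leaf_E7 E))

theorem row_E8 (p : ℕ) [Fact p.Prime] (F : Type*) [Field F] [Finite F] [CharP F p] : Row p ↥(chevE8.group F) := by
  obtain ⟨E⟩ := DData.nonempty_of_mem (D := chevE8) (by simp [types7])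
  obtain ⟨R⟩ := nonempty_rootFacts (D := chevE8) (by simp)
  have hfin : Finite (GL chevE8.Idx F) := inferInstance
  exact row_of_leaf (hasRG_chev E (good_of_mem (by simp [data])) R p F (by decide) (leaf_E8 E))

/-! ### type G₂ -/

lemma Xneg_disj {l n : ℕ} {S : WSys l n} {G : Type*} [Group G] {R : RGrp S G} {i j : Fin l} (hij : i ≠ j) {x : G}
    (h1 : x ∈ R.X (S.neg (S.p i))) (h2 : x ∈ R.X (S.neg (S.p j))) : x = 1 := by
  by_cases hB : x ∈ R.B
  · exact R.B_inf_V hB (R.X_le_V (by rw [S.pos_neg_iff, not_not]; exact S.pos_p i) h1)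
  · exfalso
    obtain ⟨b, hb, b', hb', e⟩ := (mem_mpar.1 (Xneg_le_mpar i h1)).resolve_left hB
    apply hij
    refine eq_of_nn_mem (R := R) ?_
    have e1 : R.nn i = b⁻¹ * x * b'⁻¹ := by rw [e]; group
    rw [e1]
    exact mul_mem (mul_mem (B_le_mpar j (inv_mem hb)) (Xneg_le_mpar j h2)) (B_le_mpar j (inv_mem hb'))

theorem row_G2 (p : ℕ) [hp : Fact p.Prime] (F : Type*) [Field F] [Finite F] [CharP F p] : Row p ↥(chevG2.group F) := by
  obtain ⟨E⟩ := DData.nonempty_of_mem (D := chevG2) (by simp [types7])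
  obtain ⟨R⟩ := nonempty_rootFacts (D := chevG2) (by simp)
  have hfin : Finite (GL chevG2.Idx F) := inferInstance
  have H : Good chevG2 := good_of_mem (by simp [data])
  by_cases hp2 : p = 2
  · obtain ⟨Q, hQ⟩ := exists_sylow_U (F := F) E H R p
    have hG : (chevG E H F).Grp = ⊤ := chevG_Grp E H
    refine ⟨Q, 2, (chevG E H F).mpar, ?_, fun htr => ?_⟩
    · rw [hQ, ← B_eq_norm hG]; exact parSys hG (by decide)
    · exfalso
      rw [hQ] at htr
      obtain ⟨θ, hθU, hθ⟩ := htr (0 : Fin 2) (1 : Fin 2)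
      obtain ⟨θ', h1, h2⟩ := exists_PUV hG Q hQ hθU
      have h3 := h1.map_Xneg (h2 _ _ hθ)
      obtain ⟨ρ, c, σ, hd⟩ := exists_dat (H := H) E h1
      have hne : ∀ i : Fin 2, ρ i = (1 : Fin 2) ↔ i = 0 := by
        have h01 : ρ (0 : Fin 2) = (1 : Fin 2) := by
          -- `θ'` maps `x_{-p_0}(1)` into `X_{-p_1}`
          obtain ⟨hc, h4⟩ := hd (0 : Fin 2)
          by_contra hcon
          have h6 : ∀ x : Fin 2, x ≠ 1 → x = 0 := by decide
          have h5 : ρ (0 : Fin 2) = (0 : Fin 2) := h6 _ hcon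
          have hn : ∀ j : Fin chevG2.rank, ∀ x, x ∈ (chevG E H F).X (E.rp.wsys.neg (E.rp.wsys.p j)) ↔
              ∃ t, x = xG H.toGood2 (chevG2.neg (chevG2.simple j)) t := by
            intro j x
            rw [mem_chevG_X E H]
            have : ((E.rp.wsys.neg (E.rp.wsys.p j) : Fin chevG2.nroots) : ℕ) = chevG2.neg (chevG2.simple j) := by
              rw [← E.hp j]; exact E.hneg _
            rw [this]
          have h8 : θ' (xG H.toGood2 (chevG2.neg (chevG2.simple (0 : Fin 2))) (1 : F)) ∈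
              (chevG E H F).X (E.rp.wsys.neg (E.rp.wsys.p (1 : Fin 2))) := by
            rw [← h3]; exact ⟨_, (hn (0 : Fin 2) _).2 ⟨1, rfl⟩, rfl⟩
          have h9 : θ' (xG H.toGood2 (chevG2.neg (chevG2.simple (0 : Fin 2))) (1 : F)) ∈
              (chevG E H F).X (E.rp.wsys.neg (E.rp.wsys.p (0 : Fin 2))) := by
            have h10 := (h4 1).2
            rw [h10, h5]
            exact (hn (0 : Fin 2) _).2 ⟨_, rfl⟩
          have h11 := Xneg_disj (R := chevG E H F) (show (0 : Fin 2) ≠ (1 : Fin 2) by decide) h9 h8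
          have h12 : xG H.toGood2 (chevG2.neg (chevG2.simple (0 : Fin 2))) (1 : F) = 1 := by
            apply θ'.injective
            rw [h11, map_one]
          exact xG_ne_one H (Chev.neg_lt H.toGood1 (H.simple_lt _ (by decide))) one_ne_zero h12
        intro i
        constructor
        · intro h
          exact ρ.injective (h.trans h01.symm)
        · rintro rfl; exact h01
      have h01 : ρ (0 : Fin 2) = (1 : Fin 2) := (hne 0).2 rfl
      have h10 : ρ (1 : Fin 2) = (0 : Fin 2) := by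
        have h5 : ρ (1 : Fin 2) ≠ (1 : Fin 2) := fun h => absurd ((hne 1).1 h) (by decide)
        have h6 : ∀ x : Fin 2, x ≠ 1 → x = 0 := by decide
        exact h6 _ h5
      have h7 := swap_G2 hd h01 h10
      have h8 : (2 : F) = 0 := by
        have := CharP.cast_eq_zero F p
        rw [hp2] at this
        exact_mod_cast this
      have h9 : (1 : F) = 0 := by linear_combination h7 - h8
      exact one_ne_zero h9
  · exact row_of_two (hasRG_chev E H R p F (by decide) (fun c => (rfl : chevG2.rank = 2))) (Or.inl hp2)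

/-! ### twisted groups -/

theorem row_twE6 {K : Type*} [Field K] [Fintype K] (p : ℕ) [Fact p.Prime] [CharP K p] {q : ℕ} (hq : IsPrimePow q)
    (hK : Fintype.card K = q ^ 2) : Row p ↥(twistedE6 K q) := by
  obtain ⟨φ, hφ, hφφ⟩ := setup2 (K := K) hq hK
  obtain ⟨RF⟩ := nonempty_rootFacts (D := chevE6) (by simp)
  have hfin : Finite (GL chevE6.Idx K) := inferInstance
  have hle : twistedE6 K q ≤ chevE6.group K := genSub_le goodE6.toGood2 _
  let e : ↥(TwE6.T6 φ hφφ hφ).G1 ≃* ↥(twistedE6 K q) := Subgroup.subgroupOfEquivOfLe hle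
  refine Row.of_equiv (row_of_leaf ?_) e
  exact ⟨_, _, dF4.rp.wsys, rtw (TwE6.T6 φ hφφ hφ), Fin.pos TwE6.j0, rtw_Grp _, exists_sylow_tw dE6 goodE6 RF p _,
    leaf_F4 dF4 _⟩

theorem row_twD4 {K : Type*} [Field K] [Fintype K] (p : ℕ) [Fact p.Prime] [CharP K p] {q : ℕ} (hq : IsPrimePow q)
    (hK : Fintype.card K = q ^ 3) : Row p ↥(twistedD4 K q) := by
  obtain ⟨φ, hφ, h3⟩ := Cfsg.Agent.Tw3.frob3 (K := K) hq hK
  obtain ⟨RF⟩ := nonempty_rootFacts (D := chevD4) (by simp)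
  have hfin : Finite (GL chevD4.Idx K) := inferInstance
  have hG : (TwD4.T4 φ).G1 = (twistedD4 K q).subgroupOf (chevD4.group K) := Tw3.hG_D4 φ hφ h3
  let e : ↥(TwD4.T4 φ).G1 ≃* ↥(twistedD4 K q) :=
    (MulEquiv.subgroupCongr hG).trans (Subgroup.subgroupOfEquivOfLe Tw3.hle_D4)
  refine Row.of_equiv (row_of_card ?_) e
  refine ⟨_, _, dG2.rp.wsys, rtw (TwD4.T4 φ), Fin.pos Tw3.j0, rtw_Grp _, exists_sylow_tw dD4 Tw3.goodD4 RF p _,
    Tw3.j0, Tw3.j1, ?_⟩
  have hq1 : 1 < q := hq.one_lt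
  have hcK : Nat.card K = q ^ 3 := by rw [Nat.card_eq_fintype_card, hK]
  have hcF : Nat.card (fixF φ) = q := card_fixF hφ hq1 three_ne_zero hK
  have c0 : Nat.card ((rtw (TwD4.T4 φ)).X (dG2.rp.wsys.p Tw3.j0)) = q ^ 3 := (TwD4.S0 φ h3).card.trans hcK
  have c1 : Nat.card ((rtw (TwD4.T4 φ)).X (dG2.rp.wsys.p Tw3.j1)) = q := (TwD4.S1 φ).card.trans hcF
  show Nat.card ((rtw (TwD4.T4 φ)).X (dG2.rp.wsys.p Tw3.j0)) ≠ Nat.card ((rtw (TwD4.T4 φ)).X (dG2.rp.wsys.p Tw3.j1))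
  rw [c0, c1]
  intro h
  have h1 : q ^ 3 = q * (q * q) := by ring
  have h2 : 1 < q * q := by nlinarith
  nlinarith

open Cfsg.Agent.Tw4 in
theorem row_twF4 {K : Type*} [Field K] [Fintype K] {m : ℕ} (hK : Fintype.card K = 2 ^ (2 * m + 1)) :
    Row 2 ↥(twistedF4 K (2 ^ m)) := by
  obtain ⟨Z, hZ⟩ := exists_Sg hK
  obtain ⟨RF0⟩ := nonempty_rootFacts (D := chevF4) (by simp)
  have hfin : Finite (GL chevF4.Idx K) := inferInstance
  have h2 := Z.two
  have hchar : CharP K 2 := CharTwo.of_one_ne_zero_of_two_eq_zero one_ne_zero h2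
  have hG := hG_F4 Z hZ
  let e : ↥(tF Z).G1 ≃* ↥(twistedF4 K (2 ^ m)) :=
    (MulEquiv.subgroupCongr hG).trans (Subgroup.subgroupOfEquivOfLe hle_F4)
  refine Row.of_equiv (row_of_card ?_) e
  have mem0 : ∀ x : ↥(tF Z).G1, x ∈ (rtw (tF Z)).X (S16.p 0) ↔ ∃ t, (x : ↥(chevF4.group K)) = eP Z t := by
    intro x
    rw [mem_rtw_X]
    refine (mem_X0 Z (x : ↥(chevF4.group K))).trans ?_
    exact ⟨fun ⟨t, h⟩ => ⟨t, h.symm⟩, fun ⟨t, h⟩ => ⟨t, h.symm⟩⟩
  have mem1 : ∀ x : ↥(tF Z).G1, x ∈ (rtw (tF Z)).X (S16.p 1) ↔ ∃ t u, (x : ↥(chevF4.group K)) = fP Z t u := by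
    intro x
    rw [mem_rtw_X]
    refine (mem_X1 Z (x : ↥(chevF4.group K))).trans ?_
    exact ⟨fun ⟨t, u, h⟩ => ⟨t, u, h.symm⟩, fun ⟨t, u, h⟩ => ⟨t, u, h.symm⟩⟩
  refine ⟨2, 16, S16, rtw (tF Z), by norm_num, rtw_Grp _, exists_sylow_tw dF4 goodF4 RF0 2 _, 0, 1, ?_⟩
  show Nat.card ((rtw (tF Z)).X (S16.p 0)) ≠ Nat.card ((rtw (tF Z)).X (S16.p 1))
  have hK1 : 1 < Nat.card K := by rw [Nat.card_eq_fintype_card]; exact Fintype.one_lt_card
  have hfG : Finite ↥(tF Z).G1 := inferInstance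
  have hle0 : Nat.card ((rtw (tF Z)).X (S16.p 0)) ≤ Nat.card K := by
    choose f hf using fun x : (rtw (tF Z)).X (S16.p 0) => (mem0 x).1 x.2
    refine Nat.card_le_card_of_injective f ?_
    intro x y hxy
    apply Subtype.ext
    apply Subtype.ext
    rw [hf x, hf y, hxy]
  have hle1 : Nat.card (K × K) ≤ Nat.card ((rtw (tF Z)).X (S16.p 1)) := by
    refine Nat.card_le_card_of_injective (fun tu : K × K => (⟨⟨fP Z tu.1 tu.2, fP_G1 Z tu.1 tu.2⟩, (mem1 _).2 ⟨_, _, rfl⟩⟩ :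
      (rtw (tF Z)).X (S16.p 1))) ?_
    intro x y hxy
    have h1 : fP Z x.1 x.2 = fP Z y.1 y.2 := congrArg (fun z : (rtw (tF Z)).X (S16.p 1) => ((z : ↥(tF Z).G1) : ↥(chevF4.group K))) hxy
    obtain ⟨h3, h4⟩ := fP_inj Z h1
    exact Prod.ext h3 h4
  rw [Nat.card_prod] at hle1
  intro h
  nlinarith

end Cfsg.Agent.Uni36.PM
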