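import Cfsg.Agent.Uni36.PM5

set_option autoImplicit false
set_option linter.unusedSectionVars false

/-!
The data for the classical groups.
-/

namespace Cfsg.Agent.Uni36.PM

open Cfsg.Agent.ChevGrp Cfsg.Agent.ChevGrp.RGrp Cfsg.Agent.AutChev Cfsg.Agent.ChevWeyl
open Matrix Cfsg.Agent.ClBN Cfsg.Agent.ClBN.PolD Cfsg.Agent.ClBN.Good Cfsg.Agent.Uni

section

variable {m l : ℕ} {κ : Type} [Fintype κ] [DecidableEq κ] {F : Type*} [Field F] [Finite F] {D : PolD κ F} {S : RS m l}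

lemma FL_val {p r : PP m} (h1 : p ≠ r) (h2 : p ≠ opp r) (t : F) : D.FL p r t (E (Sum.inl r) : Ix m κ → F) (Sum.inl p) = t := by
  unfold FL
  rw [Pi.add_apply, Pi.add_apply, Pi.smul_apply, Pi.smul_apply, E_ne' h1, E_self, E_self, E_ne' h2]
  simp

lemma card_long {r : Fin (Fintype.card S.Rt)} {p s : PP m} (h1 : p ≠ s) (h2 : p ≠ opp s) (h : S.vv r = wP p - wP s) :
    Nat.card (XX S D r) = Nat.card F := by
  refine Nat.card_congr (Equiv.ofBijective (fun g : XX S D r => ac (g : GL (Ix m κ) F) (E (Sum.inl s)) (Sum.inl p)) ⟨?_, ?_⟩)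
  · intro g g' hgg
    obtain ⟨t, ht⟩ := form_long h1 h2 ((mem_XX h).1 g.2).1 ((mem_XX h).1 g.2).2
    obtain ⟨t', ht'⟩ := form_long h1 h2 ((mem_XX h).1 g'.2).1 ((mem_XX h).1 g'.2).2
    have hgg' : ac (g : GL (Ix m κ) F) (E (Sum.inl s)) (Sum.inl p) = ac (g' : GL (Ix m κ) F) (E (Sum.inl s)) (Sum.inl p) := hgg
    rw [ht, ht', FL_val h1 h2, FL_val h1 h2] at hgg'
    apply Subtype.ext
    apply ext_ac
    intro i
    rw [ht, ht', hgg']
  · intro t
    obtain ⟨g, hg, eg⟩ := D.exists_xL h1 h2 t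
    refine ⟨⟨g, (mem_XX h).2 ⟨hg, PolD.uu_xL (D := D) eg⟩⟩, ?_⟩
    show ac g (E (Sum.inl s)) (Sum.inl p) = t
    rw [eg]
    exact FL_val h1 h2 t

/-- isometry groups -/
theorem hasRG_cls {p : ℕ} [hp : Fact p.Prime] [CharP F p] (hG : ClBN.Good S D) (hl : 0 < l) {G0 : Subgroup (GL (Ix m κ) F)}
    (h0 : KK S D ≤ G0) (h1 : ∀ g ∈ G0, ∃ x ∈ KK S D, x * g ∈ HH m D) (h2 : ∀ h ∈ HH m D ⊓ G0, h ^ p = 1 → h = 1)
    {Φ : ∀ (l n : ℕ), WSys l n → (Fin l → ℕ) → Prop}
    (hΦ : Φ l (Fintype.card S.Rt) S.rp.wsys (fun i => Nat.card (XX S D (S.rp.p i)))) : HasRG p G0 Φ := by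
  have hH : ¬ p ∣ Nat.card (hG.RG0 h0).H := by
    intro hd
    obtain ⟨h, hh⟩ := exists_prime_orderOf_dvd_card' p hd
    have h3 : (h : G0) = 1 := by
      apply Subtype.ext
      apply h2 _ h.2
      have h4 : h ^ p = 1 := by rw [← hh]; exact pow_orderOf_eq_one h
      have h5 := congrArg (fun z : (hG.RG0 h0).H => ((z : G0) : GL (Ix m κ) F)) h4
      exact h5
    have h4 : h = 1 := Subtype.ext h3
    rw [h4, orderOf_one] at hh
    exact hp.out.one_lt.ne hh
  refine ⟨l, _, _, hG.RG0 h0, hl, hG.RG0_Grp h0 h1,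
    ⟨(hG.RG0_isPGroup_U h0).toSylow (ClRG.not_dvd_index_U' (hG.RG0 h0) (hG.RG0_Grp h0 h1) p (hG.RG0_isPGroup_U h0) hH), rfl⟩, ?_⟩
  have e : (fun i => Nat.card ((hG.RG0 h0).X (S.rp.wsys.p i))) = fun i => Nat.card (XX S D (S.rp.p i)) := by
    funext i
    exact Nat.card_congr (Subgroup.subgroupOfEquivOfLe ((XX_le_KK _).trans h0)).toEquiv
  rw [e]; exact hΦ

lemma FS_val (p : PP m) (v : κ → F) (d : F) : D.FS p v d (E (Sum.inl (opp p)) : Ix m κ → F) (Sum.inl p) = D.ε * D.b p * D.σ d := by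
  unfold FS
  rw [Pi.add_apply, Pi.add_apply, Pi.smul_apply, Pi.smul_apply, E_ne' (ne_opp p), E_self, E_self, r0_E_inl, D.zero_left,
    ex_inl]
  simp

lemma card_short_lt [IsEmpty κ] {r : Fin (Fintype.card S.Rt)} {p : PP m} (h : S.vv r = wP p) {y : F} (hy : D.τ y ≠ 0) :
    Nat.card (XX S D r) < Nat.card F := by
  have h1 : Nat.card {x : F // x ≠ y} < Nat.card F := Finite.card_subtype_lt (p := fun x => x ≠ y) (x := y) (by simp)
  refine lt_of_le_of_lt ?_ h1
  have hform : ∀ g : XX S D r, ∃ d, D.τ d = 0 ∧ ∀ u, ac (g : GL (Ix m κ) F) u = D.FS p 0 d u := by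
    intro g
    obtain ⟨v, d, hd, e⟩ := form_short ((mem_XX h).1 g.2).1 ((mem_XX h).1 g.2).2
    have hv : v = 0 := Subsingleton.elim _ _
    subst hv
    rw [D.q0_zero, add_zero] at hd
    exact ⟨d, hd, e⟩
  choose f hf using hform
  refine Nat.card_le_card_of_injective (fun g => (⟨f g, fun hfy => hy (by rw [← hfy]; exact (hf g).1)⟩ : {x : F // x ≠ y})) ?_
  intro g g' hgg
  have hgg' : f g = f g' := congrArg Subtype.val hgg
  apply Subtype.ext
  apply ext_ac
  intro i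
  rw [(hf g).2, (hf g').2, hgg']

lemma card_lt_short {r : Fin (Fintype.card S.Rt)} {p : PP m} (h : S.vv r = wP p) {z : κ} {y : F} (hy : y ≠ 0)
    (hy0 : D.τ y = 0) : Nat.card F < Nat.card (XX S D r) := by
  classical
  have hex : ∀ c : F, ∃ (d : F) (g : XX S D r), D.τ d + D.q0 (Pi.single z c) = 0 ∧
      ∀ u, ac (g : GL (Ix m κ) F) u = D.FS p (Pi.single z c) d u := by
    intro c
    obtain ⟨d, hd⟩ := D.ex_c (Pi.single z c)
    obtain ⟨g, hg, eg⟩ := D.exists_xS p (Pi.single z c) d hd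
    exact ⟨d, ⟨g, (mem_XX h).2 ⟨hg, PolD.uu_xS (D := D) eg⟩⟩, hd, eg⟩
  choose d g hd hg using hex
  obtain ⟨g', hg', eg'⟩ := D.exists_xS p (Pi.single z 0 : κ → F) (d 0 + y) (by rw [map_add, hy0, add_zero]; exact hd 0)
  have hg'X : g' ∈ XX S D r := (mem_XX h).2 ⟨hg', PolD.uu_xS (D := D) eg'⟩
  have hv : ∀ (x : GL (Ix m κ) F) (v : κ → F) (e : F), (∀ u, ac x u = D.FS p v e u) → r0 (ac x (E (Sum.inl (opp p)))) = v := by
    intro x v e hx
    rw [hx, FS_r0, r0_E_inl, E_self, one_smul, zero_add]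
  have hσ : Function.Injective D.σ := D.σ.injective
  let F' : Option F → XX S D r := fun o => match o with
    | none => ⟨g', hg'X⟩
    | some c => g c
  have hinj : Function.Injective F' := by
    have key : ∀ c, (⟨g', hg'X⟩ : XX S D r) ≠ g c := by
      intro c hc
      have h1 : g' = (g c : GL (Ix m κ) F) := congrArg Subtype.val hc
      have h2 := hv _ _ _ eg'
      rw [h1, hv _ _ _ (hg c)] at h2
      have h3 : c = 0 := by
        have := congrFun h2 z
        rwa [Pi.single_eq_same, Pi.single_eq_same] at this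
      subst h3
      have h4 := congrFun (eg' (E (Sum.inl (opp p)))) (Sum.inl p)
      rw [h1, hg 0] at h4
      have h5 := (FS_val (D := D) p (Pi.single z 0) (d 0)).symm.trans (h4.trans (FS_val (D := D) p (Pi.single z 0) (d 0 + y)))
      have h6 := mul_left_cancel₀ (mul_ne_zero D.ε_ne (D.b_ne p)) h5
      have h7 := hσ h6
      apply hy
      exact (left_eq_add.1 h7)
    intro a b hab
    rcases a with _ | a <;> rcases b with _ | b
    · rfl
    · exact absurd hab (key b)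
    · exact absurd hab.symm (key a)
    · have h1 : (g a : GL (Ix m κ) F) = g b := congrArg Subtype.val (show g a = g b from hab)
      have h2 := hv _ _ _ (hg a)
      rw [h1, hv _ _ _ (hg b)] at h2
      have := congrFun h2 z
      rw [Pi.single_eq_same, Pi.single_eq_same] at this
      rw [this]
  have h1 := Nat.card_le_card_of_injective F' hinj
  rw [Finite.card_option] at h1
  omega

end

/-! ### symplectic and unitary groups -/

theorem row_Sp (p : ℕ) [Fact p.Prime] (F : Type) [Field F] [Fintype F] [CharP F p] (m : ℕ) (hm : 2 ≤ m)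
    (h3 : m = 2 → 3 ≤ Fintype.card F) : Row p (Cfsg.PSp m F) := by
  have key : ∀ Φ : ∀ (l n : ℕ), WSys l n → (Fin l → ℕ) → Prop, (∀ c, Φ m (Fintype.card (rsB m).Rt) (rsB m).rp.wsys c) →
      HasRG p (Cfsg.PSp m F) Φ := by
    intro Φ hΦ
    have h : HasRG p ((polSp F).Γ m) Φ := hasRG_cls (good_Sp (F := F) m) (by omega) KK_le_Γ
      (fun g hg => (good_Sp m).gen_B (fun p => Or.inr ⟨p, rfl⟩) hg)
      (fun h hh hp => eq_one_of_pow hh.1.2 hp) (hΦ _)
    have h' := h.of_equiv (spEquiv m F)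
    exact h'.of_surj (QuotientGroup.mk' _) (QuotientGroup.mk'_surjective _) (by rw [QuotientGroup.ker_mk'])
  have hfin : Finite (Cfsg.PSp m F) := by
    have : Finite (Matrix.symplecticGroup (Fin m) F) := inferInstance
    exact Finite.of_surjective _ (QuotientGroup.mk'_surjective (Subgroup.center (Matrix.symplecticGroup (Fin m) F)))
  by_cases h2 : m = 2
  · subst h2
    refine row_of_two (key (PhiRank 2) (fun c => rfl)) ?_
    by_cases hp : p = 2
    · subst hp
      right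
      refine Or.inr (Or.inl ⟨F, inferInstance, inferInstance, inferInstance, ?_, ⟨MulEquiv.refl _⟩⟩)
      have h4 := h3 rfl
      obtain ⟨n, hn⟩ := FiniteField.card F 2
      rcases Nat.lt_or_ge 3 (Fintype.card F) with h5 | h5
      · exact h5
      · exfalso
        have h6 : Fintype.card F = 3 := le_antisymm h5 h4
        rw [hn.2] at h6
        have h7 : 2 ∣ 2 ^ (n : ℕ) := dvd_pow_self 2 n.pos.ne'
        rw [h6] at h7
        omega
    · exact Or.inl hp
  · exact row_of_leaf (key PhiLeaf (fun c => leaf_B (by omega) c))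

section uni

variable {F : Type} [Field F] [Fintype F] {q : ℕ}

theorem row_SU (p : ℕ) [hp : Fact p.Prime] [CharP F p] (hF : Fintype.card F = q ^ 2) (n : ℕ) (hn : 3 ≤ n)
    (hq : ¬ (n = 3 ∧ q = 2)) : Row p (Cfsg.PSU n F q) := by
  have hfin : Finite (Cfsg.PSU n F q) := by
    have : Finite (SU n F q) := inferInstance
    exact Finite.of_surjective _ (QuotientGroup.mk'_surjective (Subgroup.center (SU n F q)))
  by_cases h3 : n = 3
  · subst h3
    refine row_of_one (hasRG_of_hasBN (hasBN_PSU hF p 3 (by norm_num) (fun _ h => hq ⟨rfl, h⟩))) ?_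
    exact Or.inr (Or.inl ⟨F, inferInstance, inferInstance, inferInstance, q, hF, fun h => hq ⟨rfl, h⟩, ⟨MulEquiv.refl _⟩⟩)
  have hsurj : ∀ Φ : ∀ (l n : ℕ), WSys l n → (Fin l → ℕ) → Prop, HasRG p (SU n F q) Φ → HasRG p (Cfsg.PSU n F q) Φ :=
    fun Φ h' => h'.of_surj (QuotientGroup.mk' _) (QuotientGroup.mk'_surjective _) (by rw [QuotientGroup.ker_mk'])
  rcases Nat.even_or_odd' n with ⟨m, rfl | rfl⟩
  · have key : ∀ Φ : ∀ (l n : ℕ), WSys l n → (Fin l → ℕ) → Prop, (Φ m (Fintype.card (rsB m).Rt) (rsB m).rp.wsys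
        (fun i => Nat.card (XX (rsB m) (polU Empty hF) ((rsB m).rp.p i)))) → HasRG p (SU (2 * m) F q) Φ := by
      intro Φ hΦ
      obtain ⟨e⟩ := exists_suEquiv (m := m) (κ := Empty) hF (n := 2 * m) (by simp; omega)
      have h : HasRG p (G0U Empty m hF) Φ := hasRG_cls (good_U m hF) (by omega) (KK_le_G0U (p := p) hF)
        (fun _ hg => (good_U m hF).gen_B (fun p => Or.inr ⟨p, rfl⟩) hg.1)
        (fun _ hh hp => eq_one_of_pow hh.1.2 hp) hΦ
      exact h.of_equiv e
    by_cases h2 : m = 2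
    · subst h2
      refine row_of_card (hsurj _ (key PhiCard ⟨0, 1, ?_⟩))
      have e0 : (rsB 2).vv ((rsB 2).rp.p 0) = wP (Sum.inl 0 : PP 2) - wP (Sum.inl 1 : PP 2) := by
        rw [(rsB 2).vv_p]; rfl
      have e1 : (rsB 2).vv ((rsB 2).rp.p 1) = wP (Sum.inl 1 : PP 2) := by
        rw [(rsB 2).vv_p]; rfl
      obtain ⟨y, hy⟩ := exists_trace_ne hF
      have h1 := card_long (D := polU Empty hF) (by decide) (by decide) e0
      have h4 := card_short_lt (D := polU Empty hF) e1 (y := y) hy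
      show Nat.card (XX (rsB 2) (polU Empty hF) ((rsB 2).rp.p 0)) ≠ Nat.card (XX (rsB 2) (polU Empty hF) ((rsB 2).rp.p 1))
      rw [h1]; exact h4.ne'
    · exact row_of_leaf (hsurj _ (key PhiLeaf (leaf_B (by omega) _)))
  · have key : ∀ Φ : ∀ (l n : ℕ), WSys l n → (Fin l → ℕ) → Prop, (Φ m (Fintype.card (rsB m).Rt) (rsB m).rp.wsys
        (fun i => Nat.card (XX (rsB m) (polU Unit hF) ((rsB m).rp.p i)))) → HasRG p (SU (2 * m + 1) F q) Φ := by
      intro Φ hΦ
      obtain ⟨e⟩ := exists_suEquiv (m := m) (κ := Unit) hF (n := 2 * m + 1) (by simp; omega)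
      have h : HasRG p (G0U Unit m hF) Φ := hasRG_cls (good_U m hF) (by omega) (KK_le_G0U (p := p) hF)
        (fun _ hg => (good_U m hF).gen_B (fun p => Or.inr ⟨p, rfl⟩) hg.1)
        (fun _ hh hp => eq_one_of_pow hh.1.2 hp) hΦ
      exact h.of_equiv e
    by_cases h2 : m = 2
    · subst h2
      refine row_of_card (hsurj _ (key PhiCard ⟨0, 1, ?_⟩))
      have e0 : (rsB 2).vv ((rsB 2).rp.p 0) = wP (Sum.inl 0 : PP 2) - wP (Sum.inl 1 : PP 2) := by
        rw [(rsB 2).vv_p]; rfl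
      have e1 : (rsB 2).vv ((rsB 2).rp.p 1) = wP (Sum.inl 1 : PP 2) := by
        rw [(rsB 2).vv_p]; rfl
      obtain ⟨y, hy⟩ := exists_conj_ne hF
      have h1 := card_long (D := polU Unit hF) (by decide) (by decide) e0
      have h4 := card_lt_short (D := polU Unit hF) e1 (z := ()) (y := y - Uni.conjHom hF y)
        (fun h => hy (sub_eq_zero.1 h).symm) (by
          show y - Uni.conjHom hF y + Uni.conjHom hF (y - Uni.conjHom hF y) = 0
          rw [map_sub, Uni.conjHom_involutive]; ring)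
      show Nat.card (XX (rsB 2) (polU Unit hF) ((rsB 2).rp.p 0)) ≠ Nat.card (XX (rsB 2) (polU Unit hF) ((rsB 2).rp.p 1))
      rw [h1]; exact h4.ne
    · exact row_of_leaf (hsurj _ (key PhiLeaf (leaf_B (by omega) _)))

end uni

end Cfsg.Agent.Uni36.PM
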